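import Mathlib

/-!
# Centralizer and element counts in `A₆`
-/

set_option autoImplicit false
set_option maxRecDepth 100000

namespace Cfsg.Agent.Lib.Cl.A6Facts

open Equiv.Perm Equiv

/-- Permutations of six points. -/
abbrev P6 := Equiv.Perm (Fin 6)

/-- Even permutations commuting with `x`. -/
def Cn (x : P6) : Finset P6 := Finset.univ.filter (fun a => Equiv.Perm.sign a = 1 ∧ a * x = x * a)

/-- a five-cycle -/
def c5 : P6 := swap 0 1 * swap 1 2 * swap 2 3 * swap 3 4
/-- a three-cycle -/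
def c3 : P6 := swap 0 1 * swap 1 2
/-- a product of two three-cycles -/
def c33 : P6 := swap 0 1 * swap 1 2 * (swap 3 4 * swap 4 5)
/-- a double transposition -/
def t2 : P6 := swap 0 1 * swap 2 3

theorem Cn_c5 : (Cn c5).card ≤ 5 := by decide
theorem Cn_c3 : (Cn c3).card ≤ 9 := by decide
theorem Cn_c33 : (Cn c33).card ≤ 9 := by decide
theorem Cn_t2 : (Cn t2).card ≤ 8 := by decide

theorem count5 : (Finset.univ.filter (fun a : P6 => Equiv.Perm.sign a = 1 ∧ a ^ 5 = 1 ∧ a ≠ 1)).card ≤ 144 := by decide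
theorem count3 : (Finset.univ.filter (fun a : P6 => Equiv.Perm.sign a = 1 ∧ a ^ 3 = 1 ∧ a ≠ 1)).card ≤ 80 := by decide

theorem order_c5 : orderOf c5 = 5 := by
  haveI : Fact (Nat.Prime 5) := ⟨by norm_num⟩
  exact orderOf_eq_prime (by decide) (by decide)
theorem order_c3 : orderOf c3 = 3 := orderOf_eq_prime (by decide) (by decide)
theorem order_c33 : orderOf c33 = 3 := orderOf_eq_prime (by decide) (by decide)
theorem order_t2 : orderOf t2 = 2 := orderOf_eq_prime (by decide) (by decide)
theorem supp_c5 : c5.support.card = 5 := by decide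
theorem supp_c3 : c3.support.card = 3 := by decide
theorem supp_c33 : c33.support.card = 6 := by decide
theorem supp_t2 : t2.support.card = 4 := by decide

theorem Cn_conj (σ x : P6) : (Cn (σ * x * σ⁻¹)).card = (Cn x).card := by
  refine Finset.card_bij' (fun a _ => σ⁻¹ * a * σ) (fun a _ => σ * a * σ⁻¹) ?_ ?_ ?_ ?_
  · intro a ha
    simp only [Cn, Finset.mem_filter, Finset.mem_univ, true_and] at ha ⊢
    obtain ⟨h1, h2⟩ := ha
    refine ⟨?_, ?_⟩
    · rw [map_mul, map_mul, map_inv, h1, mul_one, inv_mul_cancel]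
    · have h3 : σ⁻¹ * a * σ * x = σ⁻¹ * (a * (σ * x * σ⁻¹)) * σ := by group
      have h4 : x * (σ⁻¹ * a * σ) = σ⁻¹ * ((σ * x * σ⁻¹) * a) * σ := by group
      rw [h3, h4, h2]
  · intro a ha
    simp only [Cn, Finset.mem_filter, Finset.mem_univ, true_and] at ha ⊢
    obtain ⟨h1, h2⟩ := ha
    refine ⟨?_, ?_⟩
    · rw [map_mul, map_mul, map_inv, h1, mul_one, mul_inv_cancel]
    · have h3 : σ * a * σ⁻¹ * (σ * x * σ⁻¹) = σ * (a * x) * σ⁻¹ := by group
      have h4 : σ * x * σ⁻¹ * (σ * a * σ⁻¹) = σ * (x * a) * σ⁻¹ := by group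
      rw [h3, h4, h2]
  · intro a _
    group
  · intro a _
    group

theorem isConj_of_prime_order {x y : P6} (hp : (orderOf x).Prime) (hxy : orderOf x = orderOf y)
    (hs : x.support.card = y.support.card) : IsConj x y := by
  obtain ⟨n, hn⟩ := cycleType_prime_order hp
  obtain ⟨m, hm⟩ := cycleType_prime_order (hxy ▸ hp)
  rw [Equiv.Perm.isConj_iff_cycleType_eq, hn, hm, ← hxy]
  have h1 := Equiv.Perm.sum_cycleType x
  have h2 := Equiv.Perm.sum_cycleType y
  rw [hn, Multiset.sum_replicate, hs, ← h2, hm, Multiset.sum_replicate, ← hxy] at h1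
  simp only [smul_eq_mul] at h1
  have h3 : n + 1 = m + 1 := Nat.eq_of_mul_eq_mul_right hp.pos h1
  rw [h3]

theorem support_le (x : P6) : x.support.card ≤ 6 := by
  calc x.support.card ≤ Fintype.card (Fin 6) := Finset.card_le_univ _
    _ = 6 := Fintype.card_fin 6

theorem Cn_order5 (x : P6) (hx : orderOf x = 5) : (Cn x).card ≤ 5 := by
  have hp : (orderOf x).Prime := by rw [hx]; norm_num
  obtain ⟨n, hn⟩ := cycleType_prime_order hp
  have h1 := Equiv.Perm.sum_cycleType x
  rw [hn, Multiset.sum_replicate, hx] at h1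
  simp only [smul_eq_mul] at h1
  have h2 := support_le x
  have h3 : x.support.card = 5 := by omega
  have hc : IsConj x c5 := isConj_of_prime_order hp (by rw [hx, order_c5]) (by rw [h3, supp_c5])
  obtain ⟨σ, hσ⟩ := isConj_iff.mp hc
  rw [← Cn_conj σ x, hσ]
  exact Cn_c5

theorem Cn_order3 (x : P6) (hx : orderOf x = 3) : (Cn x).card ≤ 9 := by
  have hp : (orderOf x).Prime := by rw [hx]; norm_num
  obtain ⟨n, hn⟩ := cycleType_prime_order hp
  have h1 := Equiv.Perm.sum_cycleType x
  rw [hn, Multiset.sum_replicate, hx] at h1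
  simp only [smul_eq_mul] at h1
  have h2 := support_le x
  have h3 : x.support.card = 3 ∨ x.support.card = 6 := by omega
  rcases h3 with h3 | h3
  · have hc : IsConj x c3 := isConj_of_prime_order hp (by rw [hx, order_c3]) (by rw [h3, supp_c3])
    obtain ⟨σ, hσ⟩ := isConj_iff.mp hc
    rw [← Cn_conj σ x, hσ]
    exact Cn_c3
  · have hc : IsConj x c33 := isConj_of_prime_order hp (by rw [hx, order_c33]) (by rw [h3, supp_c33])
    obtain ⟨σ, hσ⟩ := isConj_iff.mp hc
    rw [← Cn_conj σ x, hσ]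
    exact Cn_c33

theorem Cn_order2 (x : P6) (hx : orderOf x = 2) (hs : Equiv.Perm.sign x = 1) : (Cn x).card ≤ 8 := by
  have hp : (orderOf x).Prime := by rw [hx]; norm_num
  obtain ⟨n, hn⟩ := cycleType_prime_order hp
  have h1 := Equiv.Perm.sum_cycleType x
  rw [hn, Multiset.sum_replicate, hx] at h1
  simp only [smul_eq_mul] at h1
  have h2 := support_le x
  have hsg := Equiv.Perm.sign_of_cycleType x
  rw [hn, hx, hs] at hsg
  have h3 : n = 1 := by
    have hn3 : n = 0 ∨ n = 1 ∨ n = 2 := by omega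
    rcases hn3 with rfl | rfl | rfl
    · exfalso
      revert hsg
      decide
    · rfl
    · exfalso
      revert hsg
      decide
  have h4 : x.support.card = 4 := by omega
  have hc : IsConj x t2 := isConj_of_prime_order hp (by rw [hx, order_t2]) (by rw [h4, supp_t2])
  obtain ⟨σ, hσ⟩ := isConj_iff.mp hc
  rw [← Cn_conj σ x, hσ]
  exact Cn_t2

end Cfsg.Agent.Lib.Cl.A6Facts
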