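import Mathlib
import Cfsg.Agent.Lib.Cl.A6Facts
import Cfsg.Agent.Lib.Core.Basic
import Cfsg.Agent.Lib.Spec.AGL2F4

/-!
# Sylow `2`-subgroups of `Aut(A₆)` intersect pairwise
-/

set_option autoImplicit false

namespace Cfsg.Agent.Lib.Cl.AutA6

open Cfsg.Agent.Lib.Cl.A6Facts
open scoped Pointwise

variable {G : Type*} [Group G] [Finite G]

/-- The embedding `N → S₆`. -/
def phi {N : Subgroup G} (e : N ≃* alternatingGroup (Fin 6)) : N →* Equiv.Perm (Fin 6) :=
  (alternatingGroup (Fin 6)).subtype.comp e.toMonoidHom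

theorem phi_inj {N : Subgroup G} (e : N ≃* alternatingGroup (Fin 6)) : Function.Injective (phi e) :=
  (alternatingGroup (Fin 6)).subtype_injective.comp e.injective

theorem phi_sign {N : Subgroup G} (e : N ≃* alternatingGroup (Fin 6)) (z : N) :
    Equiv.Perm.sign (phi e z) = 1 := (e z).2

theorem phi_order {N : Subgroup G} (e : N ≃* alternatingGroup (Fin 6)) (z : N) :
    orderOf (phi e z) = orderOf (z : G) := by
  rw [orderOf_injective (phi e) (phi_inj e), Subgroup.orderOf_coe]

theorem card_cent_sub {N : Subgroup G} (e : N ≃* alternatingGroup (Fin 6)) (z : N) :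
    Nat.card (N.subgroupOf (Subgroup.centralizer {(z : G)})) ≤ (Cn (phi e z)).card := by
  classical
  let f : N.subgroupOf (Subgroup.centralizer {(z : G)}) → ↥(Cn (phi e z)) := fun w =>
    ⟨phi e ⟨(w : Subgroup.centralizer {(z : G)}), w.2⟩, by
      simp only [Cn, Finset.mem_filter, Finset.mem_univ, true_and]
      refine ⟨phi_sign e _, ?_⟩
      rw [← map_mul, ← map_mul]
      congr 1
      apply Subtype.ext
      exact (Subgroup.mem_centralizer_singleton_iff.mp (w : Subgroup.centralizer {(z : G)}).2)⟩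
  have hf : Function.Injective f := by
    intro a b hab
    have h0 := congrArg Subtype.val hab
    have h1 := phi_inj e h0
    have h2 := congrArg Subtype.val h1
    exact Subtype.ext (Subtype.ext h2)
  have h3 := Nat.card_le_card_of_injective f hf
  rwa [Nat.card_eq_fintype_card (α := ↥(Cn (phi e z))), Fintype.card_coe] at h3

variable {N : Subgroup G} [hNn : N.Normal]

theorem card_centralizer_le (hidx : N.index = 4) (e : N ≃* alternatingGroup (Fin 6)) (z : N) (b : ℕ)
    (hb : (Cn (phi e z)).card ≤ b) : Nat.card (Subgroup.centralizer {(z : G)}) ≤ b * 4 := by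
  have h1 := Subgroup.card_mul_index (N.subgroupOf (Subgroup.centralizer {(z : G)}))
  have h2 : N.relIndex (Subgroup.centralizer {(z : G)}) ∣ N.index := Subgroup.relIndex_dvd_index_of_normal _ _
  rw [hidx] at h2
  have h3 : (N.subgroupOf (Subgroup.centralizer {(z : G)})).index ≤ 4 := Nat.le_of_dvd (by norm_num) h2
  rw [← h1]
  exact Nat.mul_le_mul ((card_cent_sub e z).trans hb) h3

/-- Elements of order `m` in `N` bound the index of the centralizer. -/
theorem index_centralizer_le (z : N) (m c : ℕ) (e : N ≃* alternatingGroup (Fin 6)) (hm : orderOf (z : G) = m)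
    (hc : (Finset.univ.filter (fun a : Equiv.Perm (Fin 6) => Equiv.Perm.sign a = 1 ∧ a ^ m = 1 ∧ a ≠ 1)).card ≤ c)
    (hm1 : m ≠ 1) :
    (Subgroup.centralizer {(z : G)}).index ≤ c := by
  classical
  set B := Subgroup.centralizer {(z : G)} with hB
  have hz1 : ∀ g : G, g * (z : G) * g⁻¹ ∈ N := fun g => hNn.conj_mem _ z.2 g
  let f : G ⧸ B → ↥(Finset.univ.filter (fun a : Equiv.Perm (Fin 6) => Equiv.Perm.sign a = 1 ∧ a ^ m = 1 ∧ a ≠ 1)) :=
    fun q => ⟨phi e ⟨q.out * (z : G) * q.out⁻¹, hz1 q.out⟩, by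
      simp only [Finset.mem_filter, Finset.mem_univ, true_and]
      refine ⟨phi_sign e _, ?_, ?_⟩
      · rw [← map_pow]
        have h1 : (⟨q.out * (z : G) * q.out⁻¹, hz1 q.out⟩ : N) ^ m = 1 := by
          apply Subtype.ext
          simp only [Subgroup.coe_pow, Subgroup.coe_one]
          rw [conj_pow, ← hm, pow_orderOf_eq_one]
          group
        rw [h1, map_one]
      · intro h
        have h1 : (⟨q.out * (z : G) * q.out⁻¹, hz1 q.out⟩ : N) = 1 := phi_inj e (by rw [h, map_one])
        have h2 : q.out * (z : G) * q.out⁻¹ = 1 := congrArg Subtype.val h1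
        have h3 : (z : G) = 1 := by
          have : (z : G) = q.out⁻¹ * (q.out * (z : G) * q.out⁻¹) * q.out := by group
          rw [this, h2]
          group
        apply hm1
        rw [← hm, h3, orderOf_one]⟩
  have hf : Function.Injective f := by
    intro q q' h
    have h0 := congrArg Subtype.val h
    have h1 := phi_inj e h0
    have h2 : q.out * (z : G) * q.out⁻¹ = q'.out * (z : G) * q'.out⁻¹ := congrArg Subtype.val h1
    rw [← q.out_eq', ← q'.out_eq', QuotientGroup.eq]
    refine Subgroup.mem_centralizer_singleton_iff.mpr ?_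
    calc q.out⁻¹ * q'.out * (z : G) = q.out⁻¹ * (q'.out * (z : G) * q'.out⁻¹) * q'.out := by group
      _ = q.out⁻¹ * (q.out * (z : G) * q.out⁻¹) * q'.out := by rw [h2]
      _ = (z : G) * (q.out⁻¹ * q'.out) := by group
  have h3 := Nat.card_le_card_of_injective f hf
  rw [Nat.card_eq_fintype_card (α := ↥(Finset.univ.filter _)), Fintype.card_coe] at h3
  exact h3.trans hc

/-- The centralizer of an element of order `3` or `5` has even order. -/
theorem even_centralizer (hcard : Nat.card G = 1440) (hidx : N.index = 4) (e : N ≃* alternatingGroup (Fin 6))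
    (z : N) (m b c : ℕ) (hm : orderOf (z : G) = m) (hm1 : m ≠ 1) (hb : (Cn (phi e z)).card ≤ b)
    (hc : (Finset.univ.filter (fun a : Equiv.Perm (Fin 6) => Equiv.Perm.sign a = 1 ∧ a ^ m = 1 ∧ a ≠ 1)).card ≤ c)
    (hbc : b * c < 1440) : Even (Nat.card (Subgroup.centralizer {(z : G)})) := by
  by_contra hodd
  set B := Subgroup.centralizer {(z : G)} with hB
  have h1 := Subgroup.card_mul_index (N.subgroupOf B)
  have h2 : (N.subgroupOf B).index ∣ N.index := Subgroup.relIndex_dvd_index_of_normal _ _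
  rw [hidx] at h2
  have h3 : (N.subgroupOf B).index = 1 := by
    have h4 : ¬ Even (N.subgroupOf B).index := by
      intro h5
      apply hodd
      rw [← h1]
      exact h5.mul_left _
    have h2' : (N.subgroupOf B).index ∣ 2 ^ 2 := by simpa using h2
    obtain ⟨k, _, hk'⟩ := (Nat.dvd_prime_pow Nat.prime_two).mp h2'
    rcases k with _ | k
    · rw [hk', pow_zero]
    · exfalso
      apply h4
      rw [hk', pow_succ]
      exact even_two.mul_left _
  rw [h3, mul_one] at h1
  have h4 : Nat.card B ≤ b := by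
    rw [← h1]
    exact (card_cent_sub e z).trans hb
  have h5 := index_centralizer_le z m c e hm hc hm1
  have h6 := Subgroup.card_mul_index B
  rw [hcard] at h6
  have h7 : Nat.card B * B.index ≤ b * c := Nat.mul_le_mul h4 h5
  omega

omit [Finite G] in
/-- An involution acting on a subgroup of even order fixes a non-identity element. -/
theorem exists_fixed [Finite G] (B : Subgroup G) (t : G) (ht : t * t = 1) (htB : ∀ b ∈ B, t * b * t⁻¹ ∈ B)
    (hev : Even (Nat.card B)) : ∃ g ∈ B, g ≠ 1 ∧ g * t = t * g := by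
  classical
  haveI : Fintype B := Fintype.ofFinite _
  let f : Function.End B := fun b => ⟨t * b * t⁻¹, htB b b.2⟩
  have htinv : t⁻¹ = t := inv_eq_of_mul_eq_one_left ht
  have hf : f ^ 2 ^ 1 = 1 := by
    apply funext
    intro b
    apply Subtype.ext
    show t * (t * (b : G) * t⁻¹) * t⁻¹ = b
    rw [htinv]
    calc t * (t * (b : G) * t) * t = (t * t) * b * (t * t) := by group
      _ = b := by rw [ht]; group
  have h1 := Equiv.Perm.card_fixedPoints_modEq (p := 2) (n := 1) hf
  rw [← Nat.card_eq_fintype_card, ← Nat.card_eq_fintype_card] at h1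
  have h2 : Nat.card f.fixedPoints % 2 = 0 := by
    rw [← h1]
    exact Nat.even_iff.mp hev
  have h3 : (1 : B) ∈ f.fixedPoints := by
    apply Subtype.ext
    show t * (1 : G) * t⁻¹ = 1
    simp
  haveI : Nontrivial f.fixedPoints := by
    rw [← Finite.one_lt_card_iff_nontrivial]
    have h4 : 0 < Nat.card f.fixedPoints := by
      haveI : Nonempty f.fixedPoints := ⟨⟨1, h3⟩⟩
      exact Nat.card_pos
    omega
  obtain ⟨y, hy⟩ := exists_ne (⟨1, h3⟩ : f.fixedPoints)
  refine ⟨((y : B) : G), (y : B).2, ?_, ?_⟩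
  · intro h
    apply hy
    apply Subtype.ext
    apply Subtype.ext
    exact h
  · have h4 : t * ((y : B) : G) * t⁻¹ = (y : B) := congrArg Subtype.val y.2
    calc ((y : B) : G) * t = (t * ((y : B) : G) * t⁻¹) * t := by rw [h4]
      _ = t * (y : B) := by group

/-- **Two involutions of `N` have a common centralizing element.** -/
theorem exists_common (hcard : Nat.card G = 1440) (hidx : N.index = 4) (e : N ≃* alternatingGroup (Fin 6))
    (t t' : G) (ht : t ∈ N) (ht' : t' ∈ N) (htt : t * t = 1) (htt' : t' * t' = 1) (ht1 : t ≠ 1) :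
    ∃ g : G, g ≠ 1 ∧ g * t = t * g ∧ g * t' = t' * g := by
  have htinv : t⁻¹ = t := inv_eq_of_mul_eq_one_left htt
  have htinv' : t'⁻¹ = t' := inv_eq_of_mul_eq_one_left htt'
  obtain ⟨r, hr⟩ : ∃ r, r = t * t' := ⟨_, rfl⟩
  have hrN : r ∈ N := hr ▸ mul_mem ht ht'
  have hrinv : r⁻¹ = t' * t := by
    rw [hr, mul_inv_rev, htinv, htinv']
  have htr : t * r * t⁻¹ = r⁻¹ := by
    rw [hrinv, hr, htinv, mul_assoc, mul_assoc, ← mul_assoc t t, htt, one_mul]
  have ht'r : t' * r * t'⁻¹ = r⁻¹ := by
    rw [hrinv, hr, htinv']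
    calc t' * (t * t') * t' = t' * t * (t' * t') := by group
      _ = t' * t := by rw [htt', mul_one]
  have ht'eq : t' = t * r := by
    rw [hr, ← mul_assoc, htt, one_mul]
  have hspec : orderOf r ∈ ({1, 2, 3, 4, 5} : Set ℕ) := by
    rw [← Cfsg.Agent.Lib.Spec.spec_A6]
    refine ⟨e ⟨r, hrN⟩, ?_⟩
    rw [MulEquiv.orderOf_eq, Subgroup.orderOf_mk]
  have hinv_pow : ∀ (a k : ℕ) (s : G), s * r * s⁻¹ = r⁻¹ → r ^ (2 * a) = 1 → r ^ a * s = s * r ^ a := by
    intro a k s hs h
    have h1 : s * r ^ a * s⁻¹ = (r ^ a)⁻¹ := by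
      rw [← conj_pow, hs, inv_pow]
    have h2 : (r ^ a)⁻¹ = r ^ a := by
      apply inv_eq_of_mul_eq_one_left
      rw [← pow_add, ← two_mul, h]
    calc r ^ a * s = (s * r ^ a * s⁻¹) * s := by rw [h1, h2]
      _ = s * r ^ a := by group
  simp only [Set.mem_insert_iff, Set.mem_singleton_iff] at hspec
  rcases hspec with h | h | h | h | h
  · -- `t = t'`
    have h1 : r = 1 := orderOf_eq_one_iff.mp h
    have h2 : t' = t := by rw [ht'eq, h1, mul_one]
    exact ⟨t, ht1, rfl, by rw [h2]⟩
  · -- order two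
    have h1 : r ^ (2 * 1) = 1 := by rw [mul_one, ← h, pow_orderOf_eq_one]
    have h2 : r ≠ 1 := by
      intro h3
      rw [h3, orderOf_one] at h
      omega
    have h3 := hinv_pow 1 0 t htr h1
    have h4 := hinv_pow 1 0 t' ht'r h1
    rw [pow_one] at h3 h4
    exact ⟨r, h2, h3, h4⟩
  · -- order three
    have hb := Cn_order3 (phi e ⟨r, hrN⟩) (by rw [phi_order]; exact h)
    have hc := even_centralizer hcard hidx e ⟨r, hrN⟩ 3 9 80 h (by norm_num) hb count3 (by norm_num)
    obtain ⟨g, hg, hg1, hgt⟩ := exists_fixed (Subgroup.centralizer {r}) t htt (by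
      intro b hb
      have h1 : b * r = r * b := Subgroup.mem_centralizer_singleton_iff.mp hb
      refine Subgroup.mem_centralizer_singleton_iff.mpr ?_
      have h2 : t * r * t⁻¹ = r⁻¹ := htr
      have h3 : t⁻¹ * r * t = r⁻¹ := by rw [htinv]; exact (by rw [← htr, htinv])
      calc t * b * t⁻¹ * r = t * (b * (t⁻¹ * r * t)) * t⁻¹ := by group
        _ = t * (b * r⁻¹) * t⁻¹ := by rw [h3]
        _ = t * (r⁻¹ * (r * b) * r⁻¹) * t⁻¹ := by group
        _ = t * (r⁻¹ * (b * r) * r⁻¹) * t⁻¹ := by rw [h1]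
        _ = t * (r⁻¹ * b) * t⁻¹ := by group
        _ = (t * r⁻¹ * t⁻¹) * (t * b * t⁻¹) := by group
        _ = r * (t * b * t⁻¹) := by
            have h4 : t * r⁻¹ * t⁻¹ = r := by
              have h5 : t * r⁻¹ * t⁻¹ = (t * r * t⁻¹)⁻¹ := by group
              rw [h5, h2, inv_inv]
            rw [h4]) hc
    have hgr : g * r = r * g := Subgroup.mem_centralizer_singleton_iff.mp hg
    refine ⟨g, hg1, hgt, ?_⟩
    rw [ht'eq]
    calc g * (t * r) = (g * t) * r := by group
      _ = t * (g * r) := by rw [hgt]; group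
      _ = t * r * g := by rw [hgr]; group
  · -- order four
    have h1 : r ^ (2 * 2) = 1 := by
      have : (2 * 2 : ℕ) = 4 := rfl
      rw [this, ← h, pow_orderOf_eq_one]
    have h2 : r ^ 2 ≠ 1 := by
      intro h3
      have := orderOf_dvd_of_pow_eq_one h3
      rw [h] at this
      omega
    exact ⟨r ^ 2, h2, hinv_pow 2 0 t htr h1, hinv_pow 2 0 t' ht'r h1⟩
  · -- order five
    have hb := Cn_order5 (phi e ⟨r, hrN⟩) (by rw [phi_order]; exact h)
    have hc := even_centralizer hcard hidx e ⟨r, hrN⟩ 5 5 144 h (by norm_num) hb count5 (by norm_num)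
    obtain ⟨g, hg, hg1, hgt⟩ := exists_fixed (Subgroup.centralizer {r}) t htt (by
      intro b hb
      have h1 : b * r = r * b := Subgroup.mem_centralizer_singleton_iff.mp hb
      refine Subgroup.mem_centralizer_singleton_iff.mpr ?_
      have h2 : t * r * t⁻¹ = r⁻¹ := htr
      have h3 : t⁻¹ * r * t = r⁻¹ := by rw [htinv]; exact (by rw [← htr, htinv])
      calc t * b * t⁻¹ * r = t * (b * (t⁻¹ * r * t)) * t⁻¹ := by group
        _ = t * (b * r⁻¹) * t⁻¹ := by rw [h3]
        _ = t * (r⁻¹ * (r * b) * r⁻¹) * t⁻¹ := by group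
        _ = t * (r⁻¹ * (b * r) * r⁻¹) * t⁻¹ := by rw [h1]
        _ = t * (r⁻¹ * b) * t⁻¹ := by group
        _ = (t * r⁻¹ * t⁻¹) * (t * b * t⁻¹) := by group
        _ = r * (t * b * t⁻¹) := by
            have h4 : t * r⁻¹ * t⁻¹ = r := by
              have h5 : t * r⁻¹ * t⁻¹ = (t * r * t⁻¹)⁻¹ := by group
              rw [h5, h2, inv_inv]
            rw [h4]) hc
    have hgr : g * r = r * g := Subgroup.mem_centralizer_singleton_iff.mp hg
    refine ⟨g, hg1, hgt, ?_⟩
    rw [ht'eq]
    calc g * (t * r) = (g * t) * r := by group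
      _ = t * (g * r) := by rw [hgt]; group
      _ = t * r * g := by rw [hgr]; group

/-- **Any two Sylow `2`-subgroups of `Aut(A₆)` meet non-trivially.** -/
theorem main (e : N ≃* alternatingGroup (Fin 6)) (hidx : N.index = 4)
    (H : Sylow 2 G) (x : G) :
    (H : Subgroup G) ⊓ MulAut.conj x • (H : Subgroup G) ≠ ⊥ := by
  classical
  haveI : Fact (Nat.Prime 2) := ⟨Nat.prime_two⟩
  have hcN : Nat.card N = 360 := by
    rw [Nat.card_congr e.toEquiv, nat_card_alternatingGroup]
    simp [Nat.factorial]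
  have hcard : Nat.card G = 1440 := by
    rw [← Subgroup.card_mul_index N, hcN, hidx]
  have h32 : 32 ∣ Nat.card H := by
    have h1 := Sylow.pow_dvd_card_of_pow_dvd_card (p := 2) H (n := 5) (by rw [hcard]; norm_num)
    simpa using h1
  -- a central involution of `H` in `N`
  haveI hnil : Group.IsNilpotent H := H.2.isNilpotent
  have hD : N.subgroupOf (H : Subgroup G) ≠ ⊥ := by
    intro h0
    have h1 := Subgroup.card_mul_index (N.subgroupOf (H : Subgroup G))
    have h2 : (N.subgroupOf (H : Subgroup G)).index ∣ N.index := Subgroup.relIndex_dvd_index_of_normal _ _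
    rw [hidx] at h2
    rw [h0, Subgroup.card_bot, one_mul] at h1
    rw [h0] at h2
    rw [← h1] at h32
    have := h32.trans h2
    omega
  have hD2 := Cfsg.Agent.Lib.Core.normal_inf_center_ne_bot _ hD
  have hK2 : IsPGroup 2 ↥(N.subgroupOf (H : Subgroup G) ⊓ Subgroup.center H) := H.2.to_subgroup _
  haveI hKnt : Nontrivial ↥(N.subgroupOf (H : Subgroup G) ⊓ Subgroup.center H) :=
    (Subgroup.nontrivial_iff_ne_bot _).mpr hD2
  obtain ⟨n, hn0, hn⟩ := hK2.nontrivial_iff_card.mp hKnt
  obtain ⟨t₀, ht₀⟩ := exists_prime_orderOf_dvd_card'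
    (G := ↥(N.subgroupOf (H : Subgroup G) ⊓ Subgroup.center H)) 2 (by rw [hn]; exact dvd_pow_self 2 hn0.ne')
  obtain ⟨t, htdef⟩ : ∃ t : G, t = (((t₀ : _) : H) : G) := ⟨_, rfl⟩
  have hto : orderOf t = 2 := by
    rw [htdef, Subgroup.orderOf_coe, Subgroup.orderOf_coe, ht₀]
  have htN : t ∈ N := by
    rw [htdef]
    exact t₀.2.1
  have htt : t * t = 1 := by
    rw [← pow_two, ← hto, pow_orderOf_eq_one]
  have ht1 : t ≠ 1 := by
    intro h
    rw [h, orderOf_one] at hto
    omega
  have hHC : (H : Subgroup G) ≤ Subgroup.centralizer {t} := by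
    intro h hh
    refine Subgroup.mem_centralizer_singleton_iff.mpr ?_
    have h1 := Subgroup.mem_center_iff.mp t₀.2.2 ⟨h, hh⟩
    have h2 := congrArg Subtype.val h1
    rw [htdef]
    exact h2
  have hCcard : Nat.card (Subgroup.centralizer {t}) ≤ 32 := by
    have := card_centralizer_le hidx e ⟨t, htN⟩ 8 (Cn_order2 _ (by rw [phi_order]; exact hto) (phi_sign e _))
    simpa using this
  have hHeq : (H : Subgroup G) = Subgroup.centralizer {t} := by
    refine Subgroup.eq_of_le_of_card_ge hHC ?_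
    have h1 : 32 ≤ Nat.card H := Nat.le_of_dvd Nat.card_pos h32
    omega
  -- the common element
  have ht'N : x * t * x⁻¹ ∈ N := hNn.conj_mem _ htN x
  have htt' : x * t * x⁻¹ * (x * t * x⁻¹) = 1 := by
    have : x * t * x⁻¹ * (x * t * x⁻¹) = x * (t * t) * x⁻¹ := by group
    rw [this, htt]
    group
  obtain ⟨g, hg1, hg2, hg3⟩ := exists_common hcard hidx e t _ htN ht'N htt htt' ht1
  intro hbot
  apply hg1
  have hgmem : g ∈ (H : Subgroup G) ⊓ MulAut.conj x • (H : Subgroup G) := by
    refine ⟨?_, ?_⟩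
    · rw [hHeq]
      exact Subgroup.mem_centralizer_singleton_iff.mpr hg2
    · refine Subgroup.mem_pointwise_smul_iff_inv_smul_mem.mpr ?_
      show (MulAut.conj x)⁻¹ g ∈ (H : Subgroup G)
      rw [MulAut.conj_inv_apply, hHeq]
      refine Subgroup.mem_centralizer_singleton_iff.mpr ?_
      calc x⁻¹ * g * x * t = x⁻¹ * (g * (x * t * x⁻¹)) * x := by group
        _ = x⁻¹ * ((x * t * x⁻¹) * g) * x := by rw [hg3]
        _ = t * (x⁻¹ * g * x) := by group
  rw [hbot] at hgmem
  exact hgmem

end Cfsg.Agent.Lib.Cl.AutA6
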