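import Mathlib

/-! Automorphisms of the alternating groups: three-cycles and their products. -/

set_option autoImplicit false

namespace Cfsg.Agent.Lib.Cl.AutAlt

open Equiv Equiv.Perm

variable {α : Type*} [DecidableEq α] [Fintype α]

theorem tc_pow {a : Perm α} (h : a.IsThreeCycle) (u : α) : a (a (a u)) = u := by
  have h1 : a ^ 3 = 1 := by rw [← h.orderOf, pow_orderOf_eq_one]
  have h2 := congrArg (fun f : Perm α => f u) h1
  simpa [pow_succ] using h2

theorem tc_ne_sq {a : Perm α} (h : a.IsThreeCycle) {u : α} (hu : a u ≠ u) : a (a u) ≠ u := by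
  intro h1
  apply hu
  have h2 := tc_pow h u
  rw [h1] at h2
  exact h2

theorem tc_moved {a : Perm α} (h : a.IsThreeCycle) {u v : α} (hu : a u ≠ u) (hv : a v ≠ v) :
    v = u ∨ v = a u ∨ v = a (a u) := by
  have h3 := h.card_support
  have hsub : ({u, a u, a (a u)} : Finset α) ⊆ a.support := by
    intro x hx
    simp only [Finset.mem_insert, Finset.mem_singleton] at hx
    rw [Equiv.Perm.mem_support]
    rcases hx with rfl | rfl | rfl
    · exact hu
    · exact fun h1 => hu (a.injective h1)
    · exact fun h1 => hu (a.injective (a.injective h1))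
  have hne1 : u ≠ a u := fun h1 => hu h1.symm
  have hne2 : a u ≠ a (a u) := fun h1 => hu (a.injective h1).symm
  have hne3 : u ≠ a (a u) := fun h1 => (tc_ne_sq h hu) h1.symm
  have hcard : ({u, a u, a (a u)} : Finset α).card = 3 := by
    rw [Finset.card_insert_of_notMem, Finset.card_insert_of_notMem, Finset.card_singleton]
    · simpa using hne2
    · simp [hne1, hne3]
  have heq := Finset.eq_of_subset_of_card_le hsub (by rw [h3, hcard])
  have hv' : v ∈ a.support := by rw [Equiv.Perm.mem_support]; exact hv
  rw [← heq] at hv'
  simpa using hv'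

/-- Two three-cycles whose product is an involution share a directed edge. -/
theorem common_edge {a b : Perm α} (ha : a.IsThreeCycle) (hb : b.IsThreeCycle) (h2 : (a * b) ^ 2 = 1)
    (h1 : a * b ≠ 1) : ∃ x, a x ≠ x ∧ b x = a x := by
  have R : ∀ x, a (b (a (b x))) = x := by
    intro x
    have := congrArg (fun f : Perm α => f x) h2
    simpa [pow_two] using this
  obtain ⟨u₀, hu₀⟩ : ∃ u, a u ≠ u := by
    by_contra hcon
    push Not at hcon
    exact ha.ne_one (Equiv.ext hcon)
  obtain ⟨u, hua, hub⟩ : ∃ u, a u ≠ u ∧ b u ≠ u := by
    by_cases hb0 : b u₀ = u₀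
    · refine ⟨a u₀, fun h => hu₀ (a.injective h), ?_⟩
      intro hb1
      have := R u₀
      rw [hb0, hb1] at this
      exact tc_ne_sq ha hu₀ this
    · exact ⟨u₀, hu₀, hb0⟩
  by_cases hv : b (a u) = a u
  · have e : a (a u) = b (b u) := by
      have := R (b (b u))
      rw [tc_pow hb u, hv] at this
      exact this
    refine ⟨a (a u), ?_, ?_⟩
    · rw [tc_pow ha u]
      exact (tc_ne_sq ha hua).symm
    · rw [tc_pow ha u, e, tc_pow hb u]
  · rcases tc_moved hb hub hv with h3 | h3 | h3
    · exact absurd h3 hua
    · exact ⟨u, hua, h3.symm⟩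
    · by_cases hy : a (b u) = b u
      · exfalso
        have := R u
        rw [hy, ← h3] at this
        exact tc_ne_sq ha hua this
      · rcases tc_moved ha hua hy with h4 | h4 | h4
        · exact absurd h4 hub
        · exact ⟨u, hua, h4⟩
        · exfalso
          apply h1
          ext x
          show a (b x) = x
          by_cases hbx : b x = x
          · rw [hbx]
            by_contra hax
            rcases tc_moved ha hua hax with h5 | h5 | h5
            · rw [h5] at hbx
              exact hub hbx
            · rw [h5, h3] at hbx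
              rw [tc_pow hb u] at hbx
              exact tc_ne_sq hb hub hbx.symm
            · rw [h5, ← h4] at hbx
              rw [h5, ← h4] at hax
              apply hub
              have h6 : b (b u) = b u := hbx
              exact b.injective h6
          · rcases tc_moved hb hub hbx with h5 | h5 | h5
            · rw [h5, h4, tc_pow ha u]
            · rw [h5, ← h3, ← h4]
            · rw [h5, tc_pow hb u]
              exact h3

/-- A three-cycle is determined by a directed edge and the next point. -/
theorem tc_eq_of_edge {a b : Perm α} (ha : a.IsThreeCycle) (hb : b.IsThreeCycle) {p : α} (hp : a p ≠ p)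
    (h1 : b p = a p) (h2 : b (a p) = a (a p)) : a = b := by
  have hbp : b p ≠ p := by rw [h1]; exact hp
  ext x
  by_cases hx : a x = x
  · by_cases hbx : b x = x
    · rw [hx, hbx]
    · exfalso
      rcases tc_moved hb hbp hbx with h3 | h3 | h3
      · rw [h3] at hx
        exact hp hx
      · rw [h3, h1] at hx
        exact hp (a.injective hx)
      · rw [h3, h1, h2] at hx
        exact hp (a.injective (a.injective hx))
  · rcases tc_moved ha hp hx with h3 | h3 | h3
    · rw [h3, h1]
    · rw [h3, h2]
    · have e1 : b (a (a p)) = p := by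
        have := tc_pow hb p
        rwa [h1, h2] at this
      rw [h3, e1, tc_pow ha p]

theorem tc_moved' {a : Perm α} (h : a.IsThreeCycle) {u v x : α} (huv : a u = v) (hu : v ≠ u) (hx : a x ≠ x) :
    x = u ∨ x = v ∨ x = a v := by
  subst huv
  exact tc_moved h hu hx

/-- Three three-cycles pairwise with involutive products share a directed edge. -/
theorem triple_edge {a b c : Perm α} (ha : a.IsThreeCycle) (hb : b.IsThreeCycle) (hc : c.IsThreeCycle)
    (hne : a ≠ b) (hac2 : (a * c) ^ 2 = 1) (hac1 : a * c ≠ 1) (hbc2 : (b * c) ^ 2 = 1) (hbc1 : b * c ≠ 1)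
    {p q : α} (hap : a p = q) (hbp : b p = q) (hqp : q ≠ p) : c p = q := by
  have hrs : a q ≠ b q := by
    intro h
    subst hap
    exact hne (tc_eq_of_edge ha hb hqp hbp h.symm)
  have hrq : a q ≠ q := by
    intro h
    apply hqp
    rw [← hap] at h ⊢
    exact a.injective h
  have hrp : a q ≠ p := by
    subst hap
    exact tc_ne_sq ha hqp
  have hsq : b q ≠ q := by
    intro h
    apply hqp
    rw [← hbp] at h ⊢
    exact b.injective h
  have hsp : b q ≠ p := by
    subst hbp
    exact tc_ne_sq hb hqp
  have har : a (a q) = p := by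
    have := tc_pow ha p
    rwa [hap] at this
  have hbs : b (b q) = p := by
    have := tc_pow hb p
    rwa [hbp] at this
  obtain ⟨x, hx, hcx⟩ := common_edge ha hc hac2 hac1
  obtain ⟨y, hy, hcy⟩ := common_edge hb hc hbc2 hbc1
  have hcinj := c.injective
  rcases tc_moved' ha hap hqp hx with rfl | rfl | rfl
  · rw [hcx, hap]
  · -- `c q = a q`
    rcases tc_moved' hb hbp hqp hy with rfl | rfl | rfl
    · rw [hcy, hbp]
    · exact absurd (hcx.symm.trans hcy) hrs
    · exfalso
      rw [hbs] at hcy
      have hq' : c x ≠ x := by rw [hcx]; exact hrq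
      have hs' : c (b x) ≠ b x := by rw [hcy]; exact hsp.symm
      have hp' : c p ≠ p := by
        intro h
        have := hcinj (h.trans hcy.symm)
        exact hsp this.symm
      rcases tc_moved' hc hcx hrq.symm.symm hs' with h1 | h1 | h1
      · exact hsq h1
      · exact hrs h1.symm
      · rcases tc_moved' hc hcx hrq.symm.symm hp' with h2 | h2 | h2
        · exact hqp h2.symm
        · exact hrp h2.symm
        · exact hsp (h1.trans h2.symm)
  · -- `c r = p`
    rw [har] at hcx
    rcases tc_moved' hb hbp hqp hy with rfl | rfl | rfl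
    · rw [hcy, hbp]
    · exfalso
      have hr' : c (a y) ≠ a y := by rw [hcx]; exact hrp.symm
      have hq' : c y ≠ y := by rw [hcy]; exact hsq
      have hs' : c (b y) ≠ b y := by
        intro h
        have := hcinj (h.trans hcy.symm)
        exact hsq this
      rcases tc_moved' hc hcx hrp.symm hq' with h1 | h1 | h1
      · exact hrq h1.symm
      · exact hqp h1
      · rcases tc_moved' hc hcx hrp.symm hs' with h2 | h2 | h2
        · exact hrs h2.symm
        · exact hsp h2
        · exact hsq (h2.trans h1.symm)
    · exfalso
      rw [hbs] at hcy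
      have := hcinj (hcx.trans hcy.symm)
      exact hrs this

end Cfsg.Agent.Lib.Cl.AutAlt
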