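import Mathlib
import Cfsg.Agent.Lib.Cl.AutAlt

/-! Automorphisms of the alternating groups, continued. -/

set_option autoImplicit false

namespace Cfsg.Agent.Lib.Cl.AutAlt

open Equiv Equiv.Perm Subgroup

variable {α : Type*} [DecidableEq α] [Fintype α]

section Gen

variable (e₀ e₁ : α)

/-- The three-cycle `(e₀ e₁ i)`. -/
def cc (i : α) : Perm α := swap e₀ e₁ * swap e₁ i

variable {e₀ e₁}

theorem cc_mem (h01 : e₀ ≠ e₁) {i : α} (h1 : i ≠ e₁) : cc e₀ e₁ i ∈ alternatingGroup α := by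
  rw [Equiv.Perm.mem_alternatingGroup, cc, map_mul, Equiv.Perm.sign_swap h01, Equiv.Perm.sign_swap h1.symm]
  simp

theorem cc_three (h01 : e₀ ≠ e₁) {i : α} (h0 : i ≠ e₀) (h1 : i ≠ e₁) : (cc e₀ e₁ i).IsThreeCycle := by
  unfold cc
  rw [swap_comm e₀ e₁]
  exact isThreeCycle_swap_mul_swap_same h01.symm h1.symm h0.symm

theorem cc_apply_e₀ (h01 : e₀ ≠ e₁) {i : α} (h0 : i ≠ e₀) : cc e₀ e₁ i e₀ = e₁ := by
  simp [cc, swap_apply_of_ne_of_ne h01 h0.symm]

theorem cc_apply_e₁ (h01 : e₀ ≠ e₁) {i : α} (h0 : i ≠ e₀) (h1 : i ≠ e₁) : cc e₀ e₁ i e₁ = i := by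
  simp [cc, swap_apply_of_ne_of_ne h0 h1]



theorem cc_apply_self (h01 : e₀ ≠ e₁) (i : α) : cc e₀ e₁ i i = e₀ := by
  simp [cc]

theorem cc_apply_other {i x : α} (hx0 : x ≠ e₀) (hx1 : x ≠ e₁) (hxi : x ≠ i) : cc e₀ e₁ i x = x := by
  simp only [cc, Perm.coe_mul, Function.comp_apply]
  rw [swap_apply_of_ne_of_ne hx1 hxi, swap_apply_of_ne_of_ne hx0 hx1]

theorem conj_swap (h01 : e₀ ≠ e₁) {i : α} (h0 : i ≠ e₀) (h1 : i ≠ e₁) :
    swap e₀ e₁ * swap e₁ i * swap e₀ e₁ = swap e₀ i := by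
  have := swap_apply_apply (swap e₀ e₁) e₁ i
  rw [swap_inv, swap_apply_right, swap_apply_of_ne_of_ne h0 h1] at this
  exact this.symm

theorem cc_mul_cc (h01 : e₀ ≠ e₁) {i j : α} (h0 : i ≠ e₀) (h1 : i ≠ e₁) :
    cc e₀ e₁ i * cc e₀ e₁ j = swap e₀ i * swap e₁ j := by
  unfold cc
  calc swap e₀ e₁ * swap e₁ i * (swap e₀ e₁ * swap e₁ j)
      = (swap e₀ e₁ * swap e₁ i * swap e₀ e₁) * swap e₁ j := by group
    _ = swap e₀ i * swap e₁ j := by rw [conj_swap h01 h0 h1]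

theorem cc_mul_cc_ne (h01 : e₀ ≠ e₁) {i j : α} (h0 : i ≠ e₀) (h1 : i ≠ e₁) (hj0 : j ≠ e₀) (hj1 : j ≠ e₁) :
    cc e₀ e₁ i * cc e₀ e₁ j ≠ 1 := by
  rw [cc_mul_cc h01 h0 h1]
  intro h
  have := congrArg (fun f : Perm α => f e₀) h
  simp only [Perm.coe_mul, Function.comp_apply, Perm.coe_one, id_eq] at this
  rw [swap_apply_of_ne_of_ne h01 hj0.symm, swap_apply_left] at this
  exact h0 this

theorem cc_mul_cc_sq (h01 : e₀ ≠ e₁) {i j : α} (h0 : i ≠ e₀) (h1 : i ≠ e₁) (hj0 : j ≠ e₀) (hj1 : j ≠ e₁)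
    (hij : i ≠ j) : (cc e₀ e₁ i * cc e₀ e₁ j) ^ 2 = 1 := by
  rw [cc_mul_cc h01 h0 h1]
  have hd : Perm.Disjoint (swap e₀ i) (swap e₁ j) := by
    intro x
    by_cases hx0 : x = e₀
    · right
      subst hx0
      exact swap_apply_of_ne_of_ne h01 hj0.symm
    by_cases hxi : x = i
    · right
      subst hxi
      exact swap_apply_of_ne_of_ne h1 hij
    · left
      exact swap_apply_of_ne_of_ne hx0 hxi
  rw [hd.commute.mul_pow, pow_two, pow_two, swap_mul_self, swap_mul_self, one_mul]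

theorem cc_inj (h01 : e₀ ≠ e₁) {i j : α} (h0 : i ≠ e₀) (h1 : i ≠ e₁) (hj0 : j ≠ e₀) (hj1 : j ≠ e₁)
    (h : cc e₀ e₁ i = cc e₀ e₁ j) : i = j := by
  have := congrArg (fun f : Perm α => f e₁) h
  simpa [cc_apply_e₁ h01 h0 h1, cc_apply_e₁ h01 hj0 hj1] using this

/-- Generators of the alternating group. -/
def ccSet (e₀ e₁ : α) : Set (Perm α) := {c | ∃ i, i ≠ e₀ ∧ i ≠ e₁ ∧ c = cc e₀ e₁ i}

theorem ccSet_le (h01 : e₀ ≠ e₁) : Subgroup.closure (ccSet e₀ e₁) ≤ alternatingGroup α := by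
  rw [Subgroup.closure_le]
  rintro _ ⟨i, h0, h1, rfl⟩
  exact cc_mem h01 h1

theorem mem_closure_of_swap (h01 : e₀ ≠ e₁) {a b : α} (hab : a ≠ b) :
    swap e₀ e₁ * swap a b ∈ Subgroup.closure (ccSet e₀ e₁) := by
  set H := Subgroup.closure (ccSet e₀ e₁) with hH
  have hcc : ∀ i, i ≠ e₀ → i ≠ e₁ → swap e₀ e₁ * swap e₁ i ∈ H := fun i h0 h1 =>
    Subgroup.subset_closure ⟨i, h0, h1, rfl⟩
  have h0' : ∀ i, i ≠ e₀ → i ≠ e₁ → swap e₀ e₁ * swap e₀ i ∈ H := by
    intro i h0 h1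
    have e : swap e₀ e₁ * swap e₀ i = (swap e₀ e₁ * swap e₁ i)⁻¹ := by
      rw [← conj_swap h01 h0 h1]
      rw [mul_inv_rev, swap_inv, swap_inv]
      calc swap e₀ e₁ * (swap e₀ e₁ * swap e₁ i * swap e₀ e₁)
          = (swap e₀ e₁ * swap e₀ e₁) * swap e₁ i * swap e₀ e₁ := by group
        _ = swap e₁ i * swap e₀ e₁ := by rw [swap_mul_self, one_mul]
    rw [e]
    exact H.inv_mem (hcc i h0 h1)
  have h1 : swap e₀ e₁ * swap e₀ e₁ ∈ H := by
    rw [swap_mul_self]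
    exact H.one_mem
  by_cases ha0 : a = e₀
  · subst ha0
    by_cases hb1 : b = e₁
    · subst hb1
      exact h1
    · exact h0' b hab.symm hb1
  by_cases hb0 : b = e₀
  · subst hb0
    rw [swap_comm a b]
    by_cases ha1 : a = e₁
    · subst ha1
      exact h1
    · exact h0' a hab ha1
  by_cases ha1 : a = e₁
  · subst ha1
    exact hcc b hb0 hab.symm
  by_cases hb1 : b = e₁
  · subst hb1
    rw [swap_comm a b]
    exact hcc a ha0 ha1
  -- both other
  have e : swap a b = swap e₁ a * swap e₁ b * swap e₁ a := by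
    have := swap_apply_apply (swap e₁ a) e₁ b
    rw [swap_inv, swap_apply_left, swap_apply_of_ne_of_ne (Ne.symm (Ne.symm hb1)) hab.symm] at this
    exact this
  have e2 : swap e₀ e₁ * swap a b = (swap e₀ e₁ * swap e₁ a) * (swap e₀ e₁ * swap e₁ b)⁻¹ * (swap e₀ e₁ * swap e₁ a) := by
    rw [e, mul_inv_rev, swap_inv, swap_inv]
    calc swap e₀ e₁ * (swap e₁ a * swap e₁ b * swap e₁ a)
        = swap e₀ e₁ * swap e₁ a * swap e₁ b * (1 : Perm α) * swap e₁ a := by group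
      _ = swap e₀ e₁ * swap e₁ a * swap e₁ b * (swap e₀ e₁ * swap e₀ e₁) * swap e₁ a := by rw [swap_mul_self]
      _ = _ := by group
  rw [e2]
  exact H.mul_mem (H.mul_mem (hcc a ha0 ha1) (H.inv_mem (hcc b hb0 hb1))) (hcc a ha0 ha1)

theorem closure_ccSet (h01 : e₀ ≠ e₁) : Subgroup.closure (ccSet e₀ e₁) = alternatingGroup α := by
  set H := Subgroup.closure (ccSet e₀ e₁) with hH
  refine le_antisymm (ccSet_le h01) ?_
  have key : ∀ g : Perm α, g ∈ H ∨ swap e₀ e₁ * g ∈ H := by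
    intro g
    induction g using Equiv.Perm.swap_induction_on with
    | one => exact Or.inl H.one_mem
    | swap_mul f x y hxy ih =>
      have hs := mem_closure_of_swap h01 hxy
      rcases ih with h | h
      · right
        rw [← mul_assoc]
        exact H.mul_mem hs h
      · left
        have : swap x y * f = (swap e₀ e₁ * swap x y)⁻¹ * (swap e₀ e₁ * f) := by
          rw [mul_inv_rev, swap_inv, swap_inv]
          calc swap x y * f = swap x y * (swap e₀ e₁ * swap e₀ e₁) * f := by rw [swap_mul_self, mul_one]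
            _ = _ := by group
        rw [this]
        exact H.mul_mem (H.inv_mem hs) h
  intro g hg
  rcases key g with h | h
  · exact h
  · exfalso
    have h2 : swap e₀ e₁ * g ∈ alternatingGroup α := ccSet_le h01 h
    rw [Equiv.Perm.mem_alternatingGroup, map_mul, Equiv.Perm.sign_swap h01,
      Equiv.Perm.mem_alternatingGroup.1 hg] at h2
    simp at h2

end Gen

end Cfsg.Agent.Lib.Cl.AutAlt
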