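import Mathlib
import Cfsg.Agent.Lib.Cl.AutAlt2

/-! Automorphisms of the alternating groups: recognising a conjugation. -/

set_option autoImplicit false

namespace Cfsg.Agent.Lib.Cl.AutAlt

open Equiv Equiv.Perm Subgroup

variable {α : Type*} [DecidableEq α] [Fintype α]

theorem exists_conj_of_family {e₀ e₁ i₂ i₃ : α} (h01 : e₀ ≠ e₁) (h20 : i₂ ≠ e₀) (h21 : i₂ ≠ e₁)
    (h30 : i₃ ≠ e₀) (h31 : i₃ ≠ e₁) (h23 : i₂ ≠ i₃) (D : α → Perm α)
    (hD3 : ∀ i, i ≠ e₀ → i ≠ e₁ → (D i).IsThreeCycle)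
    (hDsq : ∀ i j, i ≠ e₀ → i ≠ e₁ → j ≠ e₀ → j ≠ e₁ → i ≠ j → (D i * D j) ^ 2 = 1)
    (hDne : ∀ i j, i ≠ e₀ → i ≠ e₁ → j ≠ e₀ → j ≠ e₁ → D i * D j ≠ 1)
    (hDinj : ∀ i j, i ≠ e₀ → i ≠ e₁ → j ≠ e₀ → j ≠ e₁ → D i = D j → i = j) :
    ∃ g : Perm α, ∀ i, i ≠ e₀ → i ≠ e₁ → D i = g * cc e₀ e₁ i * g⁻¹ := by
  obtain ⟨p, hp, hp3⟩ := common_edge (hD3 i₂ h20 h21) (hD3 i₃ h30 h31)
    (hDsq _ _ h20 h21 h30 h31 h23) (hDne _ _ h20 h21 h30 h31)
  obtain ⟨q, hq⟩ : ∃ q, q = D i₂ p := ⟨_, rfl⟩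
  rw [← hq] at hp hp3
  have hqp : q ≠ p := hp
  have hall : ∀ i, i ≠ e₀ → i ≠ e₁ → D i p = q := by
    intro i h0 h1
    by_cases hi2 : i = i₂
    · rw [hi2, hq]
    by_cases hi3 : i = i₃
    · rw [hi3]; exact hp3
    exact triple_edge (hD3 i₂ h20 h21) (hD3 i₃ h30 h31) (hD3 i h0 h1)
      (fun h => h23 (hDinj _ _ h20 h21 h30 h31 h)) (hDsq _ _ h20 h21 h0 h1 (Ne.symm hi2))
      (hDne _ _ h20 h21 h0 h1) (hDsq _ _ h30 h31 h0 h1 (Ne.symm hi3)) (hDne _ _ h30 h31 h0 h1)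
      hq.symm hp3 hqp
  have hrq : ∀ i, i ≠ e₀ → i ≠ e₁ → D i q ≠ q := by
    intro i h0 h1 h
    have := hall i h0 h1
    exact hqp ((D i).injective (h.trans this.symm))
  have hmoved : ∀ i, i ≠ e₀ → i ≠ e₁ → D i p ≠ p := by
    intro i h0 h1
    rw [hall i h0 h1]
    exact hqp
  have hrp : ∀ i, i ≠ e₀ → i ≠ e₁ → D i q ≠ p := by
    intro i h0 h1
    have := tc_ne_sq (hD3 i h0 h1) (hmoved i h0 h1)
    rwa [hall i h0 h1] at this
  have hrr : ∀ i, i ≠ e₀ → i ≠ e₁ → D i (D i q) = p := by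
    intro i h0 h1
    have := tc_pow (hD3 i h0 h1) p
    rwa [hall i h0 h1] at this
  obtain ⟨g, hg⟩ : ∃ g : α → α, g = fun x => if x = e₀ then p else if x = e₁ then q else D x q := ⟨_, rfl⟩
  have hg0 : g e₀ = p := by simp [hg]
  have hg1 : g e₁ = q := by simp [hg, h01.symm]
  have hgi : ∀ x, x ≠ e₀ → x ≠ e₁ → g x = D x q := by
    intro x h0 h1
    simp [hg, h0, h1]
  have hinj : Function.Injective g := by
    intro x y hxy
    by_cases hx0 : x = e₀
    · subst hx0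
      by_cases hy0 : y = x
      · exact hy0.symm
      by_cases hy1 : y = e₁
      · subst hy1
        rw [hg0, hg1] at hxy
        exact absurd hxy.symm hqp
      · rw [hg0, hgi y hy0 hy1] at hxy
        exact absurd hxy.symm (hrp y hy0 hy1)
    by_cases hx1 : x = e₁
    · subst hx1
      by_cases hy0 : y = e₀
      · subst hy0
        rw [hg0, hg1] at hxy
        exact absurd hxy hqp
      by_cases hy1 : y = x
      · exact hy1.symm
      · rw [hg1, hgi y hy0 hy1] at hxy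
        exact absurd hxy.symm (hrq y hy0 hy1)
    rw [hgi x hx0 hx1] at hxy
    by_cases hy0 : y = e₀
    · subst hy0
      rw [hg0] at hxy
      exact absurd hxy (hrp x hx0 hx1)
    by_cases hy1 : y = e₁
    · subst hy1
      rw [hg1] at hxy
      exact absurd hxy (hrq x hx0 hx1)
    rw [hgi y hy0 hy1] at hxy
    apply hDinj x y hx0 hx1 hy0 hy1
    apply tc_eq_of_edge (hD3 x hx0 hx1) (hD3 y hy0 hy1) (hmoved x hx0 hx1)
    · rw [hall x hx0 hx1, hall y hy0 hy1]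
    · rw [hall x hx0 hx1]
      exact hxy.symm
  let gE : Perm α := Equiv.ofBijective g (Finite.injective_iff_bijective.1 hinj)
  have hgE : ∀ x, gE x = g x := fun x => rfl
  refine ⟨gE, fun i h0 h1 => ?_⟩
  rw [eq_mul_inv_iff_mul_eq]
  ext x
  simp only [Perm.coe_mul, Function.comp_apply, hgE]
  by_cases hx0 : x = e₀
  · subst hx0
    rw [hg0, hall i h0 h1, cc_apply_e₀ h01 h0, hg1]
  by_cases hx1 : x = e₁
  · subst hx1
    rw [hg1, cc_apply_e₁ h01 h0 h1, hgi i h0 h1]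
  by_cases hxi : x = i
  · subst hxi
    rw [cc_apply_self h01, hg0, hgi x h0 h1, hrr x h0 h1]
  rw [cc_apply_other hx0 hx1 hxi, hgi x hx0 hx1]
  by_contra hcon
  rcases tc_moved (hD3 i h0 h1) (hmoved i h0 h1) hcon with h3 | h3 | h3
  · exact hrp x hx0 hx1 h3
  · rw [hall i h0 h1] at h3
    exact hrq x hx0 hx1 h3
  · rw [hall i h0 h1] at h3
    rw [← hgi x hx0 hx1, ← hgi i h0 h1] at h3
    exact hxi (hinj h3)

theorem exists_conj_of_three (hcard : 4 ≤ Fintype.card α)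
    (φ : alternatingGroup α ≃* alternatingGroup α)
    (hφ : ∀ x : alternatingGroup α, (x : Perm α).IsThreeCycle → (φ x : Perm α).IsThreeCycle) :
    ∃ g : Perm α, MulAut.conjNormal g = φ := by
  obtain ⟨f⟩ : Nonempty (Fin 4 ↪ α) := Function.Embedding.nonempty_of_card_le (by simpa using hcard)
  have hne : ∀ i j : Fin 4, i ≠ j → f i ≠ f j := fun i j h => f.injective.ne h
  obtain ⟨e₀, he₀⟩ : ∃ e, e = f 0 := ⟨_, rfl⟩
  obtain ⟨e₁, he₁⟩ : ∃ e, e = f 1 := ⟨_, rfl⟩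
  obtain ⟨i₂, hi₂⟩ : ∃ e, e = f 2 := ⟨_, rfl⟩
  obtain ⟨i₃, hi₃⟩ : ∃ e, e = f 3 := ⟨_, rfl⟩
  have h01 : e₀ ≠ e₁ := by rw [he₀, he₁]; exact hne _ _ (by decide)
  have h20 : i₂ ≠ e₀ := by rw [he₀, hi₂]; exact hne _ _ (by decide)
  have h21 : i₂ ≠ e₁ := by rw [he₁, hi₂]; exact hne _ _ (by decide)
  have h30 : i₃ ≠ e₀ := by rw [he₀, hi₃]; exact hne _ _ (by decide)
  have h31 : i₃ ≠ e₁ := by rw [he₁, hi₃]; exact hne _ _ (by decide)
  have h23 : i₂ ≠ i₃ := by rw [hi₂, hi₃]; exact hne _ _ (by decide)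
  let D : α → Perm α := fun i => if h : i ≠ e₁ then (φ ⟨cc e₀ e₁ i, cc_mem h01 h⟩ : Perm α) else 1
  have hD : ∀ i (h : i ≠ e₁), D i = (φ ⟨cc e₀ e₁ i, cc_mem h01 h⟩ : Perm α) := by
    intro i h
    simp only [D, dif_pos h]
  obtain ⟨g, hg⟩ := exists_conj_of_family h01 h20 h21 h30 h31 h23 D
    (by
      intro i h0 h1
      rw [hD i h1]
      exact hφ _ (cc_three h01 h0 h1))
    (by
      intro i j h0 h1 hj0 hj1 hij
      rw [hD i h1, hD j hj1]
      have e : ((⟨cc e₀ e₁ i, cc_mem h01 h1⟩ : alternatingGroup α) * ⟨cc e₀ e₁ j, cc_mem h01 hj1⟩) ^ 2 = 1 :=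
        Subtype.ext (cc_mul_cc_sq h01 h0 h1 hj0 hj1 hij)
      have e2 := congrArg (fun y => ((φ y : alternatingGroup α) : Perm α)) e
      simpa only [map_pow, map_mul, map_one, Subgroup.coe_pow, Subgroup.coe_mul, Subgroup.coe_one] using e2)
    (by
      intro i j h0 h1 hj0 hj1 hcon
      rw [hD i h1, hD j hj1] at hcon
      have e : φ ((⟨cc e₀ e₁ i, cc_mem h01 h1⟩ : alternatingGroup α) * ⟨cc e₀ e₁ j, cc_mem h01 hj1⟩) = 1 := by
        rw [map_mul]
        exact Subtype.ext hcon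
      rw [map_eq_one_iff _ φ.injective] at e
      exact cc_mul_cc_ne h01 h0 h1 hj0 hj1 (congrArg Subtype.val e))
    (by
      intro i j h0 h1 hj0 hj1 hcon
      rw [hD i h1, hD j hj1] at hcon
      have e := φ.injective (Subtype.ext hcon)
      exact cc_inj h01 h0 h1 hj0 hj1 (congrArg Subtype.val e))
  refine ⟨g, ?_⟩
  have key : ∀ (y : Perm α) (hy : y ∈ Subgroup.closure (ccSet e₀ e₁)),
      (φ ⟨y, ccSet_le h01 hy⟩ : Perm α) = g * y * g⁻¹ := by
    intro y hy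
    induction hy using Subgroup.closure_induction with
    | mem x hx =>
      obtain ⟨i, h0, h1, rfl⟩ := hx
      rw [← hg i h0 h1, hD i h1]
    | one =>
      have : (⟨1, ccSet_le h01 (Subgroup.one_mem _)⟩ : alternatingGroup α) = 1 := rfl
      rw [this, map_one]
      simp
    | mul x y hx hy ihx ihy =>
      have : (⟨x * y, ccSet_le h01 (Subgroup.mul_mem _ hx hy)⟩ : alternatingGroup α) =
          ⟨x, ccSet_le h01 hx⟩ * ⟨y, ccSet_le h01 hy⟩ := rfl
      rw [this, map_mul, Subgroup.coe_mul, ihx, ihy]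
      group
    | inv x hx ih =>
      have : (⟨x⁻¹, ccSet_le h01 (Subgroup.inv_mem _ hx)⟩ : alternatingGroup α) =
          (⟨x, ccSet_le h01 hx⟩)⁻¹ := rfl
      rw [this, map_inv, Subgroup.coe_inv, ih]
      group
  ext1 y
  apply Subtype.ext
  rw [MulAut.conjNormal_apply]
  have hy : (y : Perm α) ∈ Subgroup.closure (ccSet e₀ e₁) := by
    rw [closure_ccSet h01]
    exact y.2
  exact (key y hy).symm

/-- Conjugation on the alternating group is faithful from degree four. -/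
theorem conjNormal_injective (hcard : 4 ≤ Fintype.card α) :
    Function.Injective (MulAut.conjNormal : Perm α →* MulAut (alternatingGroup α)) := by
  rw [injective_iff_map_eq_one]
  intro g hg
  by_contra hg1
  obtain ⟨x, hx⟩ : ∃ x, g x ≠ x := by
    by_contra hcon
    push Not at hcon
    exact hg1 (Equiv.ext hcon)
  obtain ⟨y, z, hy1, hy2, hz1, hz2, hyz⟩ : ∃ y z, y ≠ x ∧ y ≠ g x ∧ z ≠ x ∧ z ≠ g x ∧ y ≠ z := by
    have hc : (({x, g x} : Finset α)ᶜ).card ≥ 2 := by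
      rw [Finset.card_compl, Finset.card_pair hx.symm]
      omega
    obtain ⟨y, hy, z, hz, hyz⟩ := Finset.one_lt_card.1 hc
    simp only [Finset.mem_compl, Finset.mem_insert, Finset.mem_singleton, not_or] at hy hz
    exact ⟨y, z, hy.1, hy.2, hz.1, hz.2, hyz⟩
  have hc : swap x y * swap y z ∈ alternatingGroup α := by
    rw [Equiv.Perm.mem_alternatingGroup, map_mul, Equiv.Perm.sign_swap hy1.symm, Equiv.Perm.sign_swap hyz]
    simp
  have h := congrArg (fun F : MulAut (alternatingGroup α) => ((F ⟨_, hc⟩ : alternatingGroup α) : Perm α)) hg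
  simp only [MulAut.conjNormal_apply, MulAut.one_apply] at h
  rw [mul_inv_eq_iff_eq_mul] at h
  have h2 := congrArg (fun f : Perm α => f x) h
  simp only [Perm.coe_mul, Function.comp_apply] at h2
  rw [swap_apply_of_ne_of_ne hy1.symm hz1.symm, swap_apply_left,
    swap_apply_of_ne_of_ne hy2.symm hz2.symm, swap_apply_of_ne_of_ne hx hy2.symm] at h2
  exact hy1 (g.injective h2)

end Cfsg.Agent.Lib.Cl.AutAlt
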