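import Mathlib
import Cfsg.Agent.Lib.Cl.AutAlt3

/-! Automorphisms of the alternating groups: three-cycles are recognised by centralizer orders. -/

set_option autoImplicit false

namespace Cfsg.Agent.Lib.Cl.AutAlt

open Equiv Equiv.Perm Subgroup Nat

variable {α : Type*} [DecidableEq α] [Fintype α]

theorem factorial_ineq (j m : ℕ) (h : 1 ≤ j ∨ 1 ≤ m) :
    2 * (m ! * 3 ^ (j + 2) * (j + 2)!) < 3 * (3 * (j + 1) + m)! := by
  induction j with
  | zero =>
    have hm : 1 ≤ m := by omega
    obtain ⟨l, rfl⟩ : ∃ l, m = l + 1 := ⟨m - 1, by omega⟩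
    have e : 3 * (0 + 1) + (l + 1) = l + 1 + 3 := by ring
    rw [e, Nat.factorial_succ (l + 1 + 2), Nat.factorial_succ (l + 1 + 1), Nat.factorial_succ (l + 1 + 0)]
    have hp : 0 < (l + 1)! := Nat.factorial_pos _
    have h24 : 24 ≤ (l + 1 + 2 + 1) * (l + 1 + 1 + 1) * (l + 1 + 0 + 1) := by
      nlinarith [Nat.zero_le l, mul_nonneg (Nat.zero_le l) (Nat.zero_le l)]
    have e3 : (0 + 2)! = 2 := rfl
    rw [e3]
    have h6 := Nat.mul_le_mul_right ((l + 1)!) h24
    simp only [add_zero] at h6 ⊢
    have e4 : 2 * ((l + 1)! * 3 ^ (0 + 2) * 2) = 36 * (l + 1)! := by norm_num; ring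
    have e5 : 3 * ((l + 1 + 2 + 1) * ((l + 1 + 1 + 1) * ((l + 1 + 1) * (l + 1)!))) =
        3 * ((l + 1 + 2 + 1) * (l + 1 + 1 + 1) * (l + 1 + 1) * (l + 1)!) := by ring
    rw [e4, e5]
    omega
  | succ j ih =>
    by_cases hj : j = 0
    · subst hj
      have hd : (6)! * m ! ≤ (6 + m)! := Nat.le_of_dvd (Nat.factorial_pos _) (Nat.factorial_mul_factorial_dvd_factorial_add 6 m)
      have e : 3 * (0 + 1 + 1) + m = 6 + m := by ring
      rw [e]
      have hp : 0 < m ! := Nat.factorial_pos _
      norm_num [Nat.factorial] at hd ⊢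
      omega
    · have ih' := ih (Or.inl (by omega))
      have e1 : (j + 1 + 2)! = (j + 3) * (j + 2)! := by
        rw [show j + 1 + 2 = (j + 2) + 1 by ring, Nat.factorial_succ]
      have e2 : (3 * (j + 1 + 1) + m)! = (3 * (j + 1) + m + 3) * (3 * (j + 1) + m + 2) * (3 * (j + 1) + m + 1) * (3 * (j + 1) + m)! := by
        rw [show 3 * (j + 1 + 1) + m = (3 * (j + 1) + m + 2) + 1 by ring, Nat.factorial_succ,
          Nat.factorial_succ, Nat.factorial_succ]
        ring
      rw [e1, e2, pow_succ]
      set F := (3 * (j + 1) + m)! with hF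
      set E := m ! * 3 ^ (j + 2) * (j + 2)! with hE
      have hFpos : 0 < F := Nat.factorial_pos _
      have hle : 3 * (j + 3) ≤ (3 * (j + 1) + m + 3) * (3 * (j + 1) + m + 2) * (3 * (j + 1) + m + 1) := by
        nlinarith [Nat.zero_le m, Nat.zero_le j, mul_nonneg (Nat.zero_le j) (Nat.zero_le j), mul_nonneg (Nat.zero_le m) (Nat.zero_le j), mul_nonneg (Nat.zero_le m) (Nat.zero_le m)]
      have e3 : 2 * (m ! * (3 ^ (j + 2) * 3) * ((j + 3) * (j + 2)!)) = (3 * (j + 3)) * (2 * E) := by
        rw [hE]; ring
      rw [e3]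
      calc (3 * (j + 3)) * (2 * E) < (3 * (j + 3)) * (3 * F) := by
            apply Nat.mul_lt_mul_of_pos_left ih'
            omega
        _ ≤ ((3 * (j + 1) + m + 3) * (3 * (j + 1) + m + 2) * (3 * (j + 1) + m + 1)) * (3 * F) :=
            Nat.mul_le_mul_right _ hle
        _ = _ := by ring

theorem card_cent_three {x : Perm α} (hx : x.IsThreeCycle) :
    Nat.card (centralizer {x}) = (Fintype.card α - 3)! * 3 := by
  rw [Equiv.Perm.nat_card_centralizer, hx]
  simp

theorem card_cent_rep {y : Perm α} {k : ℕ} (hk : 1 ≤ k) (hy : y.cycleType = Multiset.replicate k 3) :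
    Nat.card (centralizer {y}) = (Fintype.card α - 3 * k)! * 3 ^ k * k ! := by
  rw [Equiv.Perm.nat_card_centralizer, hy]
  have h1 : (Multiset.replicate k 3).toFinset = {3} := by
    ext z
    simp only [Multiset.mem_toFinset, Multiset.mem_replicate, Finset.mem_singleton]
    constructor
    · exact fun h => h.2
    · exact fun h => ⟨by omega, h⟩
  rw [h1]
  simp [mul_comm]

/-- Centralizers in the alternating group. -/
theorem card_cent_alt_le (y : alternatingGroup α) :
    Nat.card (centralizer {y}) ≤ Nat.card (centralizer {(y : Perm α)}) := by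
  let f : centralizer {y} → centralizer {(y : Perm α)} := fun z => ⟨(z.1 : Perm α), by
    rw [Subgroup.mem_centralizer_singleton_iff]
    have := (Subgroup.mem_centralizer_singleton_iff).1 z.2
    exact congrArg Subtype.val this⟩
  apply Nat.card_le_card_of_injective f
  intro a b h
  apply Subtype.ext
  apply Subtype.ext
  exact congrArg (fun w : centralizer {(y : Perm α)} => (w : Perm α)) h

theorem card_cent_le_two_mul [Nontrivial α] (y : alternatingGroup α) :
    Nat.card (centralizer {(y : Perm α)}) ≤ 2 * Nat.card (centralizer {y}) := by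
  set C := centralizer {(y : Perm α)} with hC
  set C' := (alternatingGroup α).subgroupOf C with hC'
  have h1 : Nat.card C' * C'.index = Nat.card C := C'.card_mul_index
  have h2 : C'.index ∣ 2 := by
    have := Subgroup.relIndex_dvd_index_of_normal (alternatingGroup α) C
    rwa [alternatingGroup.index_eq_two] at this
  have h3 : C'.index ≤ 2 := Nat.le_of_dvd (by norm_num) h2
  have h4 : Nat.card C' ≤ Nat.card (centralizer {y}) := by
    let f : C' → centralizer {y} := fun z => ⟨⟨z.1.1, (Subgroup.mem_subgroupOf).1 z.2⟩, by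
      rw [Subgroup.mem_centralizer_singleton_iff]
      apply Subtype.ext
      have := (Subgroup.mem_centralizer_singleton_iff).1 z.1.2
      exact this⟩
    apply Nat.card_le_card_of_injective f
    intro a b h
    apply Subtype.ext
    apply Subtype.ext
    have := congrArg (fun w : centralizer {y} => ((w : alternatingGroup α) : Perm α)) h
    exact this
  rw [← h1]
  calc Nat.card C' * C'.index ≤ Nat.card (centralizer {y}) * 2 := Nat.mul_le_mul h4 h3
    _ = _ := by ring

theorem card_cent_equiv (ψ : alternatingGroup α ≃* alternatingGroup α) (x : alternatingGroup α) :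
    Nat.card (centralizer {ψ x}) = Nat.card (centralizer {x}) := by
  apply Nat.card_congr
  refine Equiv.subtypeEquiv ψ.symm.toEquiv ?_
  intro z
  rw [Subgroup.mem_centralizer_singleton_iff, Subgroup.mem_centralizer_singleton_iff]
  constructor
  · intro h
    apply ψ.injective
    simpa using h
  · intro h
    have := congrArg ψ h
    simpa using this

/-- Outside degree six, an automorphism of the alternating group preserves three-cycles. -/
theorem three_of_aut (h6 : Fintype.card α ≠ 6)
    (ψ : alternatingGroup α ≃* alternatingGroup α) (x : alternatingGroup α)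
    (hx : (x : Perm α).IsThreeCycle) : (ψ x : Perm α).IsThreeCycle := by
  have hord : orderOf (ψ x : Perm α) = 3 := by
    rw [Subgroup.orderOf_coe, MulEquiv.orderOf_eq, ← Subgroup.orderOf_coe, hx.orderOf]
  have hp : (orderOf (ψ x : Perm α)).Prime := by rw [hord]; norm_num
  obtain ⟨l, hl⟩ := Equiv.Perm.cycleType_prime_order hp
  rw [hord] at hl
  by_cases hl0 : l = 0
  · subst hl0
    show (ψ x : Perm α).cycleType = {3}
    rw [hl]
    rfl
  exfalso
  obtain ⟨j, rfl⟩ : ∃ j, l = j + 1 := ⟨l - 1, by omega⟩
  have hsup : (ψ x : Perm α).cycleType.sum ≤ Fintype.card α := by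
    rw [Equiv.Perm.sum_cycleType]
    exact Finset.card_le_univ _
  rw [hl] at hsup
  simp only [Multiset.sum_replicate, smul_eq_mul] at hsup
  obtain ⟨m, hm⟩ : ∃ m, Fintype.card α = 3 * (j + 1 + 1) + m := ⟨Fintype.card α - (j + 1 + 1) * 3, by omega⟩
  haveI : Nontrivial α := by
    rw [← Fintype.one_lt_card_iff_nontrivial]
    omega
  have hA := card_cent_three hx
  have hB := card_cent_rep (y := (ψ x : Perm α)) (k := j + 1 + 1) (by omega) hl
  have h1 := card_cent_le_two_mul x
  have h2 := card_cent_alt_le (ψ x)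
  have h3 := card_cent_equiv ψ x
  rw [hA, ← h3] at h1
  have h4 : (Fintype.card α - 3)! * 3 ≤ 2 * ((Fintype.card α - 3 * (j + 1 + 1))! * 3 ^ (j + 1 + 1) * (j + 1 + 1)!) := by
    calc _ ≤ _ := h1
      _ ≤ 2 * Nat.card (centralizer {(ψ x : Perm α)}) := Nat.mul_le_mul_left _ h2
      _ = _ := by rw [hB]
  have e1 : Fintype.card α - 3 * (j + 1 + 1) = m := by omega
  have e2 : Fintype.card α - 3 = 3 * (j + 1) + m := by omega
  rw [e1, e2] at h4
  have h5 := factorial_ineq j m (by
    by_contra hcon
    push Not at hcon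
    apply h6
    omega)
  have : j + 1 + 1 = j + 2 := rfl
  rw [this] at h4
  omega

/-- Outside degree six the symmetric group is the automorphism group of the alternating group. -/
theorem conjNormal_bijective (h4 : 4 ≤ Fintype.card α) (h6 : Fintype.card α ≠ 6) :
    Function.Bijective (MulAut.conjNormal : Perm α →* MulAut (alternatingGroup α)) :=
  ⟨conjNormal_injective h4, fun ψ => exists_conj_of_three h4 ψ (three_of_aut h6 ψ)⟩

end Cfsg.Agent.Lib.Cl.AutAlt
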