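import Mathlib
import Cfsg.Agent.Lib.Transfer.Critical2
import Cfsg.Agent.Lib.Transfer.Frobenius
import Cfsg.Agent.Lib.ClassSizes.Kazarin
import Cfsg.Agent.Lib.Core.Basic
import Cfsg.Agent.Lib.FF.SylowIn

/-! A `p'`-automorphism of a `p`-group fixing pointwise its invariant subgroups of exponent `p`
(exponent `4` when `p = 2`) is trivial; elements of `p`-power class size and coprime action. -/

set_option autoImplicit false

namespace Cfsg.Agent.Lib.Cl.CritExp

open Subgroup Cfsg.Agent.Lib.Transfer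
open scoped commutatorElement

section Fix

variable {G : Type*} [Group G] [Finite G] {p : ℕ} [hp : Fact p.Prime]

theorem fix_of_pow_hom' (hG : IsPGroup p G) (a : MulAut G) (ha : Nat.Coprime (orderOf a) p)
    (H : Subgroup G) (hH : ∀ x ∈ H, a x ∈ H) {j : ℕ} (hj : j ≠ 0)
    (hpow : ∀ x ∈ H, ∀ y ∈ H, (x * y) ^ (p ^ j) = x ^ (p ^ j) * y ^ (p ^ j))
    (hfix : ∀ x ∈ H, x ^ (p ^ j) = 1 → a x = x) : ∀ x ∈ H, a x = x := by
  have key : ∀ k : ℕ, ∀ x ∈ H, x ^ (p ^ j) ^ k = 1 → a x = x := by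
    intro k
    induction k with
    | zero =>
      intro x hx h
      simp only [pow_zero, pow_one] at h
      simp [h]
    | succ k ih =>
      intro x hx h
      have h1 : a (x ^ (p ^ j)) = x ^ (p ^ j) :=
        ih _ (H.pow_mem hx _) (by rw [← pow_mul, ← pow_succ']; exact h)
      set u := x⁻¹ * a x with hu
      have huH : u ∈ H := H.mul_mem (H.inv_mem hx) (hH x hx)
      have h2 : x * u = a x := by simp [hu]
      have h3 : (x * u) ^ (p ^ j) = x ^ (p ^ j) := by rw [h2, ← map_pow, h1]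
      rw [hpow x hx u huH] at h3
      have h4 : u ^ (p ^ j) = 1 := mul_eq_left.1 h3
      have h5 : a u = u := hfix u huH h4
      exact fix_of_step hG a ha x h5
  intro x hx
  obtain ⟨n, hn⟩ := hG x
  apply key n x hx
  have hle : n ≤ j * n := Nat.le_mul_of_pos_left n (Nat.pos_of_ne_zero hj)
  rw [← pow_mul, ← Nat.sub_add_cancel hle, pow_add, mul_comm, pow_mul, hn, one_pow]

/-- The exponent used: `p` for odd `p`, and `4` for `p = 2`. -/
def expE (p : ℕ) : ℕ := if p = 2 then 2 else 1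

theorem expE_ne_zero (p : ℕ) : expE p ≠ 0 := by
  unfold expE
  split_ifs <;> norm_num

/-- **Exponent form of Thompson's critical subgroup lemma.** -/
theorem eq_one_of_fix_exp (hG : IsPGroup p G) (a : MulAut G) (ha : Nat.Coprime (orderOf a) p)
    (h : ∀ W : Subgroup G, (∀ x ∈ W, a x ∈ W) → (∀ x ∈ W, x ^ (p ^ expE p) = 1) → ∀ x ∈ W, a x = x) :
    a = 1 := by
  obtain ⟨H, hch, h1, h2, h3⟩ := exists_critical hG
  haveI hHn : H.Normal := inferInstance
  have hHa : ∀ x ∈ H, a x ∈ H := fun x hx => (characteristic_iff_le_comap.mp hch a) hx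
  have hpow : ∀ x ∈ H, ∀ y ∈ H, (x * y) ^ (p ^ expE p) = x ^ (p ^ expE p) * y ^ (p ^ expE p) := by
    by_cases hp2 : p = 2
    · subst hp2
      have he : (2 : ℕ) ^ expE 2 = 4 := by simp [expE]
      rw [he]
      intro x hx y hy
      have hc := h2 y x hx
      have hcx : Commute ⁅y, x⁆ x := ((Subgroup.mem_centralizer_iff.1 hc.2) x hx).symm
      have hcy : Commute ⁅y, x⁆ y := ((Subgroup.mem_centralizer_iff.1 hc.2) y hy).symm
      have hyp : Commute (y ^ 2) x := ((Subgroup.mem_centralizer_iff.1 (h1 y hy).2) x hx).symm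
      have hcp : ⁅y, x⁆ ^ 2 = 1 := by
        rw [← comm_pow_left hcy, commutatorElement_eq_one_iff_commute]
        exact hyp
      rw [mul_pow_class2 hcx hcy]
      have : (Nat.choose 4 2) = 2 * 3 := by decide
      rw [this, pow_mul, hcp, one_pow, mul_one]
    · have he : p ^ expE p = p := by simp [expE, hp2]
      rw [he]
      exact mul_pow_of_critical hp2 H h1 h2
  let W : Subgroup G :=
    { carrier := {x | x ∈ H ∧ x ^ (p ^ expE p) = 1}
      mul_mem' := fun {x y} hx hy => ⟨H.mul_mem hx.1 hy.1, by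
        rw [hpow x hx.1 y hy.1, hx.2, hy.2, one_mul]⟩
      one_mem' := ⟨H.one_mem, one_pow _⟩
      inv_mem' := fun {x} hx => ⟨H.inv_mem hx.1, by rw [inv_pow, hx.2, inv_one]⟩ }
  have hWfix := h W (fun x hx => ⟨hHa x hx.1, by rw [← map_pow, hx.2, map_one]⟩) (fun x hx => hx.2)
  apply eq_one_of_fix_normal hG a ha H h3
  exact fix_of_pow_hom' hG a ha H hHa (expE_ne_zero p) hpow (fun x hx hx2 => hWfix x ⟨hx, hx2⟩)

end Fix

section Nil

theorem eq_bot_of_le_commutator {X : Type*} [Group X] (hnil : Group.IsNilpotent X) (N : Subgroup X)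
    (h : N ≤ ⁅N, (⊤ : Subgroup X)⁆) : N = ⊥ := by
  obtain ⟨n, hn⟩ := _root_.nilpotent_iff_lowerCentralSeries.1 hnil
  have key : ∀ k, N ≤ (⊤ : Subgroup X).lowerCentralSeries k := by
    intro k
    induction k with
    | zero => exact le_top
    | succ k ih =>
      show N ≤ ⁅(⊤ : Subgroup X).lowerCentralSeries k, (⊤ : Subgroup X)⁆
      exact h.trans (Subgroup.commutator_mono ih le_rfl)
  rw [eq_bot_iff, ← hn]
  exact key n

end Nil

section Good

variable {G : Type*} [Group G] [Finite G] {p : ℕ} [hp : Fact p.Prime]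

/-- A `p`-element with a conjugacy class of `p`-power size. -/
def Good (p : ℕ) (w : G) : Prop :=
  (∃ j, orderOf w = p ^ j) ∧ ∃ e, (centralizer ({w} : Set G)).index = p ^ e

theorem Good.mem_pCore {t : G} (h : Good p t) : t ∈ Cfsg.pCore p G := by
  obtain ⟨⟨j, ht⟩, e, hidx⟩ := h
  rw [Cfsg.Agent.Lib.Core.mem_pCore_iff_forall_sylow]
  intro Q
  obtain ⟨S, hS⟩ := Cfsg.Agent.Lib.ClassSizes.exists_sylow_mem_of_orderOf (p := p) (x := t) ⟨j, ht⟩
  obtain ⟨g, rfl⟩ := MulAction.exists_smul_eq G S Q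
  obtain ⟨c, hc, u, hu, rfl⟩ := Cfsg.Agent.Lib.ClassSizes.exists_centralizer_mul_sylow hidx S g
  apply Cfsg.Agent.Lib.ClassSizes.mem_sylow_smul_iff.mpr
  have hct : c * t = t * c := mem_centralizer_singleton_iff.mp hc
  have : (c * u)⁻¹ * t * (c * u) = u⁻¹ * t * u := by
    calc (c * u)⁻¹ * t * (c * u) = u⁻¹ * (c⁻¹ * (t * c)) * u := by group
      _ = u⁻¹ * (c⁻¹ * (c * t)) * u := by rw [hct]
      _ = u⁻¹ * t * u := by group
  rw [this]
  exact (S : Subgroup G).mul_mem ((S : Subgroup G).mul_mem ((S : Subgroup G).inv_mem hu) hS) hu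

/-- If `y z y⁻¹ = z` for `z = w⁻¹ (y w y⁻¹)` with `z` of order prime to that of `y`, then `z = 1`. -/
theorem eq_one_of_fixed_comm {y w z : G} (hz : z = w⁻¹ * (y * w * y⁻¹)) (hyz : y * z * y⁻¹ = z)
    (hco : (orderOf z).Coprime (orderOf y)) : z = 1 := by
  have hc : Commute y z := by
    show y * z = z * y
    rw [← mul_inv_eq_iff_eq_mul]
    exact hyz
  have hiter : ∀ n : ℕ, y ^ n * w * (y ^ n)⁻¹ = w * z ^ n := by
    intro n
    induction n with
    | zero => simp
    | succ n ih =>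
      have h1 : y ^ (n + 1) * w * (y ^ (n + 1))⁻¹ = y * (y ^ n * w * (y ^ n)⁻¹) * y⁻¹ := by
        rw [pow_succ']; group
      rw [h1, ih]
      have h2 : y * (w * z ^ n) * y⁻¹ = (y * w * y⁻¹) * (y * z ^ n * y⁻¹) := by group
      rw [h2]
      have h3 : y * z ^ n * y⁻¹ = z ^ n := by
        have : Commute y (z ^ n) := hc.pow_right n
        rw [this.eq]; group
      rw [h3]
      have h4 : y * w * y⁻¹ = w * z := by rw [hz]; group
      rw [h4, pow_succ']
      group
  have h5 := hiter (orderOf y)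
  rw [pow_orderOf_eq_one] at h5
  have h6 : z ^ orderOf y = 1 := by simpa using h5
  have h7 := orderOf_dvd_of_pow_eq_one h6
  exact orderOf_eq_one_iff.1 (Nat.Coprime.eq_one_of_dvd hco h7)

/-- **Key lemma**: a `p'`-element normalizing a subgroup all of whose elements are `p`-elements
with `p`-power class size centralizes it. -/
theorem centralizes_of_good (y : G) (hy : (orderOf y).Coprime p) :
    ∀ W : Subgroup G, (∀ w ∈ W, y * w * y⁻¹ ∈ W) → (∀ w ∈ W, Good p w) → ∀ w ∈ W, y * w * y⁻¹ = w := by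
  classical
  intro W
  induction W using WellFoundedLT.induction with
  | ind W ih =>
  intro hinv hgood
  set D : Subgroup G := closure {z | ∃ w ∈ W, z = w⁻¹ * (y * w * y⁻¹)} with hD
  have hDW : D ≤ W := (closure_le _).2 (by
    rintro _ ⟨w, hw, rfl⟩
    exact W.mul_mem (W.inv_mem hw) (hinv w hw))
  by_cases hlt : D < W
  · have hDinv : ∀ z ∈ D, y * z * y⁻¹ ∈ D := by
      intro z hz
      have hle : D ≤ D.comap (MulAut.conj y).toMonoidHom := (closure_le _).2 (by
        rintro _ ⟨w, hw, rfl⟩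
        show y * (w⁻¹ * (y * w * y⁻¹)) * y⁻¹ ∈ D
        apply Subgroup.subset_closure
        refine ⟨y * w * y⁻¹, hinv w hw, ?_⟩
        group)
      exact hle hz
    have hfix := ih D hlt hDinv (fun z hz => hgood z (hDW hz))
    intro w hw
    set z := w⁻¹ * (y * w * y⁻¹) with hzdef
    have hz : z ∈ D := Subgroup.subset_closure ⟨w, hw, rfl⟩
    have hyz : y * z * y⁻¹ = z := hfix z hz
    obtain ⟨⟨j, hj⟩, -⟩ := hgood z (hDW hz)
    have hco : (orderOf z).Coprime (orderOf y) := by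
      rw [hj]
      exact Nat.Coprime.pow_left j hy.symm
    have hz1 := eq_one_of_fixed_comm hzdef hyz hco
    have : w * z = y * w * y⁻¹ := by rw [hzdef]; group
    rw [← this, hz1, mul_one]
  · have hDe : D = W := le_antisymm hDW (by
      by_contra hne
      exact hlt (lt_of_le_of_ne hDW (fun h => hne h.ge)))
    set N : Subgroup G := normalClosure (W : Set G) with hN
    haveI hNn : N.Normal := Subgroup.normalClosure_normal
    have hWN : W ≤ N := Subgroup.subset_normalClosure
    have hNcore : N ≤ Cfsg.pCore p G :=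
      Subgroup.normalClosure_le_normal (fun w hw => (hgood w hw).mem_pCore)
    obtain ⟨T⟩ : Nonempty (Sylow p G) := inferInstance
    have hNT : N ≤ (T : Subgroup G) := hNcore.trans (Cfsg.Agent.Lib.Core.pCore_le_sylow T)
    have key : ∀ T' : Sylow p G, W ≤ ⁅N, (T' : Subgroup G)⁆ := by
      intro T'
      rw [← hDe, hD]
      refine (closure_le _).2 ?_
      rintro _ ⟨w, hw, rfl⟩
      obtain ⟨-, e, he⟩ := hgood w hw
      obtain ⟨c, hc, u, hu, hg⟩ := Cfsg.Agent.Lib.ClassSizes.exists_centralizer_mul_sylow he T' y⁻¹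
      have hct : c * w = w * c := mem_centralizer_singleton_iff.mp hc
      have hy1 : y = u⁻¹ * c⁻¹ := by
        have := congrArg (·⁻¹) hg
        simpa using this
      have h1 : y * w * y⁻¹ = u⁻¹ * w * u := by
        rw [hy1]
        calc u⁻¹ * c⁻¹ * w * (u⁻¹ * c⁻¹)⁻¹ = u⁻¹ * (c⁻¹ * (w * c)) * u := by group
          _ = u⁻¹ * (c⁻¹ * (c * w)) * u := by rw [hct]
          _ = u⁻¹ * w * u := by group
      have h2 : w⁻¹ * (y * w * y⁻¹) = ⁅w⁻¹, u⁻¹⁆ := by
        rw [h1, commutatorElement_def]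
        group
      show w⁻¹ * (y * w * y⁻¹) ∈ _
      rw [h2]
      exact Subgroup.commutator_mem_commutator (N.inv_mem (hWN hw))
        ((T' : Subgroup G).inv_mem hu)
    -- all conjugates of `W` lie in `[N, T]`
    have hNle : N ≤ ⁅N, (T : Subgroup G)⁆ := by
      calc N = closure (Group.conjugatesOfSet (W : Set G)) := rfl
        _ ≤ _ := (closure_le _).2 ?_
      intro x hx
      obtain ⟨w, hw, hwx⟩ := Group.mem_conjugatesOfSet_iff.1 hx
      obtain ⟨g, rfl⟩ := isConj_iff.1 hwx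
      have h1 := key (g⁻¹ • T) hw
      have h2 : g * w * g⁻¹ ∈ (⁅N, ((g⁻¹ • T : Sylow p G) : Subgroup G)⁆).map (MulAut.conj g).toMonoidHom :=
        ⟨w, h1, rfl⟩
      rw [Subgroup.map_commutator] at h2
      have e1 : N.map (MulAut.conj g).toMonoidHom = N := Cfsg.Agent.Lib.FF.normal_conj_eq g
      have e2 : ((g⁻¹ • T : Sylow p G) : Subgroup G).map (MulAut.conj g).toMonoidHom = T := by
        ext z
        rw [Cfsg.Agent.Lib.FF.mem_conj_iff]
        have e3 : g⁻¹ * z * g ∈ ((g⁻¹ • T : Sylow p G) : Subgroup G) ↔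
            (g⁻¹)⁻¹ * (g⁻¹ * z * g) * g⁻¹ ∈ (T : Subgroup G) :=
          Cfsg.Agent.Lib.ClassSizes.mem_sylow_smul_iff
        rw [e3]
        have e4 : (g⁻¹)⁻¹ * (g⁻¹ * z * g) * g⁻¹ = z := by group
        rw [e4]
      rw [e1, e2] at h2
      exact h2
    have hN' : N.subgroupOf (T : Subgroup G) ≤ ⁅N.subgroupOf (T : Subgroup G), (⊤ : Subgroup (T : Subgroup G))⁆ := by
      intro x hx
      have h1 : (x : G) ∈ ⁅N, (T : Subgroup G)⁆ := hNle hx
      have e : ⁅N, (T : Subgroup G)⁆ =
          (⁅N.subgroupOf (T : Subgroup G), (⊤ : Subgroup (T : Subgroup G))⁆).map (T : Subgroup G).subtype := by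
        rw [Subgroup.map_commutator, Subgroup.map_subgroupOf_eq_of_le hNT, ← MonoidHom.range_eq_map,
          Subgroup.range_subtype]
      rw [e] at h1
      obtain ⟨x', hx', hxe⟩ := h1
      have : x' = x := Subtype.ext hxe
      rwa [← this]
    have hbot := eq_bot_of_le_commutator T.2.isNilpotent _ hN'
    have hNbot : N = ⊥ := by
      rw [eq_bot_iff]
      intro x hx
      have h1 : (⟨x, hNT hx⟩ : (T : Subgroup G)) ∈ N.subgroupOf (T : Subgroup G) := hx
      rw [hbot, Subgroup.mem_bot] at h1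
      exact congrArg Subtype.val h1
    intro w hw
    have h1 : w = 1 := by
      have := hWN hw
      rwa [hNbot, Subgroup.mem_bot] at this
    simp [h1]

end Good

end Cfsg.Agent.Lib.Cl.CritExp
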