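import Mathlib
import Cfsg.Agent.Lib.ClassSizes.Basic

/-! Covering the `p`-elements of a group generated by `p`-elements by proper subgroups. -/

set_option autoImplicit false

namespace Cfsg.Agent.Lib.Cl.PCover

open Subgroup
open scoped Pointwise

universe u

/-- A `p`-group is not a union of at most `p` proper subgroups. -/
theorem pgroup_cover {G : Type*} [Group G] {p : ℕ} [hp : Fact p.Prime] [Finite G] (hG : IsPGroup p G)
    (S : Finset (Subgroup G)) (hS : ∀ K ∈ S, K ≠ ⊤) (hcov : ∀ g : G, ∃ K ∈ S, g ∈ K) :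
    p + 1 ≤ S.card := by
  classical
  haveI := Fintype.ofFinite G
  by_contra hcon
  have hle : S.card ≤ p := by omega
  have hp2 := hp.out.two_le
  obtain ⟨n, hn⟩ := IsPGroup.iff_card.1 hG
  have hK : ∀ K ∈ S, p * Nat.card K ≤ Nat.card G := by
    intro K hK
    have h1 := K.card_mul_index
    have h2 : K.index ≠ 1 := by
      rw [Ne, Subgroup.index_eq_one]
      exact hS K hK
    have h3 : K.index ∣ p ^ n := by
      rw [← hn]
      exact K.index_dvd_card
    obtain ⟨j, -, hj⟩ := (Nat.dvd_prime_pow hp.out).1 h3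
    have h4 : p ≤ K.index := by
      rw [hj]
      have hj0 : j ≠ 0 := by
        rintro rfl
        exact h2 (by simpa using hj)
      exact Nat.le_self_pow hj0 p
    rw [← h1, mul_comm p]
    exact Nat.mul_le_mul_left _ h4
  have hU : (Finset.univ.erase (1 : G)) ⊆ S.biUnion (fun K => (Finset.univ.filter (· ∈ K)).erase 1) := by
    intro g hg
    have hg1 : g ≠ 1 := by simpa using hg
    obtain ⟨K, hK, hgK⟩ := hcov g
    simp only [Finset.mem_biUnion, Finset.mem_erase, Finset.mem_filter, Finset.mem_univ, true_and]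
    exact ⟨K, hK, hg1, hgK⟩
  have hcard := (Finset.card_le_card hU).trans Finset.card_biUnion_le
  have hc : ∀ K ∈ S, ((Finset.univ.filter (· ∈ K)).erase (1 : G)).card = Nat.card K - 1 := by
    intro K _
    rw [Finset.card_erase_of_mem (by simp [K.one_mem])]
    congr 1
    rw [Nat.card_eq_fintype_card, Fintype.card_subtype]
  rw [Finset.sum_congr rfl hc, Finset.card_erase_of_mem (Finset.mem_univ _), Finset.card_univ,
    ← Nat.card_eq_fintype_card] at hcard
  obtain ⟨K₀, hK₀, -⟩ := hcov 1
  have hNp : p ≤ Nat.card G := by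
    have h1 := hK K₀ hK₀
    have h2 : 1 ≤ Nat.card K₀ := Nat.card_pos
    calc p = p * 1 := by ring
      _ ≤ p * Nat.card K₀ := Nat.mul_le_mul_left _ h2
      _ ≤ _ := h1
  have hsum : p * ∑ K ∈ S, (Nat.card K - 1) ≤ p * (Nat.card G - p) := by
    rw [Finset.mul_sum]
    calc ∑ K ∈ S, p * (Nat.card K - 1) ≤ ∑ _K ∈ S, (Nat.card G - p) := by
          apply Finset.sum_le_sum
          intro K hKS
          have := hK K hKS
          rw [Nat.mul_sub, mul_one]
          omega
      _ = S.card * (Nat.card G - p) := by simp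
      _ ≤ p * (Nat.card G - p) := Nat.mul_le_mul_right _ hle
  have := Nat.le_of_mul_le_mul_left hsum hp.out.pos
  omega

/-- Subgroups generated by `p`-elements. -/
def PGen {G : Type*} [Group G] (p : ℕ) (T : Subgroup G) : Prop :=
  ∃ A : Set G, (∀ g ∈ A, ∃ k : ℕ, orderOf g = p ^ k) ∧ T = closure A

theorem PGen.sup {G : Type*} [Group G] {p : ℕ} {T T' : Subgroup G} (h : PGen p T) (h' : PGen p T') :
    PGen p (T ⊔ T') := by
  obtain ⟨A, hA, rfl⟩ := h
  obtain ⟨B, hB, rfl⟩ := h'
  refine ⟨A ∪ B, ?_, by rw [Subgroup.closure_union]⟩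
  rintro g (hg | hg)
  · exact hA g hg
  · exact hB g hg

theorem mem_conj_smul {G : Type*} [Group G] {x g : G} {X : Subgroup G} :
    g ∈ MulAut.conj x • X ↔ x⁻¹ * g * x ∈ X := by
  rw [Subgroup.mem_pointwise_smul_iff_inv_smul_mem, MulAut.smul_def, MulAut.conj_inv_apply]

theorem PGen.conj {G : Type*} [Group G] {p : ℕ} {T : Subgroup G} (h : PGen p T) (x : G) :
    PGen p (MulAut.conj x • T) := by
  obtain ⟨A, hA, rfl⟩ := h
  refine ⟨(MulAut.conj x).toMonoidHom '' A, ?_, ?_⟩
  · rintro _ ⟨g, hg, rfl⟩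
    obtain ⟨k, hk⟩ := hA g hg
    refine ⟨k, ?_⟩
    show orderOf (MulAut.conj x g) = _
    rw [MulEquiv.orderOf_eq, hk]
  · rw [← MonoidHom.map_closure]
    rfl

theorem no_small_cover {p : ℕ} [hp : Fact p.Prime] :
    ∀ (n : ℕ) (G : Type u) [Group G] [Finite G], Nat.card G = n →
      closure {g : G | ∃ k : ℕ, orderOf g = p ^ k} = ⊤ →
      ∀ S : Finset (Subgroup G), (∀ K ∈ S, K ≠ ⊤) →
        (∀ g : G, (∃ k : ℕ, orderOf g = p ^ k) → ∃ K ∈ S, g ∈ K) → p + 1 ≤ S.card := by
  intro n
  induction n using Nat.strong_induction_on with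
  | _ n ih =>
  intro G _ _ hn hgen S hS hcov
  classical
  by_contra hcon
  have hle : S.card ≤ p := by omega
  -- every proper `p`-generated subgroup lies in a member of the family
  have hsub : ∀ T : Subgroup G, T ≠ ⊤ → PGen p T → ∃ K ∈ S, T ≤ K := by
    rintro T hT ⟨A, hA, rfl⟩
    by_contra hno
    push Not at hno
    have hlt : Nat.card (closure A) < n := by
      rw [← hn]
      have h1 := (closure A).card_mul_index
      have h2 : (closure A).index ≠ 1 := by
        rw [Ne, Subgroup.index_eq_one]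
        exact hT
      have h3 : (closure A).index ≠ 0 := Subgroup.index_ne_zero_of_finite
      have h4 : 0 < Nat.card (closure A) := Nat.card_pos
      rw [← h1]
      have : 2 ≤ (closure A).index := by omega
      nlinarith
    have hgen' : closure {g : closure A | ∃ k : ℕ, orderOf g = p ^ k} = ⊤ := by
      rw [eq_top_iff, ← closure_closure_coe_preimage (k := A)]
      apply Subgroup.closure_mono
      intro g hg
      obtain ⟨k, hk⟩ := hA g hg
      exact ⟨k, by rwa [Subgroup.orderOf_coe] at hk⟩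
    have hres := ih _ hlt (closure A) rfl hgen' (S.image fun K => K.subgroupOf (closure A))
      (by
        intro K' hK'
        obtain ⟨K, hK, rfl⟩ := Finset.mem_image.1 hK'
        rw [Ne, Subgroup.subgroupOf_eq_top]
        exact hno K hK)
      (by
        intro g hg
        obtain ⟨k, hk⟩ := hg
        obtain ⟨K, hK, hgK⟩ := hcov g ⟨k, by rwa [Subgroup.orderOf_coe]⟩
        exact ⟨_, Finset.mem_image_of_mem _ hK, Subgroup.mem_subgroupOf.2 hgK⟩)
    have := Finset.card_image_le (s := S) (f := fun K => K.subgroupOf (closure A))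
    omega
  -- the maximal proper `p`-generated subgroups
  let T : Set (Subgroup G) := {T | T ≠ ⊤ ∧ PGen p T}
  let M : Set (Subgroup G) := {X | Maximal (· ∈ T) X}
  have hup : ∀ X ∈ T, ∃ Y ∈ M, X ≤ Y := by
    intro X hX
    obtain ⟨Y, hXY, hY⟩ := (Set.toFinite T).exists_le_maximal hX
    exact ⟨Y, hY, hXY⟩
  -- at most `p` of them
  haveI : Fintype M := Fintype.ofFinite M
  have hcardM : Fintype.card M ≤ p := by
    have h1 : ∀ X : M, ∃ K : S, X.1 ≤ K.1 := by
      intro X
      obtain ⟨K, hK, hXK⟩ := hsub X.1 X.2.1.1 X.2.1.2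
      exact ⟨⟨K, hK⟩, hXK⟩
    choose f hf using h1
    have hfinj : Function.Injective f := by
      intro X Y hXY
      have hX := hf X
      have hY := hf Y
      rw [← hXY] at hY
      have hsup : X.1 ⊔ Y.1 ≤ (f X).1 := sup_le hX hY
      have hsupT : X.1 ⊔ Y.1 ∈ T := by
        refine ⟨?_, X.2.1.2.sup Y.2.1.2⟩
        intro htop
        rw [htop, top_le_iff] at hsup
        exact hS _ (f X).2 hsup
      have h2 : X.1 ⊔ Y.1 ≤ X.1 := X.2.2 hsupT le_sup_left
      have h3 : X.1 ⊔ Y.1 ≤ Y.1 := Y.2.2 hsupT le_sup_right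
      apply Subtype.ext
      exact le_antisymm (le_sup_left.trans h3) (le_sup_right.trans h2)
    have := Fintype.card_le_of_injective f hfinj
    rw [Fintype.card_coe] at this
    omega
  -- conjugation preserves this set
  have hconjT : ∀ (x : G) (X : Subgroup G), X ∈ T → MulAut.conj x • X ∈ T := by
    intro x X hX
    refine ⟨?_, hX.2.conj x⟩
    intro htop
    apply hX.1
    rw [eq_top_iff]
    intro g _
    have h1 : x * g * x⁻¹ ∈ MulAut.conj x • X := by rw [htop]; trivial
    rw [mem_conj_smul] at h1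
    simpa [mul_assoc] using h1
  have hconjM : ∀ (x : G) (X : Subgroup G), X ∈ M → MulAut.conj x • X ∈ M := by
    intro x X hX
    refine ⟨hconjT x X hX.1, ?_⟩
    intro Y hY hle'
    have h1 : X ≤ MulAut.conj x⁻¹ • Y := by
      intro g hg
      rw [mem_conj_smul, inv_inv]
      apply hle'
      rw [mem_conj_smul]
      simpa [mul_assoc] using hg
    have h2 := hX.2 (hconjT x⁻¹ Y hY) h1
    intro g hg
    rw [mem_conj_smul]
    apply h2
    rw [mem_conj_smul, inv_inv]
    simpa [mul_assoc] using hg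
  -- a `p`-element lying in a member fixes every member
  have hfix : ∀ x : G, (∃ k : ℕ, orderOf x = p ^ k) → ∀ X ∈ M, MulAut.conj x • X = X := by
    rintro x ⟨k, hk⟩ X hX
    obtain ⟨K, hKS, hxK⟩ := hcov x ⟨k, hk⟩
    have hzT : zpowers x ∈ T := by
      refine ⟨?_, {x}, ?_, ?_⟩
      · intro htop
        have : zpowers x ≤ K := by
          rw [Subgroup.zpowers_le]
          exact hxK
        rw [htop, top_le_iff] at this
        exact hS K hKS this
      · rintro g rfl
        exact ⟨k, hk⟩
      · exact (Subgroup.zpowers_eq_closure x)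
    obtain ⟨X₀, hX₀, hxX₀⟩ := hup _ hzT
    have hxmem : x ∈ X₀ := hxX₀ (Subgroup.mem_zpowers x)
    let f : Function.End M := fun Y => ⟨MulAut.conj x • Y.1, hconjM x Y.1 Y.2⟩
    have hpow : ∀ (m : ℕ) (Y : M), ((f ^ m) Y).1 = MulAut.conj (x ^ m) • Y.1 := by
      intro m
      induction m with
      | zero =>
        intro Y
        rw [pow_zero, pow_zero, map_one, one_smul]
        rfl
      | succ m ihm =>
        intro Y
        rw [pow_succ']
        show MulAut.conj x • ((f ^ m) Y).1 = _
        rw [ihm, smul_smul, ← map_mul, pow_succ']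
    have hf1 : f ^ p ^ k = 1 := by
      funext Y
      apply Subtype.ext
      rw [hpow, ← hk, pow_orderOf_eq_one, map_one, one_smul]
      rfl
    have hmod := Equiv.Perm.card_fixedPoints_modEq hf1
    have hX₀fix : (⟨X₀, hX₀⟩ : M) ∈ Function.fixedPoints f := by
      apply Subtype.ext
      show MulAut.conj x • X₀ = X₀
      exact Subgroup.conj_smul_eq_self_of_mem hxmem
    by_contra hnot
    have hXnot : (⟨X, hX⟩ : M) ∉ Function.fixedPoints f := by
      intro h
      exact hnot (congrArg Subtype.val h)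
    have h1 : Fintype.card (Function.fixedPoints f) < Fintype.card M :=
      Fintype.card_subtype_lt (x := (⟨X, hX⟩ : M)) hXnot
    have h2 : 0 < Fintype.card (Function.fixedPoints f) := Fintype.card_pos_iff.2 ⟨⟨_, hX₀fix⟩⟩
    have h3 : p ∣ Fintype.card M - Fintype.card (Function.fixedPoints f) :=
      (Nat.modEq_iff_dvd' h1.le).1 hmod.symm
    have h4 := Nat.le_of_dvd (Nat.sub_pos_of_lt h1) h3
    omega
  have hnormal : ∀ X ∈ M, X.Normal := by
    intro X hX
    have hall : ∀ g : G, MulAut.conj g • X = X := by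
      intro g
      have hg : g ∈ closure {g : G | ∃ k : ℕ, orderOf g = p ^ k} := hgen ▸ mem_top g
      induction hg using closure_induction with
      | mem y hy => exact hfix y hy X hX
      | one => rw [map_one, one_smul]
      | mul a b _ _ ha hb => rw [map_mul, mul_smul, hb, ha]
      | inv a _ ha =>
        conv_lhs => rw [← ha]
        rw [smul_smul, ← map_mul, inv_mul_cancel, map_one, one_smul]
    constructor
    intro n hn g
    have h1 := hall g⁻¹
    rw [← h1, mem_conj_smul] at hn
    simpa [mul_assoc] using hn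
  let P : Sylow p G := default
  by_cases hPtop : (P : Subgroup G) = ⊤
  · have hG : IsPGroup p G := by
      rw [IsPGroup.iff_orderOf]
      intro g
      obtain ⟨k, hk⟩ := IsPGroup.iff_orderOf.1 P.isPGroup' ⟨g, by rw [hPtop]; trivial⟩
      exact ⟨k, by simpa using hk⟩
    exact hcon (pgroup_cover hG S hS (fun g => hcov g (IsPGroup.iff_orderOf.1 hG g)))
  · have hPT : (P : Subgroup G) ∈ T := by
      refine ⟨hPtop, (P : Subgroup G), ?_, (Subgroup.closure_eq _).symm⟩
      intro g hg
      obtain ⟨k, hk⟩ := IsPGroup.iff_orderOf.1 P.isPGroup' ⟨g, hg⟩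
      exact ⟨k, by simpa using hk⟩
    obtain ⟨X, hX, hPX⟩ := hup _ hPT
    haveI := hnormal X hX
    apply hX.1.1
    rw [eq_top_iff, ← hgen, closure_le]
    rintro x ⟨k, hk⟩
    obtain ⟨Q, hxQ⟩ := Cfsg.Agent.Lib.ClassSizes.exists_sylow_mem_of_orderOf (p := p) (x := x) ⟨k, hk⟩
    obtain ⟨g, rfl⟩ := MulAction.exists_smul_eq G P Q
    rw [Cfsg.Agent.Lib.ClassSizes.mem_sylow_smul_iff] at hxQ
    have h1 : g⁻¹ * x * g ∈ X := hPX hxQ
    have h2 := ‹X.Normal›.conj_mem _ h1 g
    simpa [mul_assoc] using h2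

end Cfsg.Agent.Lib.Cl.PCover
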