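import Mathlib
import Cfsg.Agent.Lib.Techniques.Goldschmidt
import Cfsg.Agent.Lib.Hall.CoprimeSylow
import Cfsg.Agent.Lib.FrobThm.Setup
import Cfsg.Agent.Lib.Amalgam.YL

/-! `π`-closed groups: the `π`-elements forming a subgroup, as in Wielandt's criterion. -/

set_option autoImplicit false

namespace Cfsg.Agent.Lib.Cl.PiClosed

open Subgroup Cfsg.Agent.Lib.Techniques

section Basic

variable {G : Type*} [Group G] {π : Set ℕ}

/-- `x` is a `π`-element. -/
def PE (π : Set ℕ) (x : G) : Prop := ∀ p : ℕ, p.Prime → p ∣ orderOf x → p ∈ π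

theorem PE.of_dvd {x : G} {G' : Type*} [Group G'] {y : G'} (h : orderOf y ∣ orderOf x)
    (hx : PE π x) : PE π y :=
  fun p hp hd => hx p hp (hd.trans h)

theorem PE_one : PE π (1 : G) := by
  intro p hp hd
  rw [orderOf_one] at hd
  exact absurd (Nat.dvd_one.1 hd) hp.ne_one

theorem PE.inv {x : G} (h : PE π x) : PE π x⁻¹ := by
  intro p hp hd
  rw [orderOf_inv] at hd
  exact h p hp hd

theorem PE.map {G' : Type*} [Group G'] (f : G →* G') {x : G} (h : PE π x) : PE π (f x) :=
  PE.of_dvd (orderOf_map_dvd f x) h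

theorem PE.conj {x : G} (h : PE π x) (g : G) : PE π (g * x * g⁻¹) := by
  intro p hp hd
  rw [Cfsg.Agent.Lib.Techniques.orderOf_conj_eq] at hd
  exact h p hp hd

theorem PE_coe {Y : Subgroup G} {x : Y} : PE π (x : G) ↔ PE π x := by
  unfold PE
  rw [Subgroup.orderOf_coe]

theorem PE_of_dvd_num {x : G} {n : ℕ} (h : orderOf x ∣ n) (hn : ∀ p : ℕ, p.Prime → p ∣ n → p ∈ π) :
    PE π x :=
  fun p hp hd => hn p hp (hd.trans h)

theorem orderOf_dvd_card_of_mem [Finite G] {L : Subgroup G} {x : G} (hx : x ∈ L) :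
    orderOf x ∣ Nat.card L := by
  have := orderOf_dvd_natCard (⟨x, hx⟩ : L)
  rwa [Subgroup.orderOf_mk] at this

theorem PE_of_quot [Finite G] {L : Subgroup G} [L.Normal] (hL : ∀ p : ℕ, p.Prime → p ∣ Nat.card L → p ∈ π)
    {x : G} (hx : PE π (QuotientGroup.mk' L x)) : PE π x := by
  have h1 : x ^ orderOf (QuotientGroup.mk' L x) ∈ L := by
    rw [← QuotientGroup.eq_one_iff]
    have := pow_orderOf_eq_one (QuotientGroup.mk' L x)
    simpa using this
  have h2 : orderOf x ∣ orderOf (QuotientGroup.mk' L x) * Nat.card L := by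
    apply orderOf_dvd_of_pow_eq_one
    rw [pow_mul]
    exact orderOf_dvd_iff_pow_eq_one.1 (orderOf_dvd_card_of_mem h1)
  intro p hp hd
  rcases (Nat.Prime.dvd_mul hp).1 (hd.trans h2) with h3 | h3
  · exact hx p hp h3
  · exact hL p hp h3

theorem PE_pow_ordCompl {p : ℕ} (hp : p.Prime) (hpi : p ∈ π) [Finite G] (x : G) :
    PE π (x ^ (ordCompl[p] (orderOf x))) := by
  have h0 : orderOf x ≠ 0 := (orderOf_pos x).ne'
  have h1 : (x ^ (ordCompl[p] (orderOf x))) ^ (p ^ (orderOf x).factorization p) = 1 := by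
    rw [← pow_mul, mul_comm, Nat.ordProj_mul_ordCompl_eq_self, pow_orderOf_eq_one]
  have h2 := orderOf_dvd_of_pow_eq_one h1
  intro r hr hd
  have h3 := hr.dvd_of_dvd_pow (hd.trans h2)
  rwa [(Nat.prime_dvd_prime_iff_eq hr hp).1 h3]

/-- The contradiction that arises when `p ∈ π` is the order of an image of `x` and `p`-parts die. -/
theorem no_prime_quot [Finite G] {Q : Type*} [Group Q] (f : G →* Q) {x : G} {p : ℕ} (hp : p.Prime)
    (hpi : p ∈ π) (hx : orderOf (f x) = p)
    (h : f (x ^ (ordCompl[p] (orderOf x))) = 1) : False := by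
  have h0 : orderOf x ≠ 0 := (orderOf_pos x).ne'
  rw [map_pow] at h
  have h1 := orderOf_dvd_of_pow_eq_one h
  rw [hx] at h1
  exact Nat.not_dvd_ordCompl hp h0 h1

/-- `N_G(U)/C_G(U)` is a `π'`-group for `π'`-subgroups, element form. -/
def Hom (π : Set ℕ) (G : Type*) [Group G] : Prop :=
  ∀ U : Subgroup G, U ≠ ⊥ → (∀ p : ℕ, p.Prime → p ∣ Nat.card U → p ∉ π) →
    ∀ y ∈ normalizer (U : Set G), PE π y → y ∈ centralizer (U : Set G)

/-- The index form of the hypothesis. -/
def HomI (π : Set ℕ) (G : Type*) [Group G] : Prop :=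
  ∀ H : Subgroup G, H ≠ ⊥ → (∀ p : ℕ, p.Prime → p ∣ Nat.card ↥H → p ∉ π) →
    ∀ p : ℕ, p.Prime → p ∣ (centralizer (H : Set G)).relIndex (normalizer (H : Set G)) → p ∉ π

theorem centralizer_normal_normalizer [Finite G] (U : Subgroup G) :
    ((centralizer (U : Set G)).subgroupOf (normalizer (U : Set G))).Normal := by
  rw [Subgroup.normal_subgroupOf_iff_le_normalizer (Subgroup.centralizer_le_normalizer _)]
  exact Cfsg.Agent.Lib.Amalgam.normalizer_le_normalizer_centralizer U

theorem hom_of_homI [Finite G] (h : HomI π G) : Hom π G := by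
  intro U hU hc y hy hPE
  set r := (centralizer (U : Set G)).relIndex (normalizer (U : Set G)) with hr
  haveI := centralizer_normal_normalizer U
  have h1 : y ^ r ∈ centralizer (U : Set G) := by
    have := Subgroup.pow_index_mem ((centralizer (U : Set G)).subgroupOf (normalizer (U : Set G)))
      (⟨y, hy⟩ : normalizer (U : Set G))
    rwa [Subgroup.mem_subgroupOf] at this
  have h2 : y ^ orderOf y ∈ centralizer (U : Set G) := by
    rw [pow_orderOf_eq_one]
    exact one_mem _
  refine Cfsg.Agent.Lib.FrobThm.mem_of_pow_mem_of_pow_mem ?_ h1 h2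
  by_contra hne
  obtain ⟨p, hp, h3, h4⟩ := Nat.Prime.not_coprime_iff_dvd.1 hne
  exact h U hU hc p hp h3 (hPE p hp h4)

theorem homI_of_hom [Finite G] (h : Hom π G) : HomI π G := by
  intro U hU hc p hp hd hpi
  haveI := centralizer_normal_normalizer U
  haveI : Fact p.Prime := ⟨hp⟩
  set C := (centralizer (U : Set G)).subgroupOf (normalizer (U : Set G)) with hC
  have h1 : p ∣ Nat.card (normalizer (U : Set G) ⧸ C) := by
    rw [← Subgroup.index_eq_card]
    exact hd
  obtain ⟨z, hz⟩ := exists_prime_orderOf_dvd_card' p h1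
  obtain ⟨y, rfl⟩ := QuotientGroup.mk'_surjective C z
  refine no_prime_quot (π := π) (QuotientGroup.mk' C) hp hpi hz ?_
  rw [QuotientGroup.mk'_apply, QuotientGroup.eq_one_iff, Subgroup.mem_subgroupOf]
  rw [Subgroup.coe_pow]
  refine h U hU hc _ (Subgroup.pow_mem _ y.2 _) ?_
  have h2 := PE_pow_ordCompl (π := π) hp hpi y
  rw [← PE_coe] at h2
  simpa using h2

theorem Hom.subgroup [Finite G] (h : Hom π G) (Y : Subgroup G) : Hom π Y := by
  intro U hU hc y hy hPE
  have hU' : U.map Y.subtype ≠ ⊥ := by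
    intro h1
    exact hU ((Subgroup.map_eq_bot_iff_of_injective _ Y.subtype_injective).1 h1)
  have hcard : Nat.card (U.map Y.subtype) = Nat.card U :=
    Subgroup.card_map_of_injective Y.subtype_injective
  have h1 : (y : G) ∈ centralizer ((U.map Y.subtype : Subgroup G) : Set G) := by
    refine h _ hU' (by rw [hcard]; exact hc) _ ?_ (PE_coe.2 hPE)
    exact Subgroup.le_normalizer_map Y.subtype ⟨y, hy, rfl⟩
  rw [Subgroup.mem_centralizer_iff] at h1 ⊢
  intro u hu
  apply Subtype.ext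
  exact h1 u ⟨u, hu, rfl⟩

end Basic

section Core

variable {G : Type*} [Group G] [Finite G] {π : Set ℕ}

theorem sylow_commute (hom : Hom π G) (L : Subgroup G) [L.Normal]
    (hL : ∀ p : ℕ, p.Prime → p ∣ Nat.card L → p ∈ π) (q : ℕ) [hq : Fact q.Prime] (hqπ : q ∉ π)
    (Qb : Subgroup (G ⧸ L)) (hQb : IsPGroup q Qb) (x : G) (hx : PE π (QuotientGroup.mk' L x))
    (hinv : QuotientGroup.mk' L x ∈ normalizer (Qb : Set (G ⧸ L))) :
    ∀ v ∈ Qb, QuotientGroup.mk' L x * v = v * QuotientGroup.mk' L x := by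
  classical
  set f := QuotientGroup.mk' L with hf
  have hsurj : Function.Surjective f := QuotientGroup.mk'_surjective L
  set D : Subgroup G := Qb.comap f with hD
  obtain ⟨T, hT⟩ : ∃ T, SylowIn q T D := exists_sylowIn D
  -- the image of `T` is `Qb`
  have hTmap : T.map f = Qb := by
    refine le_antisymm ?_ ?_
    · rintro _ ⟨t, ht, rfl⟩
      exact hT.1 ht
    · let fD : D →* Qb := (f.comp D.subtype).codRestrict Qb (fun d => d.2)
      have hfD : Function.Surjective fD := by
        rintro ⟨v, hv⟩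
        obtain ⟨g, rfl⟩ := hsurj v
        exact ⟨⟨g, hv⟩, rfl⟩
      have h1 := (hT.toSylow.mapSurjective hfD : Sylow q Qb)
      set S' : Sylow q Qb := hT.toSylow.mapSurjective hfD with hS'
      have hS'top : (⊤ : Subgroup Qb) = S' :=
        S'.is_maximal' (hQb.of_equiv Subgroup.topEquiv.symm) le_top
      intro v hv
      have hv' : (⟨v, hv⟩ : Qb) ∈ (S' : Subgroup Qb) := by
        rw [← hS'top]
        trivial
      rw [hS', Sylow.coe_mapSurjective] at hv'
      obtain ⟨d, hd, hdv⟩ := hv'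
      refine ⟨d, hd, ?_⟩
      exact congrArg Subtype.val hdv
  -- `x` normalizes `D`
  have hxD : conjS x D = D := by
    ext g
    rw [mem_conjS]
    have h1 := (Subgroup.mem_normalizer_iff.1 (Subgroup.inv_mem _ hinv)) (f g)
    constructor
    · intro h
      have h2 : (f x)⁻¹ * f g * (f x)⁻¹⁻¹ ∈ Qb := by
        have : f (x⁻¹ * g * x) ∈ Qb := h
        simpa [map_mul] using this
      exact h1.2 h2
    · intro h
      have h2 : (f x)⁻¹ * f g * (f x)⁻¹⁻¹ ∈ Qb := h1.1 h
      show f (x⁻¹ * g * x) ∈ Qb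
      simpa [map_mul] using h2
  obtain ⟨d, hd, hdx⟩ := frattini_in hT hxD
  have hdb : f d ∈ T.map f := by
    rw [hTmap]
    exact hd
  obtain ⟨s, hs, hsd⟩ := hdb
  set y : G := s * (d⁻¹ * x) with hy
  have hyN : y ∈ normalizer (T : Set G) :=
    Subgroup.mul_mem _ (Subgroup.le_normalizer hs) hdx
  have hfy : f y = f x := by
    simp only [hy, map_mul, map_inv]
    rw [show f s = f d from hsd]
    simp
  have hyPE : PE π y := PE_of_quot hL (by
    show PE π (f y)
    rw [hfy]
    exact hx)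
  intro v hv
  by_cases hTb : T = ⊥
  · rw [← hTmap, hTb, Subgroup.map_bot, Subgroup.mem_bot] at hv
    rw [hv]
    simp
  have hprimes : ∀ p : ℕ, p.Prime → p ∣ Nat.card T → p ∉ π := by
    intro p hp hd
    haveI : Fact p.Prime := ⟨hp⟩
    obtain ⟨k, hk⟩ := IsPGroup.iff_card.1 hT.2.1
    rw [hk] at hd
    have := (Nat.prime_dvd_prime_iff_eq hp hq.out).1 (hp.dvd_of_dvd_pow hd)
    rwa [this]
  have hyC := hom T hTb hprimes y hyN hyPE
  rw [← hTmap] at hv
  obtain ⟨t, ht, rfl⟩ := hv
  have h3 : t * y = y * t := Subgroup.mem_centralizer_iff.1 hyC t ht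
  rw [← hfy, ← map_mul, ← map_mul, h3]

theorem commute_of_PE (hom : Hom π G) (L K : Subgroup G) [L.Normal] [K.Normal]
    (hL : ∀ p : ℕ, p.Prime → p ∣ Nat.card L → p ∈ π)
    (hKc : ∀ p : ℕ, p.Prime → p ∣ Nat.card (K.map (QuotientGroup.mk' L)) → p ∉ π) (x : G)
    (hx : PE π (QuotientGroup.mk' L x)) {k : G ⧸ L} (hk : k ∈ K.map (QuotientGroup.mk' L)) :
    QuotientGroup.mk' L x * k = k * QuotientGroup.mk' L x := by
  classical
  set f := QuotientGroup.mk' L with hf
  have hsurj : Function.Surjective f := QuotientGroup.mk'_surjective L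
  set Kb : Subgroup (G ⧸ L) := K.map f with hKb
  haveI hKbn : Kb.Normal := Subgroup.Normal.map inferInstance f hsurj
  set xb := f x with hxb
  set C : Subgroup (G ⧸ L) := centralizer ({xb} : Set (G ⧸ L)) with hC
  suffices hle : Kb ≤ C by
    have := hle hk
    rw [hC, Subgroup.mem_centralizer_singleton_iff] at this
    exact this.symm
  have hidx : (C.subgroupOf Kb).index = 1 := by
    by_contra hne
    obtain ⟨q, hq, hqi⟩ := Nat.exists_prime_and_dvd hne
    haveI : Fact q.Prime := ⟨hq⟩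
    have hsolv : Group.IsSolvable (zpowers xb) := inferInstance
    have hqK : q ∣ Nat.card Kb := hqi.trans (Subgroup.index_dvd_card _)
    have hcop : (Nat.card (zpowers xb)).Coprime (Nat.card Kb) := by
      rw [Nat.card_zpowers]
      by_contra hne2
      obtain ⟨p, hp, h3, h4⟩ := Nat.Prime.not_coprime_iff_dvd.1 hne2
      exact hKc p hp h4 (hx p hp h3)
    obtain ⟨P, hP⟩ := Cfsg.Agent.Lib.Hall.exists_invariant_sylow (zpowers xb) Kb
      (by rw [Subgroup.normalizer_eq_top]; exact le_top) hcop (Or.inl hsolv) q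
    have hPC : (P : Subgroup Kb) ≤ C.subgroupOf Kb := by
      intro v hv
      rw [Subgroup.mem_subgroupOf, hC, Subgroup.mem_centralizer_singleton_iff]
      have := sylow_commute hom L hL q (hKc q hq hqK) ((P : Subgroup Kb).map Kb.subtype)
        (P.2.map _) x hx (hP (Subgroup.mem_zpowers _)) (v : G ⧸ L) ⟨v, hv, rfl⟩
      exact this.symm
    exact P.not_dvd_index (hqi.trans (Subgroup.index_dvd_of_le hPC))
  exact Subgroup.relIndex_eq_one.1 hidx

/-- **Extension step**: with `π'`-homogeneity, `π`-closure extends from `K` and `G / K` to `G`. -/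
theorem core (hom : Hom π G) (K : Subgroup G) [hKn : K.Normal]
    (hK : ∀ x ∈ K, ∀ y ∈ K, PE π x → PE π y → PE π (x * y))
    (hQ : ∀ x y : G ⧸ K, PE π x → PE π y → PE π (x * y)) :
    ∀ x y : G, PE π x → PE π y → PE π (x * y) := by
  classical
  -- the `π`-elements of `K`
  let L : Subgroup G :=
    { carrier := {x | x ∈ K ∧ PE π x}
      mul_mem' := fun {a b} ha hb => ⟨K.mul_mem ha.1 hb.1, hK a ha.1 b hb.1 ha.2 hb.2⟩
      one_mem' := ⟨K.one_mem, PE_one⟩
      inv_mem' := fun {a} ha => ⟨K.inv_mem ha.1, ha.2.inv⟩ }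
  have hLmem : ∀ x, x ∈ L ↔ x ∈ K ∧ PE π x := fun x => Iff.rfl
  haveI hLn : L.Normal := ⟨fun x hx g => ⟨hKn.conj_mem x hx.1 g, hx.2.conj g⟩⟩
  have hLK : L ≤ K := fun x hx => hx.1
  have hLc : ∀ p : ℕ, p.Prime → p ∣ Nat.card L → p ∈ π := by
    intro p hp hd
    haveI : Fact p.Prime := ⟨hp⟩
    obtain ⟨x, hx⟩ := exists_prime_orderOf_dvd_card' p hd
    have h1 : PE π (x : G) := x.2.2
    apply h1 p hp
    rw [Subgroup.orderOf_coe, hx]
  set f := QuotientGroup.mk' L with hf
  have hsurj : Function.Surjective f := QuotientGroup.mk'_surjective L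
  set Kb : Subgroup (G ⧸ L) := K.map f with hKb
  have hKc : ∀ p : ℕ, p.Prime → p ∣ Nat.card Kb → p ∉ π := by
    intro q hq hd hqπ
    haveI : Fact q.Prime := ⟨hq⟩
    obtain ⟨z, hz⟩ := exists_prime_orderOf_dvd_card' q hd
    obtain ⟨x, hxK, hxz⟩ := z.2
    have h1 : orderOf (f x) = q := by
      rw [hxz, Subgroup.orderOf_coe, hz]
    refine no_prime_quot (π := π) f hq hqπ h1 ?_
    rw [hf, QuotientGroup.mk'_apply, QuotientGroup.eq_one_iff]
    exact ⟨K.pow_mem hxK _, PE_pow_ordCompl hq hqπ x⟩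
  -- the induced map `G / L → G / K`
  let φ : (G ⧸ L) →* (G ⧸ K) := QuotientGroup.map L K (MonoidHom.id G) (fun x hx => hLK hx)
  have hφ : ∀ g, φ (f g) = QuotientGroup.mk' K g := fun g => rfl
  have hKbφ : ∀ z, z ∈ Kb ↔ φ z = 1 := by
    intro z
    obtain ⟨g, rfl⟩ := hsurj z
    have hK1 : QuotientGroup.mk' K g = 1 ↔ g ∈ K := by
      rw [QuotientGroup.mk'_apply, QuotientGroup.eq_one_iff]
    rw [hφ, hK1]
    constructor
    · rintro ⟨k, hk, hkg⟩
      have h1 : k⁻¹ * g ∈ L := by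
        rw [← QuotientGroup.eq_one_iff]
        have : f (k⁻¹ * g) = 1 := by
          rw [map_mul, map_inv, hkg, inv_mul_cancel]
        exact this
      have h2 := K.mul_mem hk (hLK h1)
      simpa using h2
    · intro hg
      exact ⟨g, hg, rfl⟩
  -- the `π`-elements of `G / K`
  let B : Subgroup (G ⧸ K) :=
    { carrier := {x | PE π x}
      mul_mem' := fun {a b} ha hb => hQ a b ha hb
      one_mem' := PE_one
      inv_mem' := fun {a} ha => PE.inv ha }
  let Mb : Subgroup (G ⧸ L) := B.comap φ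
  have hKbM : Kb ≤ Mb := by
    intro z hz
    have := (hKbφ z).1 hz
    show φ z ∈ B
    rw [this]
    exact B.one_mem
  let N : Subgroup Mb := Kb.subgroupOf Mb
  haveI hKbn : Kb.Normal := Subgroup.Normal.map inferInstance f hsurj
  haveI hNn : N.Normal := inferInstance
  have hNcard : Nat.card N = Nat.card Kb :=
    Nat.card_congr (Subgroup.subgroupOfEquivOfLe hKbM).toEquiv
  -- the index of `N`
  let ψ : Mb →* (G ⧸ K) := φ.comp Mb.subtype
  have hψker : ψ.ker = N := by
    ext z
    rw [MonoidHom.mem_ker, Subgroup.mem_subgroupOf, hKbφ]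
    rfl
  have hNidx : N.index ∣ Nat.card B := by
    rw [← hψker, Subgroup.index_ker]
    apply Subgroup.card_dvd_of_le
    rintro _ ⟨z, rfl⟩
    exact z.2
  have hBc : ∀ p : ℕ, p.Prime → p ∣ Nat.card B → p ∈ π := by
    intro p hp hd
    haveI : Fact p.Prime := ⟨hp⟩
    obtain ⟨x, hx⟩ := exists_prime_orderOf_dvd_card' p hd
    have h1 : PE π (x : G ⧸ K) := x.2
    apply h1 p hp
    rw [Subgroup.orderOf_coe, hx]
  have hcop : (Nat.card N).Coprime N.index := by
    rw [hNcard]
    by_contra hne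
    obtain ⟨p, hp, h3, h4⟩ := Nat.Prime.not_coprime_iff_dvd.1 hne
    exact hKc p hp h3 (hBc p hp (h4.trans hNidx))
  obtain ⟨Ab, hAb⟩ := Subgroup.exists_right_complement'_of_coprime hcop
  have hAbcard : Nat.card Ab = N.index := by
    exact (hAb.symm.index_eq_card).symm
  -- elements of the complement are `π`-elements
  have hAbPE : ∀ a ∈ Ab, PE π (a : G ⧸ L) := by
    intro a ha
    have h1 : orderOf a ∣ Nat.card Ab := by
      have := orderOf_dvd_natCard (⟨a, ha⟩ : Ab)
      rwa [Subgroup.orderOf_mk] at this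
    rw [hAbcard] at h1
    intro p hp hd
    rw [Subgroup.orderOf_coe] at hd
    exact hBc p hp (hd.trans (h1.trans hNidx))
  -- every `π`-element of `G / L` is in the complement
  have key : ∀ z : G ⧸ L, PE π z → ∃ h : z ∈ Mb, (⟨z, h⟩ : Mb) ∈ Ab := by
    intro z hz
    have hzM : z ∈ Mb := hz.map φ
    refine ⟨hzM, ?_⟩
    have h1 : (⟨z, hzM⟩ : Mb) ∈ N ⊔ Ab := by
      rw [hAb.sup_eq_top]
      trivial
    obtain ⟨n, hn, a, ha, hna⟩ := Subgroup.mem_sup_of_normal_left.1 h1
    have hnz : (n : G ⧸ L) * (a : G ⧸ L) = z := congrArg Subtype.val hna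
    obtain ⟨g, hg⟩ := hsurj (a : G ⧸ L)
    have hcomm : (a : G ⧸ L) * (n : G ⧸ L) = (n : G ⧸ L) * (a : G ⧸ L) := by
      have h2 := commute_of_PE hom L K hLc hKc g (by
        show PE π (f g)
        rw [hg]
        exact hAbPE a ha) (k := (n : G ⧸ L)) hn
      rw [← hf, hg] at h2
      exact h2
    have hza : Commute z (a : G ⧸ L)⁻¹ := by
      apply Commute.inv_right
      show z * (a : G ⧸ L) = (a : G ⧸ L) * z
      rw [← hnz, mul_assoc, ← mul_assoc (a : G ⧸ L), hcomm, mul_assoc]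
    have hn1 : (n : G ⧸ L) = z * (a : G ⧸ L)⁻¹ := by
      rw [← hnz, mul_inv_cancel_right]
    have hnPE : PE π (n : G ⧸ L) := by
      intro p hp hd
      rw [hn1] at hd
      have h3 := hd.trans hza.orderOf_mul_dvd_lcm
      rw [orderOf_inv] at h3
      rcases (Nat.Prime.dvd_lcm hp).1 h3 with h4 | h4
      · exact hz p hp h4
      · exact hAbPE a ha p hp h4
    have hn2 : (n : G ⧸ L) = 1 := by
      by_contra hne
      have h5 : orderOf (n : G ⧸ L) ≠ 1 := fun h => hne (orderOf_eq_one_iff.1 h)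
      obtain ⟨p, hp, hd⟩ := Nat.exists_prime_and_dvd h5
      exact hKc p hp (hd.trans (orderOf_dvd_card_of_mem hn)) (hnPE p hp hd)
    have hn3 : n = 1 := Subtype.ext hn2
    rw [← hna, hn3, one_mul]
    exact ha
  -- conclusion
  intro x y hx hy
  obtain ⟨hx1, hx2⟩ := key (f x) (hx.map f)
  obtain ⟨hy1, hy2⟩ := key (f y) (hy.map f)
  have h1 := Ab.mul_mem hx2 hy2
  have h2 := hAbPE _ h1
  apply PE_of_quot hLc
  show PE π (f (x * y))
  rw [map_mul]
  exact h2

/-- The `π`-elements form a subgroup iff they are closed under multiplication. -/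
theorem exists_subgroup_iff : (∃ K : Subgroup G, ∀ x : G, x ∈ K ↔ PE π x) ↔
    ∀ x y : G, PE π x → PE π y → PE π (x * y) := by
  constructor
  · rintro ⟨K, hK⟩ x y hx hy
    exact (hK _).1 (K.mul_mem ((hK x).2 hx) ((hK y).2 hy))
  · intro h
    exact ⟨{ carrier := {x | PE π x}
             mul_mem' := fun {a b} ha hb => h a b ha hb
             one_mem' := PE_one
             inv_mem' := fun {a} ha => PE.inv ha }, fun x => Iff.rfl⟩

end Core

end Cfsg.Agent.Lib.Cl.PiClosed
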