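import Mathlib
import Cfsg.Agent.Lib.KnownSimple.PAbelian
import Cfsg.Agent.Lib.PLocal.QdMat
import Cfsg.Agent.Lib.Amalgam.QdAffine
import Cfsg.Prelude.Def_LocalEven

/-!
# `Qd(p)` inside alternating groups
-/

set_option autoImplicit false

namespace Cfsg.Agent.Lib.Cl.QdAlt

open Matrix Cfsg Cfsg.Agent.Lib.KS2.SL2 Cfsg.Agent.Lib.KnownSimple Cfsg.Agent.Lib.PLocal.Qd
  Cfsg.Agent.Lib.Amalgam
open scoped MatrixGroups

/-- A `p`-group of order not divisible by `p²` has commuting elements. -/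
theorem comm_of_not_sq_dvd {p : ℕ} [Fact p.Prime] {K : Type*} [Group K] [Finite K]
    (hK : IsPGroup p K) (h2 : ¬ p ^ 2 ∣ Nat.card K) (a b : K) : a * b = b * a := by
  obtain ⟨m, hm⟩ := IsPGroup.iff_card.mp hK
  have hm1 : m < 2 := by
    by_contra hc
    exact h2 (hm ▸ pow_dvd_pow p (not_lt.mp hc))
  interval_cases m
  · rw [pow_zero] at hm
    have := (Nat.card_eq_one_iff_unique.mp hm).1
    exact Subsingleton.elim _ _
  · rw [pow_one] at hm
    have : IsCyclic K := isCyclic_of_prime_card hm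
    exact (IsCyclic.commGroup (α := K)).mul_comm a b

/-- `p-1` factorial is prime to `p`; `p²` does not divide `m!` when `m ≤ p`. -/
theorem not_sq_dvd_factorial {p m : ℕ} (hp : p.Prime) (hm : m ≤ p) : ¬ p ^ 2 ∣ Nat.factorial m := by
  intro h
  have h1 : p ^ 2 ∣ Nat.factorial p := h.trans (Nat.factorial_dvd_factorial hm)
  obtain ⟨q, hq⟩ := Nat.exists_eq_succ_of_ne_zero hp.ne_zero
  have h4 : Nat.factorial p = p * Nat.factorial q := by
    rw [hq, Nat.factorial_succ]
  rw [h4, pow_two] at h1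
  have h2 : p ∣ Nat.factorial q := Nat.dvd_of_mul_dvd_mul_left hp.pos h1
  have h3 := (Nat.Prime.dvd_factorial hp).mp h2
  omega

/-- A `p`-group acting on a set of size `< p²` acts commutatively. -/
theorem allPAb_perm {p : ℕ} [Fact p.Prime] {α : Type*} [Fintype α] [DecidableEq α]
    (hα : Fintype.card α < p ^ 2) : AllPAb p (Equiv.Perm α) := by
  classical
  have hp : p.Prime := Fact.out
  intro P hP a ha b hb
  ext x
  -- the orbit of `x`
  let O := MulAction.orbit P x
  let φ : P →* Equiv.Perm O := MulAction.toPermHom P O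
  have hcard : Nat.card O ≤ Fintype.card α := by
    rw [Nat.card_eq_fintype_card]
    exact Fintype.card_subtype_le _
  have hOp : Nat.card O ≤ p := by
    have hdvd : Nat.card O ∣ Nat.card P := by
      have := MulAction.index_stabilizer (G := P) x
      have h5 : Nat.card O = (MulAction.stabilizer P x).index := by
        rw [this]; rfl
      rw [h5]
      exact Subgroup.index_dvd_card _
    obtain ⟨k, hk⟩ := IsPGroup.iff_card.mp hP
    rw [hk] at hdvd
    obtain ⟨i, -, hi⟩ := (Nat.dvd_prime_pow hp).mp hdvd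
    rw [hi] at hcard ⊢
    have hi2 : i < 2 := by
      by_contra hc2
      have h6 := Nat.pow_le_pow_right hp.pos (not_lt.mp hc2)
      omega
    interval_cases i
    · simpa using hp.one_le
    · simp
  let R := φ.range
  have hRp : IsPGroup p R := IsPGroup.of_surjective hP φ.rangeRestrict φ.rangeRestrict_surjective
  have hR2 : ¬ p ^ 2 ∣ Nat.card R := by
    intro h
    have h1 : Nat.card R ∣ Nat.card (Equiv.Perm O) := Subgroup.card_subgroup_dvd_card R
    rw [Nat.card_perm] at h1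
    exact not_sq_dvd_factorial hp hOp (h.trans h1)
  have key := comm_of_not_sq_dvd hRp hR2 ⟨φ ⟨a, ha⟩, ⟨⟨a, ha⟩, rfl⟩⟩ ⟨φ ⟨b, hb⟩, ⟨⟨b, hb⟩, rfl⟩⟩
  have key2 : φ ⟨a, ha⟩ * φ ⟨b, hb⟩ = φ ⟨b, hb⟩ * φ ⟨a, ha⟩ := congrArg Subtype.val key
  have key3 := congrArg (fun g : Equiv.Perm O => ((g ⟨x, MulAction.mem_orbit_self x⟩ : O) : α)) key2
  exact key3

/-- `Qd(p)` is not involved in a group all of whose `p`-subgroups are abelian. -/
theorem not_involves_of_allPAb {p : ℕ} [Fact p.Prime] {G : Type*} [Group G] [Finite G]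
    (hG : AllPAb p G) : ¬ Cfsg.Involves ↥(Cfsg.qd p) G := by
  rintro ⟨K, R, hR, ⟨e⟩⟩
  have h1 : AllPAb p K := AllPAb.of_injective K.subtype K.subtype_injective hG
  have h2 : AllPAb p (K ⧸ R.subgroupOf K) := AllPAb.of_surjective _ (QuotientGroup.mk'_surjective _) h1
  exact not_allPAb_qd p (AllPAb.of_surjective e.toMonoidHom e.surjective h2)

variable {p : ℕ} [Fact p.Prime]

/-- upper unitriangular -/
def uu (x : ZMod p) : SL(2, ZMod p) := mk 1 x 0 1 (by ring)
/-- lower unitriangular -/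
def ll (x : ZMod p) : SL(2, ZMod p) := mk 1 0 x 1 (by ring)

theorem uu_add (x y : ZMod p) : uu (x + y) = uu x * uu y := by
  apply Subtype.ext
  ext i j
  fin_cases i <;> fin_cases j <;> simp [uu, mk00, mk01, mk10, mk11, mul00, mul01, mul10, mul11, add_comm]

theorem ll_add (x y : ZMod p) : ll (x + y) = ll x * ll y := by
  apply Subtype.ext
  ext i j
  fin_cases i <;> fin_cases j <;> simp [ll, mk00, mk01, mk10, mk11, mul00, mul01, mul10, mul11, add_comm]

theorem half (hp : p ≠ 2) (x : ZMod p) : x = 2⁻¹ * x + 2⁻¹ * x := by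
  have h2 : (2 : ZMod p) ≠ 0 := by
    intro h
    have : ((2 : ℕ) : ZMod p) = 0 := by exact_mod_cast h
    rw [ZMod.natCast_eq_zero_iff] at this
    exact hp ((Nat.prime_dvd_prime_iff_eq Fact.out Nat.prime_two).mp this)
  field_simp
  ring

theorem unit_sq (u : ℤˣ) : u * u = 1 := Int.units_mul_self u

theorem sl2_hom_trivial (hp : p ≠ 2) (ψ : SL(2, ZMod p) →* ℤˣ) (A : SL(2, ZMod p)) : ψ A = 1 := by
  have hu : ∀ x, ψ (uu x) = 1 := by
    intro x
    rw [half hp x, uu_add, map_mul, unit_sq]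
  have hl : ∀ x, ψ (ll x) = 1 := by
    intro x
    rw [half hp x, ll_add, map_mul, unit_sq]
  have key : ∀ B : SL(2, ZMod p), B.1 1 0 ≠ 0 → ψ B = 1 := by
    intro B hc
    have hB : B = uu ((B.1 0 0 - 1) / B.1 1 0) * ll (B.1 1 0) * uu ((B.1 1 1 - 1) / B.1 1 0) := by
      have hdet := det_rel B
      apply Subtype.ext
      ext i j
      fin_cases i <;> fin_cases j <;> simp [uu, ll, mk00, mk01, mk10, mk11, mul00, mul01, mul10, mul11] <;> field_simp <;> first | ring1 | linear_combination hdet | linear_combination -hdet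
    rw [hB, map_mul, map_mul, hu, hu, hl]; simp
  by_cases hc : A.1 1 0 = 0
  · have hdet := det_rel A
    have ha : A.1 0 0 ≠ 0 := by
      intro h
      rw [h, hc] at hdet
      simp at hdet
    have h1 : ψ (ll 1 * A) = 1 := by
      apply key
      simp [ll, mk00, mk01, mk10, mk11, mul00, mul01, mul10, mul11, hc, ha]
    rw [map_mul, hl, one_mul] at h1
    exact h1
  · exact key A hc

theorem tr_half (hp : p ≠ 2) (v : Fin 2 → ZMod p) :
    tr₃ v = tr₃ ((2⁻¹ : ZMod p) • v) * tr₃ ((2⁻¹ : ZMod p) • v) := by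
  rw [← tr₃_add]
  congr 1
  ext i
  simp only [Pi.add_apply, Pi.smul_apply, smul_eq_mul]
  exact half hp (v i)

theorem mem_tr (v : Fin 2 → ZMod p) : tr₃ v ∈ Cfsg.qd p := by
  apply mem_qd_of_lastRow
  have := lastRow_tr_bl v (1 : SL(2, ZMod p))
  simpa using this

theorem mem_bl (A : SL(2, ZMod p)) : bl₃ A ∈ Cfsg.qd p := by
  apply mem_qd_of_lastRow
  have := lastRow_tr_bl (0 : Fin 2 → ZMod p) A
  have h0 : tr₃ (0 : Fin 2 → ZMod p) = 1 := by
    have := tr₃_add (0 : Fin 2 → ZMod p) 0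
    rw [add_zero] at this
    exact (mul_eq_left.mp this.symm)
  rwa [h0, one_mul] at this

/-- Any homomorphism from `Qd(p)` to `±1` is trivial for odd `p`. -/
theorem qd_hom_trivial (hp : p ≠ 2) (φ : Cfsg.qd p →* ℤˣ) (M : Cfsg.qd p) : φ M = 1 := by
  obtain ⟨v, A, hM⟩ := eq_tr_bl (lastRow_of_mem_qd M.2)
  have h1 : M = ⟨tr₃ v, mem_tr v⟩ * ⟨bl₃ A, mem_bl A⟩ := Subtype.ext hM
  have h2 : φ ⟨tr₃ v, mem_tr v⟩ = 1 := by
    have h3 : (⟨tr₃ v, mem_tr v⟩ : Cfsg.qd p) =
        ⟨tr₃ ((2⁻¹ : ZMod p) • v), mem_tr _⟩ * ⟨tr₃ ((2⁻¹ : ZMod p) • v), mem_tr _⟩ :=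
      Subtype.ext (tr_half hp v)
    rw [h3, map_mul, unit_sq]
  let ψ : SL(2, ZMod p) →* ℤˣ := φ.comp ((bl₃ (p := p)).codRestrict (Cfsg.qd p) mem_bl)
  have h4 : φ ⟨bl₃ A, mem_bl A⟩ = 1 := sl2_hom_trivial hp ψ A
  rw [h1, map_mul, h2, h4, one_mul]

/-- The embedding of `Qd(p)` in the alternating group. -/
theorem exists_subgroup (hp : p ≠ 2) {n : ℕ} (hn : p ^ 2 ≤ n) :
    ∃ H : Subgroup (alternatingGroup (Fin n)), Nonempty (↥H ≃* ↥(Cfsg.qd p)) := by
  classical
  have hc : Fintype.card (Fin 2 → ZMod p) ≤ Fintype.card (Fin n) := by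
    simp [ZMod.card]
    exact hn
  obtain ⟨e⟩ := Function.Embedding.nonempty_of_card_le hc
  let g : Cfsg.qd p →* Equiv.Perm (Fin n) :=
    (Equiv.Perm.viaEmbeddingHom e).comp (affPerm (ZMod p))
  have hg : Function.Injective g :=
    (Equiv.Perm.viaEmbeddingHom_injective e).comp affPerm_injective
  have hmem : ∀ M, g M ∈ alternatingGroup (Fin n) := by
    intro M
    rw [Equiv.Perm.mem_alternatingGroup]
    exact qd_hom_trivial hp (Equiv.Perm.sign.comp g) M
  let g' : Cfsg.qd p →* alternatingGroup (Fin n) := g.codRestrict _ hmem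
  have hg' : Function.Injective g' := by
    intro a b hab
    apply hg
    exact congrArg Subtype.val hab
  exact ⟨g'.range, ⟨(MonoidHom.ofInjective hg').symm⟩⟩

theorem main (hp : p ≠ 2) (n : ℕ) : ((∃ H : Subgroup (alternatingGroup (Fin n)), Nonempty (↥H ≃* ↥(Cfsg.qd p))) ↔ p ^ 2 ≤ n) ∧ (n < p ^ 2 → ¬ Cfsg.Involves ↥(Cfsg.qd p) ↥(alternatingGroup (Fin n))) := by
  have hab : n < p ^ 2 → AllPAb p (alternatingGroup (Fin n)) := by
    intro h
    refine AllPAb.of_injective (alternatingGroup (Fin n)).subtype (Subgroup.subtype_injective _) ?_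
    apply allPAb_perm
    simpa using h
  refine ⟨⟨?_, exists_subgroup hp⟩, fun h => not_involves_of_allPAb (hab h)⟩
  rintro ⟨H, ⟨e⟩⟩
  by_contra hc
  have h1 := hab (not_le.mp hc)
  have h2 : AllPAb p H := AllPAb.of_injective H.subtype H.subtype_injective h1
  exact not_allPAb_qd p (AllPAb.of_surjective e.toMonoidHom e.surjective h2)

end Cfsg.Agent.Lib.Cl.QdAlt
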