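import Cfsg.Agent.Lib.Fusion.PowerIndexNormal
import Cfsg.Agent.Lib.Fusion.LiftUse
import Cfsg.Prelude.Def_FusionReduction
import Mathlib

/-! # Residual limits: uniqueness, and invariance under passing to `p`-power index -/

set_option autoImplicit false
set_option linter.unusedSectionVars false
set_option linter.unusedVariables false

namespace Cfsg.Agent.Lib.Cl.ResLim

open Cfsg Cfsg.FusionSystem Cfsg.Agent.Lib.Fusion

universe u
variable {Ω : Type u} [Group Ω]

theorem sub_eq_of_hom_eq {S S' : Subgroup Ω} {F : FusionSystem S} {F' : FusionSystem S'}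
    (h : ∀ P, F.Hom P = F'.Hom P) : S = S' := by
  apply le_antisymm
  · have := subtype_mem F (le_refl S)
    rw [h] at this
    exact hom_le F' this
  · have := subtype_mem F' (le_refl S')
    rw [← h] at this
    exact hom_le F this

theorem eq_cast_hom {p : ℕ} [Fact p.Prime] {T T' S : Subgroup Ω} [Finite T] (hT : IsPGroup p T) (h : T = T')
    {F : FusionSystem S} {E₁ : FusionSystem T} {E₂ : FusionSystem T'} (hE₁ : E₁.IsSaturated p) (hE₂ : E₂.IsSaturated p)
    (h₁ : ∀ P, P ≤ T → E₁.autGroup P ≤ F.autGroup P) (h₂ : ∀ P, P ≤ T' → E₂.autGroup P ≤ F.autGroup P)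
    (h₃ : ∀ P, P ≤ T → (pResidual p (F.autGroup P)).map (F.autGroup P).subtype ≤ E₁.autGroup P)
    (h₄ : ∀ P, P ≤ T' → (pResidual p (F.autGroup P)).map (F.autGroup P).subtype ≤ E₂.autGroup P) (P : Subgroup Ω) :
    E₁.Hom P = E₂.Hom P := by
  subst h
  exact hom_eq_of_residual hT hE₁ hE₂ h₁ h₂ h₃ h₄ P

theorem pprime_same {p : ℕ} {T T' : Subgroup Ω} (h : T = T') {D D' : FusionSystem T} {F F' : FusionSystem T'}
    (hs : ∀ P, D.Hom P = F.Hom P) (hD : D.IsPPrimeResidual p D') (hF : F.IsPPrimeResidual p F') :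
    ∀ P, D'.Hom P = F'.Hom P := by
  subst h
  obtain rfl : D = F := fusion_ext hs
  exact fun P => Set.Subset.antisymm (hD.2.2 F' hF.1 hF.2.1 P) (hF.2.2 D' hD.1 hD.2.1 P)

/-- If `hyp F = S` then the `p`-residual subsystem of `F` has the maps of `F`. -/
theorem residual_self {p : ℕ} [Fact p.Prime] {S : Subgroup Ω} [Finite S] (hS : IsPGroup p S) {F : FusionSystem S}
    (hF : F.IsSaturated p) (hh : F.hyperfocalSubgroup p = S) {D : FusionSystem (F.hyperfocalSubgroup p)}
    (hD : F.IsPResidual p D) : ∀ P, D.Hom P = F.Hom P := by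
  have hTS : F.hyperfocalSubgroup p ≤ S := hh.le
  have : Finite (F.hyperfocalSubgroup p) := finite_of_le hTS
  exact eq_cast_hom (hS.to_le hTS) hh (F := F) hD.1 hF (autGroup_le_of_subsystem hD.2.1 hTS) (fun P _ => le_rfl)
    hD.2.2.2 (fun P _ => Subgroup.map_subtype_le _)

theorem limit_of_stable {T' S' : Subgroup Ω} {E' : FusionSystem T'} {F' : FusionSystem S'} {p : ℕ}
    (h' : IsResidualLimitOf E' F' p) (hp : Fact p.Prime) {S : Subgroup Ω} [Finite S] (hS : IsPGroup p S)
    {F : FusionSystem S} (hF : F.IsSaturated p) (hh : F.hyperfocalSubgroup p = S) (hr : F.IsPPrimeResidual p F)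
    (hs : ∀ P, F.Hom P = F'.Hom P) : ∀ P, F.Hom P = E'.Hom P := by
  induction h' with
  | stable F' q hh' hr' => exact hs
  | step F' q D D' hD hD' hlim ih =>
    obtain rfl := sub_eq_of_hom_eq hs
    obtain rfl : F = F' := fusion_ext hs
    have hDF := residual_self hS hF hh hD
    have hD'F := pprime_same hh hDF hD' hr
    exact ih hp hS hF hh hr (fun P => (hD'F P).symm)

theorem limit_unique {T S : Subgroup Ω} {E : FusionSystem T} {F : FusionSystem S} {p : ℕ}
    (h : IsResidualLimitOf E F p) (hp : Fact p.Prime) (hfin : Finite S) (hS : IsPGroup p S) (hF : F.IsSaturated p)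
    {T' S' : Subgroup Ω} {E' : FusionSystem T'} {F' : FusionSystem S'} (hs : ∀ P, F.Hom P = F'.Hom P)
    (h' : IsResidualLimitOf E' F' p) : ∀ P, E.Hom P = E'.Hom P := by
  induction h generalizing T' S' with
  | stable F q hh hr => exact limit_of_stable h' hp hS hF hh hr hs
  | step F q D D' hD hD' hlim ih =>
    obtain rfl := sub_eq_of_hom_eq hs
    obtain rfl : F = F' := fusion_ext hs
    have hTS := hyperfocal_le (F := F) (p := q) hS
    have hTfin : Finite (F.hyperfocalSubgroup q) := finite_of_le hTS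
    have hTp : IsPGroup q (F.hyperfocalSubgroup q) := hS.to_le hTS
    cases h' with
    | stable _ _ hh' hr' =>
      have hDF := residual_self hS hF hh' hD
      have hD'F := pprime_same hh' hDF hD' hr'
      exact ih hp hTfin hTp hD'.1 hD'F (IsResidualLimitOf.stable F q hh' hr')
    | step _ _ D₂ D₂' hD₂ hD₂' hlim₂ =>
      obtain rfl : D = D₂ := fusion_ext (hom_eq_of_residual hTp hD.1 hD₂.1 (autGroup_le_of_subsystem hD.2.1 hTS)
        (autGroup_le_of_subsystem hD₂.2.1 hTS) hD.2.2.2 hD₂.2.2.2)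
      exact ih hp hTfin hTp hD'.1 (pprime_same rfl (fun _ => rfl) hD' hD₂') hlim₂

section Main

variable {p : ℕ} [Fact p.Prime] {S T : Subgroup Ω} {F : FusionSystem S} {E : FusionSystem T}

theorem residual_map_le (hTS : T ≤ S) (hsub : E.IsSubsystemOf F) {P : Subgroup Ω} (hP : P ≤ T) :
    (pResidual p (E.autGroup P)).map (E.autGroup P).subtype ≤ (pResidual p (F.autGroup P)).map (F.autGroup P).subtype := by
  refine Subgroup.map_le_iff_le_comap.2 ((Subgroup.closure_le _).2 ?_)
  intro γ hγ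
  have h1 := autGroup_le_of_subsystem hsub hTS P hP γ.2
  refine ⟨⟨γ, h1⟩, Subgroup.subset_closure ?_, rfl⟩
  show Nat.Coprime (orderOf (⟨γ, h1⟩ : F.autGroup P)) p
  rw [← Subgroup.orderOf_coe]
  have h3 : Nat.Coprime (orderOf γ) p := hγ
  rw [← Subgroup.orderOf_coe] at h3
  exact h3

theorem residual_map_ge (h : ∀ P, P ≤ T → (pResidual p (F.autGroup P)).map (F.autGroup P).subtype ≤ E.autGroup P)
    {P : Subgroup Ω} (hP : P ≤ T) :
    (pResidual p (F.autGroup P)).map (F.autGroup P).subtype ≤ (pResidual p (E.autGroup P)).map (E.autGroup P).subtype := by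
  refine Subgroup.map_le_iff_le_comap.2 ((Subgroup.closure_le _).2 ?_)
  intro γ hγ
  have h1 : (γ : MulAut P) ∈ E.autGroup P := h P hP ⟨γ, Subgroup.subset_closure hγ, rfl⟩
  refine ⟨⟨γ, h1⟩, Subgroup.subset_closure ?_, rfl⟩
  show Nat.Coprime (orderOf (⟨γ, h1⟩ : E.autGroup P)) p
  rw [← Subgroup.orderOf_coe]
  have h3 : Nat.Coprime (orderOf γ) p := hγ
  rw [← Subgroup.orderOf_coe] at h3
  exact h3

theorem hyp_le [Finite S] (hTS : T ≤ S) (hsub : E.IsSubsystemOf F) : E.hyperfocalSubgroup p ≤ F.hyperfocalSubgroup p := by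
  refine (Subgroup.closure_le _).2 ?_
  rintro _ ⟨P, α, x, hP, hα, rfl⟩
  obtain ⟨β, hβ, e⟩ := residual_map_le hTS hsub hP ⟨α, hα, rfl⟩
  have := mem_hyperfocal (F := F) (hP.trans hTS) β hβ x
  have e' : (β : MulAut P) = (α : MulAut P) := e
  rwa [e'] at this

theorem hyp_ge [Finite S] (hS : IsPGroup p S) (hsc : F.StronglyClosed T) (hH : F.hyperfocalSubgroup p ≤ T)
    (h : ∀ P, P ≤ T → (pResidual p (F.autGroup P)).map (F.autGroup P).subtype ≤ E.autGroup P) :
    F.hyperfocalSubgroup p ≤ E.hyperfocalSubgroup p := by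
  have hTS := hsc.1
  have hTfin : Finite T := finite_of_le hTS
  have hres : ∀ P, P ≤ T → ∀ β ∈ F.autGroup P, Nat.Coprime (orderOf β) p → β ∈ E.autGroup P := by
    intro P hP β hβ hco
    refine h P hP ⟨⟨β, hβ⟩, Subgroup.subset_closure ?_, rfl⟩
    show Nat.Coprime (orderOf (⟨β, hβ⟩ : F.autGroup P)) p
    rw [← Subgroup.orderOf_coe]
    exact hco
  refine hyperfocal_le_of hS fun R hR β hβ hco y => ?_
  set K := E.hyperfocalSubgroup p with hK
  have hKT : K ≤ T := hyperfocal_le (hS.to_le hTS)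
  have hβ' : (⟨β, hβ⟩ : F.autGroup R) ∈ pResidual p (F.autGroup R) := by
    refine Subgroup.subset_closure ?_
    show Nat.Coprime (orderOf (⟨β, hβ⟩ : F.autGroup R)) p
    rw [← Subgroup.orderOf_coe]
    exact hco
  obtain ⟨b, hb, hbv⟩ := residual_restrict hsc hres hR ⟨β, hβ⟩ hβ'
  have hbv' : ∀ x : (R ⊓ T : Subgroup Ω), ((b x : (R ⊓ T : Subgroup Ω)) : Ω) = (β ⟨x, x.2.1⟩ : R) := hbv
  have hpow : ∀ (n : ℕ) (x : (R ⊓ T : Subgroup Ω)), (((b ^ n) x : (R ⊓ T : Subgroup Ω)) : Ω) = ((β ^ n) ⟨x, x.2.1⟩ : R) := by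
    intro n
    induction n with
    | zero => intro x; rfl
    | succ n ih =>
      intro x
      rw [pow_succ, pow_succ, MulAut.mul_apply, MulAut.mul_apply, ih]
      congr 2
      exact Subtype.ext (hbv' x)
  have hb1 : b ^ (orderOf β) = 1 := by
    ext x
    rw [hpow, pow_orderOf_eq_one]
    rfl
  have hco' : Nat.Coprime (orderOf b) p := Nat.Coprime.coprime_dvd_left (orderOf_dvd_of_pow_eq_one hb1) hco
  have hbres : (⟨b, hb⟩ : E.autGroup (R ⊓ T)) ∈ pResidual p (E.autGroup (R ⊓ T)) := by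
    refine Subgroup.subset_closure ?_
    show Nat.Coprime (orderOf (⟨b, hb⟩ : E.autGroup (R ⊓ T))) p
    rw [← Subgroup.orderOf_coe]
    exact hco'
  have h1 : ∀ z : R, (z : Ω) ∈ T → (z : Ω)⁻¹ * ((β z : R) : Ω) ∈ K := by
    intro z hz
    have := mem_hyperfocal (F := E) (inf_le_right : R ⊓ T ≤ T) ⟨b, hb⟩ hbres ⟨z, z.2, hz⟩
    rw [show (((b : MulAut (R ⊓ T : Subgroup Ω)) ⟨z, z.2, hz⟩ : (R ⊓ T : Subgroup Ω)) : Ω) = (β z : R) from hbv' _] at this
    exact this
  have hmove : ∀ (i : ℕ) (z : R), (z : Ω) ∈ T → (z : Ω)⁻¹ * (((β ^ i) z : R) : Ω) ∈ K := by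
    intro i
    induction i with
    | zero => intro z _; simp [K.one_mem]
    | succ i ih =>
      intro z hz
      rw [pow_succ', MulAut.mul_apply]
      have h2 := ih z hz
      have hz₁ : (((β ^ i) z : R) : Ω) ∈ T := by
        have := T.mul_mem hz (hKT h2)
        simpa using this
      have h3 := h1 _ hz₁
      have := K.mul_mem h2 h3
      simpa [mul_assoc] using this
  set w : R := y⁻¹ * β y with hw
  have hwc : (w : Ω) = (y : Ω)⁻¹ * ((β y : R) : Ω) := by simp [hw]
  have hwT : (w : Ω) ∈ T := by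
    rw [hwc]
    exact hH (mem_hyperfocal (F := F) hR ⟨β, hβ⟩ hβ' y)
  have hS' : ∀ i : ℕ, ∃ k ∈ K, (y : Ω)⁻¹ * (((β ^ i) y : R) : Ω) = (w : Ω) ^ i * k := by
    intro i
    induction i with
    | zero => exact ⟨1, K.one_mem, by simp⟩
    | succ i ih =>
      obtain ⟨k, hk, e⟩ := ih
      have hβy : β y = y * w := by simp [hw]
      have hc := hmove i w hwT
      refine ⟨(w : Ω)⁻¹ * k * w * ((w : Ω)⁻¹ * (((β ^ i) w : R) : Ω)), K.mul_mem ?_ hc, ?_⟩
      · have := hyperfocal_conj_mem (F := E) (p := p) (T.inv_mem hwT) hk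
        simpa using this
      · rw [pow_succ, MulAut.mul_apply, hβy, map_mul, Subgroup.coe_mul, ← mul_assoc, e, pow_succ]
        group
  obtain ⟨k, hk, e⟩ := hS' (orderOf β)
  rw [pow_orderOf_eq_one] at e
  have hwn : (w : Ω) ^ (orderOf β) ∈ K := by
    have e1 : (y : Ω)⁻¹ * ((1 : MulAut R) y : R) = 1 := by simp
    rw [e1] at e
    have : (w : Ω) ^ (orderOf β) = k⁻¹ := eq_inv_of_mul_eq_one_left e.symm
    rw [this]
    exact K.inv_mem hk
  obtain ⟨t, ht⟩ := hS ⟨w, hR w.2⟩
  have ht' : (w : Ω) ^ (p ^ t) = 1 := by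
    have := congrArg Subtype.val ht
    simpa using this
  have hco2 : Nat.Coprime (orderOf β) (orderOf (w : Ω)) :=
    Nat.Coprime.coprime_dvd_right (orderOf_dvd_of_pow_eq_one ht') (Nat.Coprime.pow_right t hco)
  obtain ⟨m, hm⟩ := exists_pow_eq_self_of_coprime hco2
  rw [← hwc, ← hm]
  exact K.pow_mem hwn m

/-- Main step: residual limits agree under passing to a normal subsystem of `p`-power index. -/
theorem limit_eq [Finite S] (hS : IsPGroup p S) (hF : F.IsSaturated p) (hE : E.IsNormalIn F p)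
    (hidx : E.HasPPowerIndexIn F p) {U V : Subgroup Ω} {Finf : FusionSystem U} (hFinf : IsResidualLimitOf Finf F p)
    {Einf : FusionSystem V} (hEinf : IsResidualLimitOf Einf E p) : ∀ P, Finf.Hom P = Einf.Hom P := by
  have hsc : F.StronglyClosed T := hE.1.2.2.2.1
  have hTS := hsc.1
  have hEs : E.IsSaturated p := hE.1.1
  have hsub := hidx.1
  have hH := hidx.2.1
  have hres := hidx.2.2
  have hTfin : Finite T := finite_of_le hTS
  have hHK : F.hyperfocalSubgroup p = E.hyperfocalSubgroup p :=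
    le_antisymm (hyp_ge hS hsc hH hres) (hyp_le hTS hsub)
  have hFT := hyperfocal_le (F := F) (p := p) hS
  have hET := hyperfocal_le (F := E) (p := p) (hS.to_le hTS)
  cases hFinf with
  | stable _ _ hh hr =>
    have hTeq : T = S := le_antisymm hTS (hh ▸ hH)
    have hs : ∀ P, F.Hom P = E.Hom P := fun P =>
      (eq_cast_hom (hS.to_le hTS) hTeq (F := F) hEs hF (autGroup_le_of_subsystem hsub hTS) (fun P _ => le_rfl) hres
        (fun P _ => Subgroup.map_subtype_le _) P).symm
    exact limit_unique (IsResidualLimitOf.stable F p hh hr) inferInstance inferInstance hS hF hs hEinf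
  | step _ _ D D' hD hD' hlim =>
    have hDfin : Finite (F.hyperfocalSubgroup p) := finite_of_le hFT
    have hDp : IsPGroup p (F.hyperfocalSubgroup p) := hS.to_le hFT
    cases hEinf with
    | stable _ _ hh hr =>
      have hHT : F.hyperfocalSubgroup p = T := hHK.trans hh
      have hDE : ∀ P, D.Hom P = E.Hom P :=
        eq_cast_hom hDp hHT (F := F) hD.1 hEs (autGroup_le_of_subsystem hD.2.1 hFT) (autGroup_le_of_subsystem hsub hTS)
          hD.2.2.2 hres
      have hD'E := pprime_same hHT hDE hD' hr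
      exact limit_unique hlim inferInstance hDfin hDp hD'.1 hD'E (IsResidualLimitOf.stable E p hh hr)
    | step _ _ D₂ D₂' hD₂ hD₂' hlim₂ =>
      have hDD₂ : ∀ P, D.Hom P = D₂.Hom P :=
        eq_cast_hom hDp hHK (F := F) hD.1 hD₂.1 (autGroup_le_of_subsystem hD.2.1 hFT)
          (fun P hP => (autGroup_le_of_subsystem hD₂.2.1 hET P hP).trans (autGroup_le_of_subsystem hsub hTS P (hP.trans hET)))
          hD.2.2.2
          (fun P hP => (residual_map_ge hres (hP.trans hET)).trans (hD₂.2.2.2 P hP))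
      have hD'D₂' := pprime_same hHK hDD₂ hD' hD₂'
      exact limit_unique hlim inferInstance hDfin hDp hD'.1 hD'D₂' hlim₂

end Main

end Cfsg.Agent.Lib.Cl.ResLim
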