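import Mathlib
import Cfsg.Agent.Lib.Classical.Dick.Ident
import Cfsg.Agent.Lib.OddLocal.TypeP
import Cfsg.Agent.Lib.ClassSizes.Basic

/-!
# Restricted `p`-by-cyclic subgroups, `p` odd
-/

set_option autoImplicit false

namespace Cfsg.Agent.Lib.Cl.RestrCyc

open Subgroup

section Dih

open DihedralGroup

variable {m : ℕ}

theorem dih_rot {k : ℕ} (hk : Odd k) (z : DihedralGroup m) (hz : z ^ k = 1) : ∃ i, z = r i := by
  cases z with
  | r i => exact ⟨i, rfl⟩
  | sr i =>
    exfalso
    have h1 : orderOf (sr i : DihedralGroup m) ∣ k := orderOf_dvd_of_pow_eq_one hz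
    rw [orderOf_sr] at h1
    rcases hk with ⟨t, rfl⟩
    omega

theorem dih_refl (v : DihedralGroup m) (i : ZMod m) (h : v * r i ≠ r i * v) : ∃ j, v = sr j := by
  cases v with
  | r j =>
    exfalso
    apply h
    simp [add_comm]
  | sr j => exact ⟨j, rfl⟩

theorem dih_invert (j i : ZMod m) : sr j * r i * (sr j)⁻¹ = (r i : DihedralGroup m)⁻¹ := by
  have h1 : (sr j : DihedralGroup m)⁻¹ = sr j := by
    rw [inv_eq_iff_mul_eq_one]
    simp
  rw [h1]
  simp

end Dih

section

variable {H : Type*} [Group H] {p : ℕ} [Fact p.Prime]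

/-- Consequences of being dihedral of odd order-part. -/
theorem dihedral_action (hp : p ≠ 2) {n : ℕ} (e : H ≃* DihedralGroup (p ^ n)) {Q : Set H} (hQ : ∀ u ∈ Q, ∃ k : ℕ, u ^ (p ^ k) = 1)
    {x : H} (hx : ∃ u ∈ Q, x * u ≠ u * x) : orderOf x = 2 ∧ ∀ u ∈ Q, x * u * x⁻¹ = u⁻¹ := by
  have hodd : ∀ k : ℕ, Odd (p ^ k) := fun k => ((Fact.out : p.Prime).odd_of_ne_two hp).pow
  have hrot : ∀ u ∈ Q, ∃ i, e u = DihedralGroup.r i := by
    intro u hu
    obtain ⟨k, hk⟩ := hQ u hu
    apply dih_rot (hodd k)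
    rw [← map_pow, hk, map_one]
  obtain ⟨u₀, hu₀, hne⟩ := hx
  obtain ⟨i₀, hi₀⟩ := hrot u₀ hu₀
  obtain ⟨j, hj⟩ : ∃ j, e x = DihedralGroup.sr j := by
    apply dih_refl (e x) i₀
    rw [← hi₀, ← map_mul, ← map_mul]
    exact fun h => hne (e.injective h)
  constructor
  · rw [← MulEquiv.orderOf_eq e, hj, DihedralGroup.orderOf_sr]
  · intro u hu
    obtain ⟨i, hi⟩ := hrot u hu
    apply e.injective
    rw [map_mul, map_mul, map_inv, map_inv, hj, hi, dih_invert]

/-- A `p`-group extended by a generator has restricted shape. -/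
theorem cond_of_normalizing {G : Type*} [Group G] [Finite G] {Q : Subgroup G} (hQ : IsPGroup p Q) {x : G}
    (hx : x ∈ normalizer (Q : Set G)) :
    (∀ S : Sylow p ↥(Q ⊔ zpowers x), (S : Subgroup ↥(Q ⊔ zpowers x)).Normal) ∧
    (∀ (S : Sylow p ↥(Q ⊔ zpowers x)) [(S : Subgroup ↥(Q ⊔ zpowers x)).Normal],
      IsCyclic (↥(Q ⊔ zpowers x) ⧸ (S : Subgroup ↥(Q ⊔ zpowers x)))) := by
  classical
  set H := Q ⊔ zpowers x with hH
  have hHN : H ≤ normalizer (Q : Set G) := sup_le le_normalizer (zpowers_le.mpr hx)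
  let Q' : Subgroup H := Q.subgroupOf H
  haveI hQ'n : Q'.Normal := normal_subgroupOf_of_le_normalizer hHN
  have hQ'p : IsPGroup p Q' := by
    intro u
    obtain ⟨k, hk⟩ := hQ ⟨(u : H), u.2⟩
    refine ⟨k, Subtype.ext (Subtype.ext ?_)⟩
    have h0 := congrArg Subtype.val hk
    simpa using h0
  let x' : H := ⟨x, (le_sup_right : zpowers x ≤ H) (mem_zpowers x)⟩
  let π := QuotientGroup.mk' Q'
  have hcyc : IsCyclic (H ⧸ Q') := by
    rw [isCyclic_iff_exists_zpowers_eq_top]
    refine ⟨π x', ?_⟩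
    rw [eq_top_iff]
    rintro q -
    obtain ⟨h, rfl⟩ := QuotientGroup.mk_surjective q
    let K : Subgroup H := comap π (zpowers (π x'))
    have hQK : Q ≤ K.map H.subtype := by
      intro u hu
      have huH : u ∈ H := (le_sup_left : Q ≤ H) hu
      refine ⟨⟨u, huH⟩, ?_, rfl⟩
      show π ⟨u, huH⟩ ∈ zpowers (π x')
      have : π ⟨u, huH⟩ = 1 := (QuotientGroup.eq_one_iff _).mpr hu
      rw [this]
      exact one_mem _
    have hxK : x ∈ K.map H.subtype := ⟨x', mem_zpowers (π x'), rfl⟩
    have hle : H ≤ K.map H.subtype := sup_le hQK (zpowers_le.mpr hxK)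
    obtain ⟨h', hh', hh'e⟩ := hle h.2
    have : h' = h := Subtype.ext hh'e
    rw [← this]
    exact hh'
  letI : CommGroup (H ⧸ Q') := IsCyclic.commGroup
  have hle : ∀ S : Sylow p H, Q' ≤ S := fun S => hQ'p.le_sylow_of_normal S
  constructor
  · intro S
    have h1 : comap π (map π (S : Subgroup H)) = S := by
      apply comap_map_eq_self
      rw [QuotientGroup.ker_mk']
      exact hle S
    rw [← h1]
    have h2 : (map π (S : Subgroup H)).Normal := inferInstance
    exact h2.comap π
  · intro S _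
    exact isCyclic_of_surjective (QuotientGroup.map Q' (S : Subgroup H) (MonoidHom.id H) (by
      intro u hu
      exact hle S hu)) (by
        intro q
        obtain ⟨h, rfl⟩ := QuotientGroup.mk_surjective q
        exact ⟨(h : H ⧸ Q'), rfl⟩)

/-- A generator of prime-to-`p` order. -/
theorem exists_p'_generator [Finite H] (S : Subgroup H) [S.Normal] (hidx : ¬ p ∣ S.index)
    (hc : IsCyclic (H ⧸ S)) : ∃ y : H, ¬ p ∣ orderOf y ∧ ∀ h : H, ∃ s ∈ S, ∃ i : ℤ, h = s * y ^ i := by
  classical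
  have hpp : p.Prime := Fact.out
  obtain ⟨c, hc'⟩ := hc.exists_generator
  obtain ⟨y₁, rfl⟩ := QuotientGroup.mk_surjective c
  obtain ⟨a, m, hm, ho⟩ := Nat.exists_eq_pow_mul_and_not_dvd (orderOf_pos y₁).ne' p hpp.ne_one
  have hm0 : p ^ a ≠ 0 := pow_ne_zero _ hpp.ne_zero
  refine ⟨y₁ ^ (p ^ a), ?_, ?_⟩
  · rw [orderOf_pow_of_dvd hm0 ⟨m, ho⟩, ho, Nat.mul_div_cancel_left _ (Nat.pos_of_ne_zero hm0)]
    exact hm
  · intro h
    have hcop : (p ^ a).Coprime (orderOf ((y₁ : H) : H ⧸ S)) := by
      apply Nat.Coprime.pow_left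
      rw [Nat.Prime.coprime_iff_not_dvd hpp]
      intro hd
      exact hidx (hd.trans (orderOf_dvd_natCard _))
    obtain ⟨k, hk⟩ := exists_pow_eq_self_of_coprime hcop
    obtain ⟨i, hi⟩ := hc' (h : H ⧸ S)
    have hpi : ((h : H) : H ⧸ S) = (((y₁ ^ (p ^ a) : H) : H ⧸ S)) ^ ((k : ℤ) * i) := by
      have h1 : (((y₁ ^ (p ^ a) : H) : H ⧸ S)) = ((y₁ : H) : H ⧸ S) ^ (p ^ a) := rfl
      rw [h1, zpow_mul, zpow_natCast, hk]
      exact hi.symm
    refine ⟨h * ((y₁ ^ (p ^ a)) ^ ((k : ℤ) * i))⁻¹, ?_, (k : ℤ) * i, by group⟩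
    rw [← QuotientGroup.eq_one_iff]
    rw [QuotientGroup.mk_mul, QuotientGroup.mk_inv, QuotientGroup.mk_zpow, ← hpi, mul_inv_cancel]

/-- **Shape of a group `S ⟨y⟩`.** -/
theorem restr_shape [Finite H] (hp : p ≠ 2) {S : Subgroup H} [hSn : S.Normal] (hSp : IsPGroup p S)
    (hSc : IsCyclic S) {y : H} (hy : ¬ p ∣ orderOf y) (hgen : ∀ h : H, ∃ s ∈ S, ∃ i : ℤ, h = s * y ^ i)
    (halt : (∀ s ∈ S, y * s = s * y) ∨ (y ^ 2 = 1 ∧ ∀ s ∈ S, y * s * y⁻¹ = s⁻¹)) :
    IsCyclic H ∨ ∃ n : ℕ, Nonempty (H ≃* DihedralGroup (p ^ n)) := by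
  classical
  have hpp : p.Prime := Fact.out
  obtain ⟨k, hk⟩ := IsPGroup.iff_card.mp hSp
  have hScomm : ∀ a ∈ S, ∀ b ∈ S, a * b = b * a := by
    intro a ha b hb
    letI := hSc.commGroup
    exact congrArg Subtype.val (mul_comm (⟨a, ha⟩ : S) ⟨b, hb⟩)
  rcases halt with hcomm | ⟨hy2, hinv⟩
  · left
    let φ : S × zpowers y →* H := MonoidHom.noncommCoprod S.subtype (zpowers y).subtype (by
      rintro ⟨s, hs⟩ ⟨t, i, rfl⟩
      exact ((show Commute s y from (hcomm s hs).symm).zpow_right i))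
    haveI : IsCyclic (S × zpowers y) := by
      rw [Group.isCyclic_prod_iff]
      refine ⟨hSc, inferInstance, ?_⟩
      rw [hk, Nat.card_zpowers]
      exact Nat.Coprime.pow_left k ((Nat.Prime.coprime_iff_not_dvd hpp).mpr hy)
    refine isCyclic_of_surjective φ ?_
    intro h
    obtain ⟨s, hs, i, rfl⟩ := hgen h
    exact ⟨(⟨s, hs⟩, ⟨y ^ i, i, rfl⟩), rfl⟩
  · have hgen2 : ∀ h : H, h ∈ S ∨ ∃ s ∈ S, h = s * y := by
      intro h
      obtain ⟨s, hs, i, rfl⟩ := hgen h
      rcases Int.even_or_odd' i with ⟨t, rfl | rfl⟩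
      · left
        rw [zpow_mul]
        have : y ^ (2 : ℤ) = 1 := by exact_mod_cast hy2
        rw [this, one_zpow, mul_one]
        exact hs
      · right
        refine ⟨s, hs, ?_⟩
        rw [zpow_add, zpow_mul]
        have : y ^ (2 : ℤ) = 1 := by exact_mod_cast hy2
        rw [this, one_zpow, one_mul, zpow_one]
    by_cases hy1 : y = 1
    · left
      refine isCyclic_of_surjective S.subtype ?_
      intro h
      rcases hgen2 h with hh | ⟨s, hs, rfl⟩
      · exact ⟨⟨h, hh⟩, rfl⟩
      · rw [hy1, mul_one]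
        exact ⟨⟨s, hs⟩, rfl⟩
    · right
      have hyS : y ∉ S := by
        intro hyS
        have h1 : (⟨y, hyS⟩ : S) ≠ 1 := fun h0 => hy1 (congrArg Subtype.val h0)
        have h2 := hSp.dvd_orderOf h1
        rw [Subgroup.orderOf_mk] at h2
        exact hy h2
      have hyy : y * y = 1 := by rw [← sq]; exact hy2
      have hidx : S.index = 2 := by
        rw [Subgroup.index_eq_two_iff]
        refine ⟨y, fun b => ?_⟩
        rcases hgen2 b with hb | ⟨s, hs, rfl⟩
        · refine Or.inr ⟨hb, fun h0 => hyS ?_⟩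
          have h1 : y = b⁻¹ * (b * y) := by group
          rw [h1]
          exact S.mul_mem (S.inv_mem hb) h0
        · refine Or.inl ⟨?_, fun h0 => hyS ?_⟩
          · rw [mul_assoc, hyy, mul_one]
            exact hs
          · have h1 : y = s⁻¹ * (s * y) := by group
            rw [h1]
            exact S.mul_mem (S.inv_mem hs) h0
      have hdih := Cfsg.Agent.Lib.Classical.Dick.dihedral_of_index_two (G := H) S hidx (by
        intro a ha
        rcases hgen2 a with haS | ⟨s, hs, rfl⟩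
        · exact absurd haS ha
        · constructor
          · have h1 : y * s = s⁻¹ * y := by
              have := hinv s hs
              rw [← this]
              group
            calc s * y * (s * y) = s * (y * s) * y := by group
              _ = s * (s⁻¹ * y) * y := by rw [h1]
              _ = y * y := by group
              _ = 1 := hyy
          · intro x hx
            have h1 : s * y * x * (s * y)⁻¹ = s * (y * x * y⁻¹) * s⁻¹ := by group
            rw [h1, hinv x hx, hScomm s hs _ (S.inv_mem hx)]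
            group)
      rw [hk] at hdih
      exact ⟨k, hdih⟩

/-- The action of a `p'`-element normalizing a subgroup of the Sylow subgroup. -/
theorem action_alt {G : Type*} [Group G] [Finite G] (P : Sylow p G) (hPc : IsCyclic P)
    (hcase : normalizer ((P : Subgroup G) : Set G) = centralizer ((P : Subgroup G) : Set G) ∨
      (∀ Q : Subgroup G, Q ≤ P → Nat.card Q = p →
        IsMulCommutative ↥(centralizer (Q : Set G)) ∧
        ∀ x : G, x ∈ normalizer (Q : Set G) → x ∉ centralizer (Q : Set G) →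
          orderOf x = 2 ∧ ∀ c : G, c ∈ centralizer (Q : Set G) → x * c * x⁻¹ = c⁻¹))
    {S : Subgroup G} (hSP : S ≤ P) {y : G} (hy : ¬ p ∣ orderOf y) (hyN : ∀ s ∈ S, y * s * y⁻¹ ∈ S) :
    (∀ s ∈ S, y * s = s * y) ∨ (y ^ 2 = 1 ∧ ∀ s ∈ S, y * s * y⁻¹ = s⁻¹) := by
  classical
  have hpp : p.Prime := Fact.out
  have hPcomm : ∀ a ∈ (P : Subgroup G), ∀ b ∈ (P : Subgroup G), a * b = b * a := by
    intro a ha b hb
    letI := hPc.commGroup
    exact congrArg Subtype.val (mul_comm (⟨a, ha⟩ : (P : Subgroup G)) ⟨b, hb⟩)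
  rcases hcase with h | h
  · left
    have hP : normalizer ((P : Subgroup G) : Set G) ≤ centralizer ((P : Subgroup G) : Set G) := h.le
    intro s hs
    let f := MonoidHom.transferSylow P hP
    have hyK : y ∈ f.ker := by
      rw [MonoidHom.mem_ker]
      obtain ⟨k, hk⟩ := (IsPGroup.iff_orderOf.mp P.isPGroup') (f y)
      have h1 : orderOf (f y) ∣ orderOf y := orderOf_map_dvd f y
      rcases Nat.eq_zero_or_pos k with rfl | hkpos
      · rw [pow_zero] at hk
        exact orderOf_eq_one_iff.mp hk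
      · exfalso
        apply hy
        rw [hk] at h1
        exact (dvd_pow_self p hkpos.ne').trans h1
    have hc1 : y * s * y⁻¹ * s⁻¹ ∈ f.ker := by
      have h2 : s * y⁻¹ * s⁻¹ ∈ f.ker := (MonoidHom.normal_ker f).conj_mem _ (f.ker.inv_mem hyK) s
      have h3 : y * s * y⁻¹ * s⁻¹ = y * (s * y⁻¹ * s⁻¹) := by group
      rw [h3]
      exact f.ker.mul_mem hyK h2
    have hc2 : y * s * y⁻¹ * s⁻¹ ∈ (P : Subgroup G) :=
      hSP (S.mul_mem (hyN s hs) (S.inv_mem hs))
    have hdis := MonoidHom.ker_transferSylow_disjoint P hP (P : Subgroup G) P.isPGroup'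
    have hc3 : y * s * y⁻¹ * s⁻¹ = 1 := Subgroup.disjoint_def.mp hdis hc1 hc2
    have h4 : y * s * y⁻¹ = s := mul_inv_eq_one.mp hc3
    calc y * s = (y * s * y⁻¹) * y := by group
      _ = s * y := by rw [h4]
  · by_cases hS1 : S = ⊥
    · left
      intro s hs
      rw [hS1, Subgroup.mem_bot] at hs
      rw [hs, mul_one, one_mul]
    · -- a subgroup of order `p`
      have hSp : IsPGroup p S := P.isPGroup'.to_le hSP
      obtain ⟨k, hk⟩ := IsPGroup.iff_card.mp hSp
      have hdvd : p ∣ Nat.card S := by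
        rw [hk]
        apply dvd_pow_self
        rintro rfl
        rw [pow_zero] at hk
        exact hS1 (Subgroup.eq_bot_of_card_eq S hk)
      obtain ⟨w, hw⟩ := exists_prime_orderOf_dvd_card' p hdvd
      rw [Subgroup.orderOf_coe w |>.symm] at hw
      let Q : Subgroup G := zpowers (w : G)
      have hQS : Q ≤ S := zpowers_le.mpr w.2
      have hQP : Q ≤ P := hQS.trans hSP
      have hQc : Nat.card Q = p := by
        rw [Nat.card_zpowers, hw]
      obtain ⟨hab, hact⟩ := h Q hQP hQc
      have hyNQ : y ∈ normalizer (Q : Set G) := by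
        let Q1 : Subgroup G := Q.map (MulAut.conj y).toMonoidHom
        have hQ1 : Q1 ≤ P := by
          rintro _ ⟨u, hu, rfl⟩
          exact hSP (hyN u (hQS hu))
        have hQ1c : Nat.card Q1 = Nat.card Q :=
          Nat.card_congr (Q.equivMapOfInjective _ (MulAut.conj y).injective).symm.toEquiv
        have hle1 := Cfsg.Agent.Lib.OddLocal.eq_of_card_eq_of_isCyclic hPc hQ1 hQP hQ1c
        have hle2 := Cfsg.Agent.Lib.OddLocal.eq_of_card_eq_of_isCyclic hPc hQP hQ1 hQ1c.symm
        rw [mem_normalizer_iff]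
        intro u
        constructor
        · intro hu
          exact hle1 ⟨u, hu, rfl⟩
        · intro hu
          obtain ⟨v, hv, hvu⟩ := hle2 hu
          have : v = u := by
            have h5 : y * v * y⁻¹ = y * u * y⁻¹ := hvu
            simpa using h5
          rwa [← this]
      by_cases hyC : y ∈ centralizer (Q : Set G)
      · left
        intro s hs
        have hsC : s ∈ centralizer (Q : Set G) := by
          rw [mem_centralizer_iff]
          intro q hq
          exact hPcomm q (hQP hq) s (hSP hs)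
        exact congrArg Subtype.val (hab.is_comm.comm ⟨y, hyC⟩ ⟨s, hsC⟩)
      · right
        obtain ⟨h2, h3⟩ := hact y hyNQ hyC
        refine ⟨?_, ?_⟩
        · rw [← h2]
          exact pow_orderOf_eq_one y
        · intro s hs
          apply h3
          rw [mem_centralizer_iff]
          intro q hq
          exact hPcomm q (hQP hq) s (hSP hs)

/-- **Restricted `p`-by-cyclic subgroups.** -/
theorem main {G : Type*} [Group G] [Finite G] (hp : p ≠ 2) (P : Sylow p G) :
    (∀ H : Subgroup G, (∀ S : Sylow p ↥H, (S : Subgroup ↥H).Normal) →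
        (∀ (S : Sylow p ↥H) [(S : Subgroup ↥H).Normal], IsCyclic (↥H ⧸ (S : Subgroup ↥H))) →
        IsCyclic H ∨ (∃ n : ℕ, Nonempty (H ≃* DihedralGroup (p ^ n)))) ↔
    (IsCyclic P ∧
      (Subgroup.normalizer ((P : Subgroup G) : Set G) = Subgroup.centralizer ((P : Subgroup G) : Set G) ∨
       ((Subgroup.centralizer ((P : Subgroup G) : Set G)).relIndex (Subgroup.normalizer ((P : Subgroup G) : Set G)) = 2 ∧
        ∀ Q : Subgroup G, Q ≤ P → Nat.card Q = p →
          IsMulCommutative ↥(Subgroup.centralizer (Q : Set G)) ∧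
          ∀ x : G, x ∈ Subgroup.normalizer (Q : Set G) → x ∉ Subgroup.centralizer (Q : Set G) →
            orderOf x = 2 ∧ ∀ c : G, c ∈ Subgroup.centralizer (Q : Set G) → x * c * x⁻¹ = c⁻¹))) := by
  classical
  have hpp : p.Prime := Fact.out
  constructor
  · intro hL
    have key : ∀ (Q : Subgroup G), IsPGroup p Q → ∀ x ∈ normalizer (Q : Set G),
        IsCyclic ↥(Q ⊔ zpowers x) ∨ ∃ n : ℕ, Nonempty (↥(Q ⊔ zpowers x) ≃* DihedralGroup (p ^ n)) := by
      intro Q hQ x hx
      obtain ⟨h1, h2⟩ := cond_of_normalizing hQ hx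
      exact hL _ h1 (fun S _ => h2 S)
    have hact : ∀ (Q : Subgroup G), IsPGroup p Q → ∀ x ∈ normalizer (Q : Set G), x ∉ centralizer (Q : Set G) →
        orderOf x = 2 ∧ ∀ u ∈ Q, x * u * x⁻¹ = u⁻¹ := by
      intro Q hQ x hx hxC
      have hQH : Q ≤ Q ⊔ zpowers x := le_sup_left
      have hxH : x ∈ Q ⊔ zpowers x := (le_sup_right : zpowers x ≤ Q ⊔ zpowers x) (mem_zpowers x)
      rcases key Q hQ x hx with hc | ⟨n, ⟨e⟩⟩
      · exfalso
        apply hxC
        rw [mem_centralizer_iff]
        intro u hu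
        letI := hc.commGroup
        exact congrArg Subtype.val (mul_comm (⟨u, hQH hu⟩ : ↥(Q ⊔ zpowers x)) ⟨x, hxH⟩)
      · let x' : ↥(Q ⊔ zpowers x) := ⟨x, hxH⟩
        let Q'' : Set ↥(Q ⊔ zpowers x) := {u | (u : G) ∈ Q}
        have hQ'' : ∀ u ∈ Q'', ∃ k : ℕ, u ^ (p ^ k) = 1 := by
          intro u hu
          obtain ⟨k, hk⟩ := hQ ⟨u, hu⟩
          refine ⟨k, Subtype.ext ?_⟩
          have h0 := congrArg Subtype.val hk
          simpa using h0
        have hx'' : ∃ u ∈ Q'', x' * u ≠ u * x' := by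
          rw [mem_centralizer_iff] at hxC
          push_neg at hxC
          obtain ⟨u, hu, huX⟩ := hxC
          exact ⟨⟨u, hQH hu⟩, hu, fun h0 => huX (congrArg Subtype.val h0).symm⟩
        obtain ⟨h3, h4⟩ := dihedral_action hp e hQ'' hx''
        refine ⟨?_, ?_⟩
        · rw [← h3]
          exact (Subgroup.orderOf_mk x hxH).symm
        · intro u hu
          exact congrArg Subtype.val (h4 ⟨u, hQH hu⟩ hu)
    have hPc : IsCyclic P := by
      have h1 := key P P.isPGroup' 1 (one_mem _)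
      have h2 : (P : Subgroup G) ⊔ zpowers (1 : G) = P := by simp
      rw [h2] at h1
      rcases h1 with h | ⟨n, ⟨e⟩⟩
      · exact h
      · exfalso
        have h3 := Nat.card_congr e.toEquiv
        rw [DihedralGroup.nat_card] at h3
        obtain ⟨k, hk⟩ := IsPGroup.iff_card.mp P.isPGroup'
        rw [hk] at h3
        have h4 : 2 ∣ p ^ k := ⟨p ^ n, h3⟩
        have h5 := Nat.Prime.dvd_of_dvd_pow Nat.prime_two h4
        exact hp ((Nat.prime_dvd_prime_iff_eq Nat.prime_two hpp).mp h5).symm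
    refine ⟨hPc, ?_⟩
    by_cases hNC : normalizer ((P : Subgroup G) : Set G) = centralizer ((P : Subgroup G) : Set G)
    · left
      exact hNC
    right
    have hCN : centralizer ((P : Subgroup G) : Set G) ≤ normalizer ((P : Subgroup G) : Set G) :=
      centralizer_le_normalizer _
    obtain ⟨x₀, hx₀N, hx₀C⟩ : ∃ x₀, x₀ ∈ normalizer ((P : Subgroup G) : Set G) ∧
        x₀ ∉ centralizer ((P : Subgroup G) : Set G) := by
      by_contra hcon
      push_neg at hcon
      exact hNC (le_antisymm hcon hCN)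
    obtain ⟨hx₀2, hx₀inv⟩ := hact P P.isPGroup' x₀ hx₀N hx₀C
    have hx₀x₀ : x₀ * x₀ = 1 := by
      rw [← sq, ← hx₀2]
      exact pow_orderOf_eq_one x₀
    have hx₀i : x₀⁻¹ = x₀ := inv_eq_of_mul_eq_one_left hx₀x₀
    constructor
    · rw [Subgroup.relIndex, Subgroup.index_eq_two_iff]
      refine ⟨⟨x₀, hx₀N⟩, ?_⟩
      rintro ⟨b, hb⟩
      by_cases hbC : b ∈ centralizer ((P : Subgroup G) : Set G)
      · refine Or.inr ⟨hbC, fun h0 => hx₀C ?_⟩
        have h1 : x₀ = b⁻¹ * (b * x₀) := by group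
        rw [h1]
        exact mul_mem (inv_mem hbC) h0
      · refine Or.inl ⟨?_, hbC⟩
        show b * x₀ ∈ centralizer ((P : Subgroup G) : Set G)
        obtain ⟨-, hb2⟩ := hact P P.isPGroup' b hb hbC
        rw [mem_centralizer_iff]
        intro u hu
        have h1 : b * u⁻¹ * b⁻¹ = u := by
          rw [hb2 u⁻¹ (inv_mem hu), inv_inv]
        calc u * (b * x₀) = (b * u⁻¹ * b⁻¹) * (b * x₀) := by rw [h1]
          _ = b * (x₀ * u * x₀⁻¹)⁻¹⁻¹ * x₀ * 1 := by
              rw [inv_inv, hx₀inv u hu]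
              group
          _ = b * x₀ * u := by
              group
    · intro Q hQP hQc
      have hQp : IsPGroup p Q := P.isPGroup'.to_le hQP
      have hCQN : centralizer (Q : Set G) ≤ normalizer (Q : Set G) := centralizer_le_normalizer _
      have hx₀NQ : x₀ ∈ normalizer (Q : Set G) := by
        rw [mem_normalizer_iff]
        intro u
        constructor
        · intro hu
          rw [hx₀inv u (hQP hu)]
          exact inv_mem hu
        · intro hu
          have h1 : x₀ * u * x₀⁻¹ ∈ (P : Subgroup G) := hQP hu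
          have h2 : u = (x₀ * (x₀ * u * x₀⁻¹) * x₀⁻¹) := by
            have h3 : x₀ * (x₀ * u * x₀⁻¹) * x₀⁻¹ = (x₀ * x₀) * u * (x₀ * x₀)⁻¹ := by group
            rw [h3, hx₀x₀]
            group
          rw [h2, hx₀inv _ h1]
          exact inv_mem hu
      have hx₀CQ : x₀ ∉ centralizer (Q : Set G) := by
        intro hC
        haveI : Nontrivial Q := Finite.one_lt_card_iff_nontrivial.mp (by rw [hQc]; exact hpp.one_lt)
        obtain ⟨u, hu⟩ := exists_ne (1 : Q)
        have h1 := (mem_centralizer_iff.mp hC) u u.2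
        have h2 : x₀ * u * x₀⁻¹ = (u : G) := by
          rw [← h1]
          group
        rw [hx₀inv u (hQP u.2)] at h2
        have h3 : (u : G) ^ 2 = 1 := by
          rw [sq]
          nth_rw 1 [← h2]
          group
        have h4 : orderOf (u : G) ∣ 2 := orderOf_dvd_of_pow_eq_one h3
        have h5 : orderOf (u : G) ∣ p := by
          rw [Subgroup.orderOf_coe, ← hQc]
          exact orderOf_dvd_natCard u
        have h6 : Nat.Coprime 2 p := (Nat.coprime_primes Nat.prime_two hpp).mpr (Ne.symm hp)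
        have h7 : orderOf (u : G) = 1 := Nat.Coprime.eq_one_of_dvd (Nat.Coprime.coprime_dvd_left h4 h6) h5
        apply hu
        exact Subtype.ext (orderOf_eq_one_iff.mp h7)
      have hinvC : ∀ x : G, x ∈ normalizer (Q : Set G) → x ∉ centralizer (Q : Set G) →
          orderOf x = 2 ∧ ∀ c : G, c ∈ centralizer (Q : Set G) → x * c * x⁻¹ = c⁻¹ := by
        intro x hx hxC
        obtain ⟨h2, -⟩ := hact Q hQp x hx hxC
        refine ⟨h2, ?_⟩
        intro c hc
        have hxx : x * x = 1 := by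
          rw [← sq, ← h2]
          exact pow_orderOf_eq_one x
        have hxi : x⁻¹ = x := inv_eq_of_mul_eq_one_left hxx
        have h3 : x * c ∈ normalizer (Q : Set G) := mul_mem hx (hCQN hc)
        have h4 : x * c ∉ centralizer (Q : Set G) := by
          intro h0
          apply hxC
          have h1 : x = (x * c) * c⁻¹ := by group
          rw [h1]
          exact mul_mem h0 (inv_mem hc)
        obtain ⟨h5, -⟩ := hact Q hQp _ h3 h4
        have h6 : (x * c) * (x * c) = 1 := by
          rw [← sq, ← h5]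
          exact pow_orderOf_eq_one _
        rw [hxi, eq_inv_iff_mul_eq_one]
        calc x * c * x * c = (x * c) * (x * c) := by group
          _ = 1 := h6
      refine ⟨⟨⟨?_⟩⟩, hinvC⟩
      rintro ⟨c, hc⟩ ⟨d, hd⟩
      apply Subtype.ext
      show c * d = d * c
      have h1 := (hinvC x₀ hx₀NQ hx₀CQ).2
      have h2 := h1 (c * d) (mul_mem hc hd)
      have h3 : x₀ * (c * d) * x₀⁻¹ = (x₀ * c * x₀⁻¹) * (x₀ * d * x₀⁻¹) := by group
      rw [h3, h1 c hc, h1 d hd] at h2
      have h4 := congrArg (·⁻¹) h2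
      simp only [mul_inv_rev, inv_inv] at h4
      exact h4.symm
  · rintro ⟨hPc, hcase⟩ H hA hB
    have hcase' := hcase.imp id (fun h => h.2)
    obtain ⟨S₀⟩ : Nonempty (Sylow p H) := inferInstance
    haveI := hA S₀
    obtain ⟨y₀, hy₀, hgen⟩ := exists_p'_generator (S₀ : Subgroup H) S₀.not_dvd_index (hB S₀)
    have hSp : IsPGroup p ((S₀ : Subgroup H).map H.subtype) := S₀.isPGroup'.map _
    obtain ⟨P', hP'⟩ := hSp.exists_le_sylow
    obtain ⟨g, rfl⟩ := MulAction.exists_smul_eq G P P'
    have hconj : ∀ u ∈ (S₀ : Subgroup H), g⁻¹ * (u : G) * g ∈ (P : Subgroup G) := fun u hu =>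
      Cfsg.Agent.Lib.ClassSizes.mem_sylow_smul_iff.mp (hP' ⟨u, hu, rfl⟩)
    let c : G →* G := (MulAut.conj g⁻¹).toMonoidHom
    have hc : ∀ a, c a = g⁻¹ * a * g := by
      intro a
      simp [c]
    have hcinj : Function.Injective c := (MulAut.conj g⁻¹).injective
    let f : H →* G := c.comp H.subtype
    have hf : ∀ a : H, f a = g⁻¹ * (a : G) * g := fun a => hc a
    have hfinj : Function.Injective f := hcinj.comp Subtype.val_injective
    let T : Subgroup G := (S₀ : Subgroup H).map f
    have hTP : T ≤ (P : Subgroup G) := by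
      rintro _ ⟨u, hu, rfl⟩
      rw [hf]
      exact hconj u hu
    have hord : ¬ p ∣ orderOf (f y₀) := by
      rw [orderOf_injective f hfinj]
      exact hy₀
    have hyN : ∀ t ∈ T, f y₀ * t * (f y₀)⁻¹ ∈ T := by
      rintro _ ⟨u, hu, rfl⟩
      refine ⟨y₀ * u * y₀⁻¹, ?_, ?_⟩
      · exact (hA S₀).conj_mem u hu y₀
      · simp
    have hcyc : IsCyclic (S₀ : Subgroup H) := by
      haveI := hPc
      let φ : (S₀ : Subgroup H) →* (P : Subgroup G) :=
        MonoidHom.codRestrict (f.comp (S₀ : Subgroup H).subtype) (P : Subgroup G)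
          (fun u => hTP ⟨u, u.2, rfl⟩)
      refine isCyclic_of_injective φ ?_
      intro u v huv
      have h1 := congrArg Subtype.val huv
      exact Subtype.ext (hfinj h1)
    have halt := action_alt P hPc hcase' hTP hord hyN
    refine restr_shape hp S₀.isPGroup' hcyc hy₀ hgen ?_
    rcases halt with h | ⟨h2, h3⟩
    · left
      intro s hs
      have h1 := h (f s) ⟨s, hs, rfl⟩
      rw [← map_mul, ← map_mul] at h1
      exact hfinj h1
    · right
      refine ⟨?_, ?_⟩
      · rw [← map_pow] at h2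
        apply hfinj
        rw [h2, map_one]
      · intro s hs
        have h1 := h3 (f s) ⟨s, hs, rfl⟩
        rw [← map_inv, ← map_inv, ← map_mul, ← map_mul] at h1
        exact hfinj h1

end

end Cfsg.Agent.Lib.Cl.RestrCyc
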