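import Mathlib
import Cfsg.Agent.Lib.Cl.RestrCyc
import Cfsg.Agent.Lib.Cl.Klein
import Cfsg.Agent.Lib.Cl.Symp
import Cfsg.Agent.Lib.Transfer.QuatSection

/-!
# Restricted `2`-by-cyclic subgroups
-/

set_option autoImplicit false

namespace Cfsg.Agent.Lib.Cl.RestrCyc2

open Subgroup Cfsg.Agent.Lib.Cl.RestrCyc

section

variable {G : Type*} [Group G] [Finite G]

/-- Rotation data of a dihedral subgroup. -/
theorem dih_rot_data {P : Subgroup G} {n : ℕ} (φ : P ≃* DihedralGroup (2 ^ n)) :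
    ∃ R : Subgroup G, IsCyclic R ∧ R ≤ P ∧ (∀ u ∈ P, u ∉ R → u ^ 2 = 1 ∧ ∀ v ∈ R, u * v * u⁻¹ = v⁻¹) ∧
      (∀ u ∈ P, ∀ v ∈ P, u ∉ R → v ∉ R → u * v ∈ R) := by
  classical
  haveI : NeZero (2 ^ n) := ⟨pow_ne_zero _ (by norm_num)⟩
  let ρ₀ : P := φ.symm (DihedralGroup.r 1)
  let ρ : G := (ρ₀ : G)
  have hρP : ρ ∈ P := ρ₀.2
  have hrot : ∀ w : P, ∀ i, φ w = DihedralGroup.r i → (w : G) ∈ zpowers ρ := by
    intro w i hw
    have h1 : w = ρ₀ ^ i.val := by
      apply φ.injective
      rw [hw, map_pow]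
      have h2 : φ ρ₀ = DihedralGroup.r 1 := by simp [ρ₀]
      rw [h2, DihedralGroup.r_one_pow, ZMod.natCast_zmod_val]
    rw [h1]
    refine ⟨(i.val : ℤ), ?_⟩
    show ρ ^ ((i.val : ℕ) : ℤ) = ((ρ₀ ^ i.val : P) : G)
    rw [zpow_natCast]
    rfl
  have hrefl : ∀ w : P, (w : G) ∉ zpowers ρ → ∃ j, φ w = DihedralGroup.sr j := by
    intro w hw
    rcases h : φ w with i | j
    · exact absurd (hrot w i h) hw
    · exact ⟨j, rfl⟩
  refine ⟨zpowers ρ, inferInstance, zpowers_le.mpr hρP, ?_, ?_⟩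
  · intro u hu huR
    obtain ⟨j, hj⟩ := hrefl ⟨u, hu⟩ huR
    have h1 : (⟨u, hu⟩ : P) ^ 2 = 1 := by
      apply φ.injective
      rw [map_pow, hj, map_one, sq, DihedralGroup.sr_mul_self]
    refine ⟨congrArg Subtype.val h1, ?_⟩
    have h2 : u * ρ * u⁻¹ = ρ⁻¹ := by
      have h3 : (⟨u, hu⟩ : P) * ρ₀ * (⟨u, hu⟩ : P)⁻¹ = ρ₀⁻¹ := by
        apply φ.injective
        rw [map_mul, map_mul, map_inv, map_inv, hj]
        have h2 : φ ρ₀ = DihedralGroup.r 1 := by simp [ρ₀]
        rw [h2, dih_invert]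
      exact congrArg Subtype.val h3
    rintro v ⟨t, rfl⟩
    show u * (ρ ^ t) * u⁻¹ = (ρ ^ t)⁻¹
    rw [← conj_zpow, h2, inv_zpow]
  · intro u hu v hv huR hvR
    obtain ⟨j, hj⟩ := hrefl ⟨u, hu⟩ huR
    obtain ⟨k, hk⟩ := hrefl ⟨v, hv⟩ hvR
    have h1 : φ ((⟨u, hu⟩ : P) * ⟨v, hv⟩) = DihedralGroup.r (k - j) := by
      rw [map_mul, hj, hk, DihedralGroup.sr_mul_sr]
    exact hrot _ _ h1

/-- The case analysis in `G`. -/
theorem core {P R : Subgroup G} (hP2 : IsPGroup 2 P) (hRP : R ≤ P) (hRc : IsCyclic R)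
    (h1 : ∀ u ∈ P, u ∉ R → u ^ 2 = 1 ∧ ∀ v ∈ R, u * v * u⁻¹ = v⁻¹)
    (h2 : ∀ u ∈ P, ∀ v ∈ P, u ∉ R → v ∉ R → u * v ∈ R)
    (hK : ∀ K : Subgroup G, K ≤ P → Nat.card K = 4 → (∀ k ∈ K, k ^ 2 = 1) → centralizer (K : Set G) = K)
    {T : Subgroup G} (hTP : T ≤ P) {y : G} (hy : Odd (orderOf y)) (hyN : ∀ t ∈ T, y * t * y⁻¹ ∈ T) :
    (IsCyclic T ∧ ∀ t ∈ T, y * t = t * y) ∨
    (y = 1 ∧ ∃ D : Subgroup G, D ≤ T ∧ IsCyclic D ∧ (∃ s ∈ T, s ∉ D) ∧
      (∀ u ∈ T, u ∉ D → u ^ 2 = 1 ∧ ∀ v ∈ D, u * v * u⁻¹ = v⁻¹) ∧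
      (∀ u ∈ T, ∀ v ∈ T, u ∉ D → v ∉ D → u * v ∈ D)) ∨
    (Nat.card T = 4 ∧ y ^ 3 = 1 ∧ y ≠ 1 ∧ ∃ t ∈ T, y * t ≠ t * y) := by
  classical
  haveI : Fact (Nat.Prime 2) := ⟨Nat.prime_two⟩
  have hnorm : ∀ {A : Subgroup G}, (∀ t ∈ A, y * t * y⁻¹ ∈ A) → y ∈ normalizer (A : Set G) := by
    intro A hA
    rw [mem_normalizer_iff]
    intro g
    refine ⟨fun hg => hA g hg, fun hg => ?_⟩
    let f : A → A := fun a => ⟨y * a * y⁻¹, hA a a.2⟩
    have hf : Function.Injective f := by
      intro a b hab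
      have h3 : y * (a : G) * y⁻¹ = y * (b : G) * y⁻¹ := congrArg Subtype.val hab
      exact Subtype.ext (by simpa using h3)
    obtain ⟨a, ha⟩ := Finite.surjective_of_injective hf ⟨_, hg⟩
    have h3 : y * (a : G) * y⁻¹ = y * g * y⁻¹ := congrArg Subtype.val ha
    have h4 : (a : G) = g := by simpa using h3
    rw [← h4]
    exact a.2
  have hO1 : IsCyclic T → (IsCyclic T ∧ ∀ t ∈ T, y * t = t * y) := by
    intro hc
    refine ⟨hc, ?_⟩
    intro t ht
    haveI := hc
    have h3 := Cfsg.Agent.Lib.Transfer.mem_centralizer_of_cyclic_two (D := T) (hP2.to_le hTP) (hnorm hyN) hy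
    exact ((mem_centralizer_iff.mp h3) t ht).symm
  have hT2 : IsPGroup 2 T := hP2.to_le hTP
  by_cases hTR : T ≤ R
  · left
    haveI := hRc
    exact hO1 (Subgroup.isCyclic_of_le hTR)
  obtain ⟨s, hsT, hsR⟩ : ∃ s ∈ T, s ∉ R := by
    by_contra hcon
    push_neg at hcon
    exact hTR hcon
  obtain ⟨hs2, hsinv⟩ := h1 s (hTP hsT) hsR
  have hss : s * s = 1 := by rw [← sq]; exact hs2
  have hsi : s⁻¹ = s := inv_eq_of_mul_eq_one_left hss
  let D : Subgroup G := T ⊓ R
  have hDT : D ≤ T := inf_le_left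
  have hDR : D ≤ R := inf_le_right
  have hDc : IsCyclic D := by
    haveI := hRc
    exact Subgroup.isCyclic_of_le hDR
  have hmemD : ∀ u ∈ T, u ∉ D → u ∉ R := fun u hu h0 h3 => h0 ⟨hu, h3⟩
  have hprod : ∀ u ∈ T, ∀ v ∈ T, u ∉ D → v ∉ D → u * v ∈ D := fun u hu v hv hu' hv' =>
    ⟨T.mul_mem hu hv, h2 u (hTP hu) v (hTP hv) (hmemD u hu hu') (hmemD v hv hv')⟩
  have hout : ∀ u ∈ T, u ∉ D → u ^ 2 = 1 ∧ ∀ v ∈ D, u * v * u⁻¹ = v⁻¹ := fun u hu hu' =>
    ⟨(h1 u (hTP hu) (hmemD u hu hu')).1, fun v hv => (h1 u (hTP hu) (hmemD u hu hu')).2 v (hDR hv)⟩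
  have hsD : s ∉ D := fun h => hsR h.2
  by_cases hD1 : D = ⊥
  · left
    apply hO1
    have hTs : T = zpowers s := by
      apply le_antisymm
      · intro u hu
        by_cases huD : u ∈ D
        · rw [hD1, mem_bot] at huD
          rw [huD]
          exact one_mem _
        · have h3 := hprod s hsT u hu hsD huD
          rw [hD1, mem_bot] at h3
          have h4 : u = s⁻¹ := eq_inv_of_mul_eq_one_right h3
          rw [h4]
          exact inv_mem (mem_zpowers s)
      · exact zpowers_le.mpr hsT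
    rw [hTs]
    infer_instance
  -- an involution in `D`
  have hD2 : IsPGroup 2 D := hT2.to_le hDT
  obtain ⟨z, hzD, hz2⟩ : ∃ z ∈ D, orderOf z = 2 := by
    obtain ⟨k, hk⟩ := IsPGroup.iff_card.mp hD2
    have hdvd : 2 ∣ Nat.card D := by
      rw [hk]
      apply dvd_pow_self
      rintro rfl
      rw [pow_zero] at hk
      exact hD1 (Subgroup.eq_bot_of_card_eq D hk)
    obtain ⟨w, hw⟩ := exists_prime_orderOf_dvd_card' 2 hdvd
    refine ⟨w, w.2, ?_⟩
    rw [← Subgroup.orderOf_coe] at hw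
    exact hw
  have hzz : z ^ 2 = 1 := by rw [← hz2]; exact pow_orderOf_eq_one z
  have hz1 : z ≠ 1 := by
    rintro rfl
    simp at hz2
  have hs1 : s ≠ 1 := by
    rintro rfl
    exact hsR (one_mem _)
  have hzs : z ≠ s := fun h => hsD (h ▸ hzD)
  have hzi : z⁻¹ = z := inv_eq_of_mul_eq_one_left (by rw [← sq]; exact hzz)
  have hzc : z * s = s * z := by
    have h3 := hsinv z (hDR hzD)
    rw [hzi] at h3
    calc z * s = (s * z * s⁻¹) * s := by rw [h3]
      _ = s * z := by group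
  obtain ⟨U, hUk, hzU, hsU, hUf⟩ := Cfsg.Agent.Lib.Cl.exists_klein hzz hs2 hzc hz1 hs1 hzs
  have hUT : U ≤ T := by
    intro u hu
    rcases hUf u hu with h | h | h | h <;> rw [h]
    · exact one_mem _
    · exact hDT hzD
    · exact hsT
    · exact T.mul_mem (hDT hzD) hsT
  have hUc : Nat.card U = 4 := IsKleinFour.card_four
  have hUe : ∀ k ∈ U, k ^ 2 = 1 := by
    intro k hk
    have h3 : (⟨k, hk⟩ : U) ^ 2 = 1 := by
      have h4 := IsKleinFour.exponent_two (G := U)
      rw [← h4]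
      exact Monoid.pow_exponent_eq_one _
    exact congrArg Subtype.val h3
  have hCU := hK U (hUT.trans hTP) hUc hUe
  have hY1 : y ∈ centralizer (U : Set G) → y = 1 := by
    intro hyc
    rw [hCU] at hyc
    have h3 := hUe y hyc
    have h4 : orderOf y ∣ 2 := orderOf_dvd_of_pow_eq_one h3
    have h5 : orderOf y = 1 := by
      rcases (Nat.dvd_prime Nat.prime_two).mp h4 with h | h
      · exact h
      · rw [h] at hy
        exact absurd hy (by decide)
    exact orderOf_eq_one_iff.mp h5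
  have hO2 : y = 1 → (y = 1 ∧ ∃ D : Subgroup G, D ≤ T ∧ IsCyclic D ∧ (∃ s ∈ T, s ∉ D) ∧
      (∀ u ∈ T, u ∉ D → u ^ 2 = 1 ∧ ∀ v ∈ D, u * v * u⁻¹ = v⁻¹) ∧
      (∀ u ∈ T, ∀ v ∈ T, u ∉ D → v ∉ D → u * v ∈ D)) :=
    fun hy1 => ⟨hy1, D, hDT, hDc, ⟨s, hsT, hsD⟩, hout, hprod⟩
  by_cases hD4 : ∃ d ∈ D, d ^ 2 ≠ 1
  · -- `y` centralizes `T`
    right
    left
    apply hO2
    apply hY1
    rw [mem_centralizer_iff]
    intro u huU
    have huT := hUT huU
    obtain ⟨d₀, hd₀⟩ := hDc.exists_generator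
    have hd₀2 : (d₀ : G) ^ 2 ≠ 1 := by
      intro h0
      obtain ⟨d, hd, hdne⟩ := hD4
      apply hdne
      obtain ⟨i, hi⟩ := hd₀ ⟨d, hd⟩
      have h3 : d = (d₀ : G) ^ i := (congrArg Subtype.val hi).symm
      rw [h3, ← zpow_natCast, ← zpow_mul, mul_comm, zpow_mul, zpow_natCast, h0, one_zpow]
    have hyd₀ : y * (d₀ : G) * y⁻¹ ∈ D := by
      refine ⟨hyN _ (hDT d₀.2), ?_⟩
      by_contra h0
      have h3 := (h1 _ (hTP (hyN _ (hDT d₀.2))) h0).1
      rw [conj_pow] at h3
      apply hd₀2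
      have h4 : y * (d₀ : G) ^ 2 * y⁻¹ = y * 1 * y⁻¹ := by rw [h3]; group
      simpa using h4
    have hyD : ∀ d ∈ D, y * d * y⁻¹ ∈ D := by
      intro d hd
      obtain ⟨i, hi⟩ := hd₀ ⟨d, hd⟩
      have h3 : d = (d₀ : G) ^ i := (congrArg Subtype.val hi).symm
      rw [h3, ← conj_zpow]
      exact D.zpow_mem hyd₀ i
    have hyND := hnorm hyD
    have hyCD := by
      haveI := hDc
      exact Cfsg.Agent.Lib.Transfer.mem_centralizer_of_cyclic_two (D := D) hD2 hyND hy
    by_cases huD : u ∈ D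
    · exact (mem_centralizer_iff.mp hyCD) u huD
    · have hu₁T : y * u * y⁻¹ ∈ T := hyN u huT
      have hu₁D : y * u * y⁻¹ ∉ D := fun h0 => huD ((mem_normalizer_iff.mp hyND u).mpr h0)
      have hcD := hprod u huT _ hu₁T huD hu₁D
      have hu2 : u * u = 1 := by rw [← sq]; exact (hout u huT huD).1
      obtain ⟨c, hc⟩ : ∃ c, c = u * (y * u * y⁻¹) := ⟨_, rfl⟩
      rw [← hc] at hcD
      have hu₁ : y * u * y⁻¹ = u * c := by
        rw [hc, ← mul_assoc, hu2, one_mul]
      have hcy : c * y = y * c := (mem_centralizer_iff.mp hyCD) c hcD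
      have hiter : ∀ j : ℕ, y ^ j * u * (y ^ j)⁻¹ = u * c ^ j := by
        intro j
        induction j with
        | zero => simp
        | succ j ih =>
          have hcj : y * c ^ j * y⁻¹ = c ^ j := by
            have h5 : Commute c y := hcy
            rw [(h5.pow_left j).symm.eq]
            group
          calc y ^ (j + 1) * u * (y ^ (j + 1))⁻¹ = y * (y ^ j * u * (y ^ j)⁻¹) * y⁻¹ := by
                rw [pow_succ']
                group
            _ = y * (u * c ^ j) * y⁻¹ := by rw [ih]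
            _ = (y * u * y⁻¹) * (y * c ^ j * y⁻¹) := by group
            _ = u * c * c ^ j := by rw [hu₁, hcj]
            _ = u * c ^ (j + 1) := by rw [pow_succ', mul_assoc]
      have h6 := hiter (orderOf y)
      rw [pow_orderOf_eq_one] at h6
      have h7 : c ^ orderOf y = 1 := by
        have h8 : u = u * c ^ orderOf y := by simpa using h6
        exact (mul_eq_left.mp h8.symm)
      have h8 : c = 1 := by
        obtain ⟨k, hk⟩ := (IsPGroup.iff_orderOf.mp hD2) ⟨c, hcD⟩
        rw [Subgroup.orderOf_mk] at hk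
        have h9 : orderOf c ∣ orderOf y := orderOf_dvd_of_pow_eq_one h7
        rw [hk] at h9
        rcases Nat.eq_zero_or_pos k with rfl | hkpos
        · rw [pow_zero] at hk
          exact orderOf_eq_one_iff.mp hk
        · exfalso
          have h10 : 2 ∣ orderOf y := (dvd_pow_self 2 hkpos.ne').trans h9
          exact (Nat.not_even_iff_odd.mpr hy) (even_iff_two_dvd.mpr h10)
      rw [h8, mul_one] at hu₁
      calc u * y = (y * u * y⁻¹) * y := by rw [hu₁]
        _ = y * u := by group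
  · -- `D` has order `2`
    push_neg at hD4
    have hDf : ∀ d ∈ D, d = 1 ∨ d = z := by
      intro d hd
      by_cases hd1 : d = 1
      · exact Or.inl hd1
      · right
        have h3 : orderOf d = 2 := orderOf_eq_prime (hD4 d hd) hd1
        exact Cfsg.Agent.Lib.Cl.eq_of_orderOf_two_of_subgroup D hDc hd hzD h3 hz2
    have hTU : T ≤ U := by
      intro u hu
      by_cases huD : u ∈ D
      · rcases hDf u huD with h | h
        · rw [h]; exact one_mem _
        · rw [h]; exact hzU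
      · have h3 := hprod s hsT u hu hsD huD
        have h4 : u = s * (s * u) := by
          rw [← mul_assoc, hss, one_mul]
        rw [h4]
        rcases hDf _ h3 with h | h
        · rw [h, mul_one]; exact hsU
        · rw [h]; exact U.mul_mem hsU hzU
    have hTeq : T = U := le_antisymm hTU hUT
    by_cases hyC : y ∈ centralizer (U : Set G)
    · right
      left
      exact hO2 (hY1 hyC)
    · right
      right
      have hcardT : Nat.card T = 4 := by rw [hTeq]; exact hUc
      have hy1 : y ≠ 1 := by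
        rintro rfl
        exact hyC (one_mem _)
      refine ⟨hcardT, ?_, hy1, ?_⟩
      · -- `y ^ 24` centralizes `U`
        have hyNU : ∀ t ∈ U, y * t * y⁻¹ ∈ U := by
          rw [← hTeq]
          exact hyN
        let f : U → U := fun a => ⟨y * a * y⁻¹, hyNU a a.2⟩
        have hf : Function.Injective f := by
          intro a b hab
          have h3 : y * (a : G) * y⁻¹ = y * (b : G) * y⁻¹ := congrArg Subtype.val hab
          exact Subtype.ext (by simpa using h3)
        let σ : Equiv.Perm U := Equiv.ofBijective f ⟨hf, Finite.surjective_of_injective hf⟩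
        have hσ : ∀ (n : ℕ) (a : U), (((σ ^ n) a : U) : G) = y ^ n * a * (y ^ n)⁻¹ := by
          intro n
          induction n with
          | zero => intro a; simp
          | succ n ih =>
            intro a
            rw [pow_succ', Equiv.Perm.mul_apply]
            show y * ((σ ^ n) a : G) * y⁻¹ = _
            rw [ih a, pow_succ']
            group
        have hσ24 : σ ^ 24 = 1 := by
          have h3 : Nat.card (Equiv.Perm U) = 24 := by
            rw [Nat.card_perm, hUc]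
            rfl
          rw [← h3]
          exact pow_card_eq_one'
        have hy24 : y ^ 24 ∈ centralizer (U : Set G) := by
          rw [mem_centralizer_iff]
          intro a ha
          have h3 := hσ 24 ⟨a, ha⟩
          rw [hσ24] at h3
          have h4 : a = y ^ 24 * a * (y ^ 24)⁻¹ := h3
          calc a * y ^ 24 = (y ^ 24 * a * (y ^ 24)⁻¹) * y ^ 24 := by rw [← h4]
            _ = y ^ 24 * a := by group
        rw [hCU] at hy24
        have h3 := hUe _ hy24
        have h4 : y ^ 48 = 1 := by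
          rw [← pow_mul] at h3
          exact h3
        have h5 : orderOf y ∣ 16 * 3 := orderOf_dvd_of_pow_eq_one h4
        have h6 : Nat.Coprime (orderOf y) 16 := by
          have h7 : Nat.Coprime (orderOf y) (2 ^ 4) :=
            Nat.Coprime.pow_right 4 (Nat.coprime_two_right.mpr hy)
          exact h7
        have h7 : orderOf y ∣ 3 := Nat.Coprime.dvd_of_dvd_mul_left h6 h5
        exact orderOf_dvd_iff_pow_eq_one.mp h7
      · by_contra hcon
        push_neg at hcon
        apply hyC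
        rw [mem_centralizer_iff]
        intro a ha
        exact (hcon a (hUT ha)).symm

end

section

variable {H : Type*} [Group H] [Finite H] {p : ℕ} [Fact p.Prime]

theorem cyclic_of_commute {S : Subgroup H} (hSp : IsPGroup p S)
    (hSc : IsCyclic S) {y : H} (hy : ¬ p ∣ orderOf y) (hgen : ∀ h : H, ∃ s ∈ S, ∃ i : ℤ, h = s * y ^ i)
    (hcomm : ∀ s ∈ S, y * s = s * y) : IsCyclic H := by
  classical
  have hpp : p.Prime := Fact.out
  obtain ⟨k, hk⟩ := IsPGroup.iff_card.mp hSp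
  let φ : S × zpowers y →* H := MonoidHom.noncommCoprod S.subtype (zpowers y).subtype (by
    rintro ⟨s, hs⟩ ⟨t, i, rfl⟩
    exact ((show Commute s y from (hcomm s hs).symm).zpow_right i))
  haveI : IsCyclic (S × zpowers y) := by
    rw [Group.isCyclic_prod_iff]
    refine ⟨hSc, inferInstance, ?_⟩
    rw [hk, Nat.card_zpowers]
    exact Nat.Coprime.pow_left k ((Nat.Prime.coprime_iff_not_dvd hpp).mpr hy)
  refine isCyclic_of_surjective φ ?_
  intro h
  obtain ⟨s, hs, i, rfl⟩ := hgen h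
  exact ⟨(⟨s, hs⟩, ⟨y ^ i, i, rfl⟩), rfl⟩

end

section

variable {G : Type*} [Group G] [Finite G] {H : Type*} [Group H] [Finite H]

/-- Pull the case analysis back. -/
theorem shape_pullback (f : H →* G) (hf : Function.Injective f) {S₀ : Subgroup H} [hSn : S₀.Normal]
    (hS2 : IsPGroup 2 S₀) {y₀ : H} (hy₀ : ¬ 2 ∣ orderOf y₀)
    (hgen : ∀ h : H, ∃ s ∈ S₀, ∃ i : ℤ, h = s * y₀ ^ i)
    (hcore : (IsCyclic (S₀.map f) ∧ ∀ t ∈ S₀.map f, f y₀ * t = t * f y₀) ∨
    (f y₀ = 1 ∧ ∃ D : Subgroup G, D ≤ S₀.map f ∧ IsCyclic D ∧ (∃ s ∈ S₀.map f, s ∉ D) ∧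
      (∀ u ∈ S₀.map f, u ∉ D → u ^ 2 = 1 ∧ ∀ v ∈ D, u * v * u⁻¹ = v⁻¹) ∧
      (∀ u ∈ S₀.map f, ∀ v ∈ S₀.map f, u ∉ D → v ∉ D → u * v ∈ D)) ∨
    (Nat.card (S₀.map f) = 4 ∧ f y₀ ^ 3 = 1 ∧ f y₀ ≠ 1 ∧ ∃ t ∈ S₀.map f, f y₀ * t ≠ t * f y₀)) :
    IsCyclic H ∨ (∃ n : ℕ, Nonempty (H ≃* DihedralGroup (2 ^ n))) ∨ Nonempty (H ≃* alternatingGroup (Fin 4)) := by
  classical
  haveI : Fact (Nat.Prime 2) := ⟨Nat.prime_two⟩
  let e : S₀ ≃* S₀.map f := S₀.equivMapOfInjective f hf
  rcases hcore with ⟨hc, hcomm⟩ | ⟨hy1, D, hDT, hDc, ⟨s, hsT, hsD⟩, hout, hprod⟩ | ⟨hcard, hy3, hy1, t, htT, htne⟩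
  · left
    haveI := hc
    have hSc : IsCyclic S₀ := isCyclic_of_injective e.toMonoidHom e.injective
    refine cyclic_of_commute hS2 hSc hy₀ hgen ?_
    intro s hs
    apply hf
    rw [map_mul, map_mul]
    exact hcomm _ ⟨s, hs, rfl⟩
  · right
    left
    have hy01 : y₀ = 1 := hf (by rw [hy1, map_one])
    have hall : ∀ h : H, h ∈ S₀ := by
      intro h
      obtain ⟨s', hs', i, rfl⟩ := hgen h
      rw [hy01, one_zpow, mul_one]
      exact hs'
    have hfT : ∀ h : H, f h ∈ S₀.map f := fun h => ⟨h, hall h, rfl⟩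
    let D₀ : Subgroup H := D.comap f
    have hD₀c : IsCyclic D₀ := by
      haveI := hDc
      let ψ : D₀ →* D := (f.comp D₀.subtype).codRestrict D (fun u => u.2)
      refine isCyclic_of_injective ψ ?_
      intro u v huv
      exact Subtype.ext (hf (congrArg Subtype.val huv))
    obtain ⟨s₀, hs₀, rfl⟩ := hsT
    have hD₀p : IsPGroup 2 D₀ := by
      intro u
      obtain ⟨k, hk⟩ := hS2 ⟨u, hall u⟩
      refine ⟨k, Subtype.ext ?_⟩
      have h0 := congrArg Subtype.val hk
      simpa using h0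
    have hidx : D₀.index = 2 := by
      rw [Subgroup.index_eq_two_iff]
      refine ⟨s₀, fun b => ?_⟩
      by_cases hb : b ∈ D₀
      · refine Or.inr ⟨hb, fun h0 => hsD ?_⟩
        have h1 : s₀ = b⁻¹ * (b * s₀) := by group
        rw [h1]
        exact D₀.mul_mem (D₀.inv_mem hb) h0
      · refine Or.inl ⟨?_, hb⟩
        show f (b * s₀) ∈ D
        rw [map_mul]
        exact hprod _ (hfT b) _ (hfT s₀) hb hsD
    haveI := hD₀c
    have hdih := Cfsg.Agent.Lib.Classical.Dick.dihedral_of_index_two (G := H) D₀ hidx (by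
      intro a ha
      obtain ⟨h1, h2⟩ := hout (f a) (hfT a) ha
      refine ⟨?_, ?_⟩
      · apply hf
        rw [map_mul, map_one, ← sq]
        exact h1
      · intro x hx
        apply hf
        rw [map_mul, map_mul, map_inv, map_inv]
        exact h2 (f x) hx)
    obtain ⟨k, hk⟩ := IsPGroup.iff_card.mp hD₀p
    rw [hk] at hdih
    exact ⟨k, hdih⟩
  · right
    right
    have hy₀3 : y₀ ^ 3 = 1 := hf (by rw [map_pow, hy3, map_one])
    have hy₀1 : y₀ ≠ 1 := fun h0 => hy1 (by rw [h0, map_one])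
    haveI : Fact (Nat.Prime 3) := ⟨Nat.prime_three⟩
    have hord : orderOf y₀ = 3 := orderOf_eq_prime hy₀3 hy₀1
    have hScard : Nat.card S₀ = 4 := by
      rw [← hcard]
      exact Nat.card_congr e.toEquiv
    have hcop : Nat.Coprime (Nat.card S₀) (Nat.card (zpowers y₀)) := by
      rw [hScard, Nat.card_zpowers, hord]
      norm_num
    have hdis : S₀ ⊓ zpowers y₀ = ⊥ := Subgroup.inf_eq_bot_of_coprime hcop
    have hcomp : S₀.IsComplement' (zpowers y₀) := by
      apply isComplement'_of_disjoint_and_mul_eq_univ (disjoint_iff.mpr hdis)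
      rw [Set.eq_univ_iff_forall]
      intro h
      obtain ⟨s', hs', i, rfl⟩ := hgen h
      exact ⟨s', hs', y₀ ^ i, ⟨i, rfl⟩, rfl⟩
    have hcardH : Nat.card H = 12 := by
      rw [← hcomp.card_mul, hScard, Nat.card_zpowers, hord]
    refine Cfsg.Agent.Lib.Classical.Dick.a4_of_card hcardH (zpowers y₀) (by rw [Nat.card_zpowers, hord]) ?_
    intro hnorm
    obtain ⟨s', hs', rfl⟩ := htT
    apply htne
    have h1 : y₀ * s' * y₀⁻¹ * s'⁻¹ ∈ S₀ ⊓ zpowers y₀ := by
      constructor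
      · have h2 : y₀ * s' * y₀⁻¹ ∈ S₀ := hSn.conj_mem s' hs' y₀
        exact S₀.mul_mem h2 (S₀.inv_mem hs')
      · have h2 : s' * y₀⁻¹ * s'⁻¹ ∈ zpowers y₀ := hnorm.conj_mem _ (inv_mem (mem_zpowers y₀)) s'
        have h3 : y₀ * s' * y₀⁻¹ * s'⁻¹ = y₀ * (s' * y₀⁻¹ * s'⁻¹) := by group
        rw [h3]
        exact mul_mem (mem_zpowers y₀) h2
    rw [hdis, mem_bot] at h1
    have h2 : y₀ * s' * y₀⁻¹ = s' := mul_inv_eq_one.mp h1
    rw [← map_mul, ← map_mul]
    congr 1
    calc y₀ * s' = (y₀ * s' * y₀⁻¹) * y₀ := by group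
      _ = s' * y₀ := by rw [h2]

end

section

variable {G : Type*} [Group G] [Finite G]

/-- An abelian dihedral `2`-group has order at most `4`. -/
theorem dih_abelian_small {H : Type*} [Group H] {m : ℕ} (e : H ≃* DihedralGroup (2 ^ m))
    (hab : ∀ a b : H, a * b = b * a) : Nat.card H ≤ 4 := by
  classical
  have h1 := hab (e.symm (DihedralGroup.r 1)) (e.symm (DihedralGroup.sr 0))
  have h2 := congrArg e h1
  simp only [map_mul, MulEquiv.apply_symm_apply, DihedralGroup.r_mul_sr, DihedralGroup.sr_mul_r,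
    DihedralGroup.sr.injEq, zero_sub, zero_add] at h2
  have h3 : ((2 : ℕ) : ZMod (2 ^ m)) = 0 := by
    push_cast
    linear_combination (-1) * h2
  rw [ZMod.natCast_eq_zero_iff] at h3
  have h5 : m ≤ 1 := by
    have h6 : (2 : ℕ) ^ m ∣ 2 ^ 1 := by simpa using h3
    exact (Nat.pow_dvd_pow_iff_le_right (by norm_num)).mp h6
  rw [Nat.card_congr e.toEquiv, DihedralGroup.nat_card]
  interval_cases m <;> norm_num

/-- **Restricted `2`-by-cyclic subgroups.** -/
theorem main2 (P : Sylow 2 G) :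
    (∀ H : Subgroup G, (∀ S : Sylow 2 ↥H, (S : Subgroup ↥H).Normal) →
        (∀ (S : Sylow 2 ↥H) [(S : Subgroup ↥H).Normal], IsCyclic (↥H ⧸ (S : Subgroup ↥H))) →
        IsCyclic H ∨ (∃ n : ℕ, Nonempty (H ≃* DihedralGroup (2 ^ n))) ∨ Nonempty (H ≃* alternatingGroup (Fin 4))) ↔
    (IsCyclic P ∨
      ((∃ n : ℕ, 1 ≤ n ∧ Nonempty ((P : Subgroup G) ≃* DihedralGroup (2 ^ n))) ∧
        ∀ K : Subgroup G, K ≤ P → Nat.card K = 4 → (∀ k ∈ K, k ^ 2 = 1) → Subgroup.centralizer (K : Set G) = K)) := by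
  classical
  haveI : Fact (Nat.Prime 2) := ⟨Nat.prime_two⟩
  constructor
  · intro hL
    have key : ∀ (Q : Subgroup G), IsPGroup 2 Q → ∀ x ∈ normalizer (Q : Set G),
        IsCyclic ↥(Q ⊔ zpowers x) ∨ (∃ n : ℕ, Nonempty (↥(Q ⊔ zpowers x) ≃* DihedralGroup (2 ^ n))) ∨
          Nonempty (↥(Q ⊔ zpowers x) ≃* alternatingGroup (Fin 4)) := by
      intro Q hQ x hx
      obtain ⟨h1, h2⟩ := cond_of_normalizing hQ hx
      exact hL _ h1 (fun S _ => h2 S)
    have hK : ∀ K : Subgroup G, K ≤ P → Nat.card K = 4 → (∀ k ∈ K, k ^ 2 = 1) →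
        Subgroup.centralizer (K : Set G) = K := by
      intro K hKP hKc hKe
      have hKcomm : ∀ a ∈ K, ∀ b ∈ K, a * b = b * a := by
        intro a ha b hb
        have h1 := hKe _ (K.mul_mem ha hb)
        have h2 := hKe _ ha
        have h3 := hKe _ hb
        rw [sq] at h1 h2 h3
        have h4 : a⁻¹ = a := inv_eq_of_mul_eq_one_left h2
        have h5 : b⁻¹ = b := inv_eq_of_mul_eq_one_left h3
        have h6 : a * b = (a * b)⁻¹ := eq_inv_of_mul_eq_one_left h1
        rw [mul_inv_rev, h4, h5] at h6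
        exact h6
      apply le_antisymm _ (fun a ha => mem_centralizer_iff.mpr (fun b hb => hKcomm b hb a ha))
      intro x hx
      have hxN : x ∈ normalizer (K : Set G) := centralizer_le_normalizer _ hx
      have hKp : IsPGroup 2 K := P.isPGroup'.to_le hKP
      have hKH : K ≤ K ⊔ zpowers x := le_sup_left
      have hxH : x ∈ K ⊔ zpowers x := (le_sup_right : zpowers x ≤ K ⊔ zpowers x) (mem_zpowers x)
      have hxc : ∀ k ∈ K, k * x = x * k := mem_centralizer_iff.mp hx
      have hHk : ∀ k ∈ K, K ⊔ zpowers x ≤ centralizer ({k} : Set G) := by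
        intro k hk
        refine sup_le (fun a ha => mem_centralizer_singleton_iff.mpr (hKcomm a ha k hk)) ?_
        exact zpowers_le.mpr (mem_centralizer_singleton_iff.mpr (hxc k hk).symm)
      have hHx : K ⊔ zpowers x ≤ centralizer ({x} : Set G) := by
        refine sup_le (fun a ha => mem_centralizer_singleton_iff.mpr (hxc a ha)) ?_
        exact zpowers_le.mpr (mem_centralizer_singleton_iff.mpr rfl)
      have hHall : K ⊔ zpowers x ≤ centralizer ((K ⊔ zpowers x : Subgroup G) : Set G) := by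
        refine sup_le ?_ ?_
        · intro k hk
          rw [mem_centralizer_iff]
          intro h hh
          exact mem_centralizer_singleton_iff.mp (hHk k hk hh)
        · refine zpowers_le.mpr ?_
          rw [mem_centralizer_iff]
          intro h hh
          exact mem_centralizer_singleton_iff.mp (hHx hh)
      have hHab : ∀ a b : ↥(K ⊔ zpowers x), a * b = b * a := by
        intro a b
        exact Subtype.ext ((mem_centralizer_iff.mp (hHall b.2)) a a.2)
      rcases key K hKp x hxN with hc | ⟨m, ⟨e⟩⟩ | ⟨⟨e⟩⟩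
      · exfalso
        have hKcyc : IsCyclic K := isCyclic_of_injective (Subgroup.inclusion hKH) (Subgroup.inclusion_injective hKH)
        obtain ⟨g, hg⟩ := hKcyc.exists_generator
        have h1 : orderOf g = 4 := by
          rw [← hKc]
          exact orderOf_eq_card_of_forall_mem_zpowers hg
        have h2 : g ^ 2 = 1 := Subtype.ext (hKe g g.2)
        have h3 := orderOf_dvd_of_pow_eq_one h2
        rw [h1] at h3
        omega
      · have h1 := dih_abelian_small e hHab
        have h2 : K = K ⊔ zpowers x := Subgroup.eq_of_le_of_card_ge hKH (by rw [hKc]; exact h1)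
        rw [h2]
        exact hxH
      · exfalso
        have h1 : IsMulCommutative (alternatingGroup (Fin 4)) := by
          refine ⟨⟨fun a b => ?_⟩⟩
          apply e.symm.injective
          rw [map_mul, map_mul]
          exact hHab _ _
        rw [alternatingGroup.isMulCommutative_iff_card_le_three] at h1
        simp at h1
    have h1 := key P P.isPGroup' 1 (one_mem _)
    have h2 : (P : Subgroup G) ⊔ zpowers (1 : G) = P := by simp
    rw [h2] at h1
    rcases h1 with h | ⟨n, ⟨e⟩⟩ | ⟨⟨e⟩⟩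
    · exact Or.inl h
    · rcases Nat.eq_zero_or_pos n with rfl | hn
      · left
        have h3 : Nat.card (P : Subgroup G) = 2 := by
          rw [Nat.card_congr e.toEquiv, DihedralGroup.nat_card]
          norm_num
        exact isCyclic_of_prime_card h3
      · right
        exact ⟨⟨n, hn, ⟨e⟩⟩, hK⟩
    · exfalso
      obtain ⟨k, hk⟩ := IsPGroup.iff_card.mp P.isPGroup'
      have h3 : Nat.card (P : Subgroup G) = 12 := by
        rw [Nat.card_congr e.toEquiv]
        rw [Nat.card_eq_fintype_card]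
        decide
      rw [h3] at hk
      have h4 : 3 ∣ 2 ^ k := by
        rw [← hk]
        norm_num
      have h5 := Nat.Prime.dvd_of_dvd_pow Nat.prime_three h4
      omega
  · intro hR H hA hB
    obtain ⟨S₀⟩ : Nonempty (Sylow 2 H) := inferInstance
    haveI := hA S₀
    obtain ⟨y₀, hy₀, hgen⟩ := exists_p'_generator (S₀ : Subgroup H) S₀.not_dvd_index (hB S₀)
    have hSp : IsPGroup 2 ((S₀ : Subgroup H).map H.subtype) := S₀.isPGroup'.map _
    obtain ⟨P', hP'⟩ := hSp.exists_le_sylow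
    obtain ⟨g, rfl⟩ := MulAction.exists_smul_eq G P P'
    have hconj : ∀ u ∈ (S₀ : Subgroup H), g⁻¹ * (u : G) * g ∈ (P : Subgroup G) := fun u hu =>
      Cfsg.Agent.Lib.ClassSizes.mem_sylow_smul_iff.mp (hP' ⟨u, hu, rfl⟩)
    let c : G →* G := (MulAut.conj g⁻¹).toMonoidHom
    have hc : ∀ a, c a = g⁻¹ * a * g := by
      intro a
      simp [c]
    have hcinj : Function.Injective c := (MulAut.conj g⁻¹).injective
    let f : H →* G := c.comp H.subtype
    have hf : ∀ a : H, f a = g⁻¹ * (a : G) * g := fun a => hc a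
    have hfinj : Function.Injective f := hcinj.comp Subtype.val_injective
    have hTP : (S₀ : Subgroup H).map f ≤ (P : Subgroup G) := by
      rintro _ ⟨u, hu, rfl⟩
      rw [hf]
      exact hconj u hu
    have hord : Odd (orderOf (f y₀)) := by
      rw [orderOf_injective f hfinj]
      exact Nat.odd_iff.mpr (Nat.two_dvd_ne_zero.mp hy₀)
    have hyN : ∀ t ∈ (S₀ : Subgroup H).map f, f y₀ * t * (f y₀)⁻¹ ∈ (S₀ : Subgroup H).map f := by
      rintro _ ⟨u, hu, rfl⟩
      refine ⟨y₀ * u * y₀⁻¹, ?_, ?_⟩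
      · exact (hA S₀).conj_mem u hu y₀
      · simp
    refine shape_pullback f hfinj S₀.isPGroup' hy₀ hgen ?_
    rcases hR with hPc | ⟨⟨n, hn, ⟨φ⟩⟩, hK⟩
    · left
      haveI := hPc
      have hTc : IsCyclic ((S₀ : Subgroup H).map f) := Subgroup.isCyclic_of_le hTP
      refine ⟨hTc, ?_⟩
      have hT2 : IsPGroup 2 ((S₀ : Subgroup H).map f) := P.isPGroup'.to_le hTP
      have hnorm : f y₀ ∈ normalizer (((S₀ : Subgroup H).map f : Subgroup G) : Set G) := by
        rw [mem_normalizer_iff]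
        intro a
        refine ⟨fun ha => hyN a ha, fun ha => ?_⟩
        let F : ((S₀ : Subgroup H).map f : Subgroup G) → ((S₀ : Subgroup H).map f : Subgroup G) :=
          fun b => ⟨f y₀ * b * (f y₀)⁻¹, hyN b b.2⟩
        have hF : Function.Injective F := by
          intro u v huv
          have h3 : f y₀ * (u : G) * (f y₀)⁻¹ = f y₀ * (v : G) * (f y₀)⁻¹ := congrArg Subtype.val huv
          exact Subtype.ext (by simpa using h3)
        obtain ⟨b, hb⟩ := Finite.surjective_of_injective hF ⟨_, ha⟩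
        have h3 : f y₀ * (b : G) * (f y₀)⁻¹ = f y₀ * a * (f y₀)⁻¹ := congrArg Subtype.val hb
        have h4 : (b : G) = a := by simpa using h3
        rw [← h4]
        exact b.2
      intro t ht
      have h3 := Cfsg.Agent.Lib.Transfer.mem_centralizer_of_cyclic_two
        (D := (S₀ : Subgroup H).map f) hT2 hnorm hord
      exact ((mem_centralizer_iff.mp h3) t ht).symm
    · obtain ⟨R, hRc, hRP, h1, h2⟩ := dih_rot_data φ
      exact core P.isPGroup' hRP hRc h1 h2 hK hTP hord hyN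

end

end Cfsg.Agent.Lib.Cl.RestrCyc2
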