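import Cfsg.Agent.Lib.Fusion.NormalSub
import Cfsg.Agent.S1137
import Cfsg.Agent.S1138
import Mathlib

/-! # Suzuki 2-groups are resistant -/

set_option autoImplicit false
set_option linter.unusedSectionVars false
set_option linter.unusedVariables false

namespace Cfsg.Agent.Lib.Cl.SuzRes

open Cfsg Cfsg.FusionSystem Cfsg.Agent.Lib.Fusion

variable {Ω : Type*} [Group Ω] {S : Subgroup Ω}

theorem suzuki_normal [Finite S] (hS : IsPGroup 2 S) (F : FusionSystem S) (hF : F.IsSaturated 2)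
    (hsz : IsSuzukiTwoGroup S) : F.IsNormal S := by
  obtain ⟨h1, h2⟩ := Cfsg.Agent.S1137.result hsz
  obtain ⟨-, h3, -⟩ := Cfsg.Agent.S1138.result hsz
  rw [isNormal_iff_stronglyClosed hS hF]
  refine ⟨⟨le_rfl, fun R _ φ hφ x => hom_val F hφ x⟩, fun T hTc hTr => ?_⟩
  have hTS := hTc.1
  have : Finite T := finite_of_le hTS
  have hfin : Finite (MulAut T) := finite_mulAut T
  set Z : Subgroup Ω := (Subgroup.center S).map S.subtype with hZ
  have hZS : Z ≤ S := Subgroup.map_subtype_le _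
  have hZcen : ∀ z ∈ Z, ∀ g ∈ S, g * z = z * g := by
    rintro _ ⟨z, hz, rfl⟩ g hg
    exact congrArg Subtype.val (Subgroup.mem_center_iff.1 hz ⟨g, hg⟩)
  have hZT : Z ≤ T := fun z hz => IsCentric.centralizer_le hTc (mem_centralizerIn.2 ⟨hZS hz, fun q hq => (hZcen z hz q (hTS hq))⟩)
  have hZsq : ∀ z ∈ Z, z * z = 1 := by
    rintro _ ⟨z, hz, rfl⟩
    exact congrArg Subtype.val (h2 z hz)
  -- automorphisms preserve `Z`
  have hZinv : ∀ α ∈ F.autGroup T, ∀ z : T, (z : Ω) ∈ Z → ((α z : T) : Ω) ∈ Z := by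
    intro α hα z hz
    by_cases hz1 : (z : Ω) = 1
    · have : z = 1 := Subtype.ext hz1
      rw [this, map_one]
      exact Z.one_mem
    · have hzsq : z * z = 1 := Subtype.ext (hZsq _ hz)
      have hne : α z ≠ 1 := fun h => hz1 (by
        have := α.injective (h.trans (map_one α).symm)
        rw [this]
        rfl)
      have hsq : (α z) * (α z) = 1 := by rw [← map_mul, hzsq, map_one]
      set y : S := ⟨((α z : T) : Ω), hTS (α z).2⟩ with hy
      have hy1 : y ≠ 1 := fun h => hne (Subtype.ext (show ((α z : T) : Ω) = 1 from congrArg Subtype.val h))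
      have hysq : y * y = 1 := Subtype.ext (show ((α z : T) : Ω) * ((α z : T) : Ω) = 1 from congrArg Subtype.val hsq)
      have := ((h1 y).1 ⟨hy1, hysq⟩).1
      exact ⟨y, this, rfl⟩
  let D : Subgroup (MulAut T) := finiteSubgroup
    {α | α ∈ F.autGroup T ∧ (∀ z : T, (z : Ω) ∈ Z → α z = z) ∧ ∀ x : T, ((x⁻¹ * α x : T) : Ω) ∈ Z}
    ⟨Subgroup.one_mem _, fun z _ => rfl, fun x => by
      simp⟩
    (by
      rintro a b ⟨ha, ha1, ha2⟩ ⟨hb, hb1, hb2⟩
      refine ⟨Subgroup.mul_mem _ ha hb, fun z hz => ?_, fun x => ?_⟩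
      · rw [MulAut.mul_apply, hb1 z hz, ha1 z hz]
      · rw [MulAut.mul_apply]
        set w : T := x⁻¹ * b x with hw
        have hwZ : (w : Ω) ∈ Z := hb2 x
        have h4 : b x = x * w := by simp [hw]
        rw [h4, map_mul, ha1 w hwZ, ← mul_assoc]
        exact Z.mul_mem (by simpa using ha2 x) hwZ)
  have hDA : D ≤ F.autGroup T := fun a ha => ha.1
  have hDp : IsPGroup 2 D := by
    intro a
    refine ⟨1, Subtype.ext ?_⟩
    obtain ⟨-, ha1, ha2⟩ := a.2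
    ext x
    set w : T := x⁻¹ * (a : MulAut T) x with hw
    have h4 : ((a : MulAut T) x) = x * w := by simp [hw]
    have h5 : (w : Ω) ∈ Z := ha2 x
    have h7 : w * w = 1 := Subtype.ext (hZsq _ h5)
    have h6 : ((a : MulAut T) ^ (2 ^ 1)) x = (a : MulAut T) ((a : MulAut T) x) := by
      rw [pow_one, pow_two, MulAut.mul_apply]
    show ((((a : MulAut T) ^ (2 ^ 1)) x : T) : Ω) = ((1 : MulAut T) x : T)
    rw [h6, h4, map_mul, ha1 w h5, h4, mul_assoc, h7, mul_one]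
    rfl
  have hn : ∀ α ∈ F.autGroup T, ∀ δ ∈ D, α * δ * α⁻¹ ∈ D := by
    rintro α hα δ ⟨hδ, hδ1, hδ2⟩
    have hαi : α⁻¹ ∈ F.autGroup T := Subgroup.inv_mem _ hα
    refine ⟨Subgroup.mul_mem _ (Subgroup.mul_mem _ hα hδ) hαi, fun z hz => ?_, fun x => ?_⟩
    · rw [MulAut.mul_apply, MulAut.mul_apply, hδ1 _ (hZinv _ hαi z hz)]
      simp
    · rw [MulAut.mul_apply, MulAut.mul_apply]
      set y : T := α⁻¹ x with hy
      have hxy : x = α y := by simp [hy]
      set w : T := y⁻¹ * δ y with hw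
      have h4 : δ y = y * w := by simp [hw]
      rw [h4, map_mul, ← hxy]
      simpa using hZinv α hα w (hδ2 y)
  refine le_of_normal_pSubgroup (p := 2) hS Subgroup.le_normalizer le_rfl hTc hTr hDA hDp hn fun g hg => ?_
  obtain ⟨hgS, hgN⟩ := mem_normalizerIn.1 hg
  refine ⟨autInducedBy_le_autGroup F hTS (conjAut_mem hgS hgN), fun z hz => ?_, fun x => ?_⟩
  · apply Subtype.ext
    rw [conjAut_coe, hZcen _ hz g hgS]
    simp
  · have h4 := h3 (⟨x, hTS x.2⟩ : S) (⟨g, hgS⟩ : S)⁻¹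
    simp only [inv_inv] at h4
    have h5 : ((⟨x, hTS x.2⟩ : S)⁻¹ * (⟨g, hgS⟩ : S) * (⟨x, hTS x.2⟩ : S) * (⟨g, hgS⟩ : S)⁻¹ : S) ∈ Subgroup.center S := h4
    have h6 : ((x⁻¹ * conjAut T g hgN x : T) : Ω) = (((⟨x, hTS x.2⟩ : S)⁻¹ * (⟨g, hgS⟩ : S) * (⟨x, hTS x.2⟩ : S) * (⟨g, hgS⟩ : S)⁻¹ : S) : Ω) := by
      simp only [Subgroup.coe_mul, conjAut_coe, Subgroup.coe_inv]
      group
    rw [h6]
    exact ⟨_, h5, rfl⟩

end Cfsg.Agent.Lib.Cl.SuzRes
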