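import Mathlib
import Cfsg.Agent.Lib.Transfer.Frat
import Cfsg.Agent.Lib.PGroup.Basic

/-!
# The derived length of the Sylow subgroups of the symmetric groups
-/

set_option autoImplicit false

namespace Cfsg.Agent.Lib.Cl.SylowSym

open Subgroup MulAction
open scoped commutatorElement

section Upper

variable {X : Type*} [Finite X] {p : ℕ} [Fact p.Prime]

/-- The iterated commutator, in the ambient group. -/
def dser {G : Type*} [Group G] (H : Subgroup G) (k : ℕ) : Subgroup G :=
  (fun K : Subgroup G => ⁅K, K⁆)^[k] H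

theorem map_derivedSeries_subtype {G : Type*} [Group G] (H : Subgroup G) (k : ℕ) :
    (derivedSeries ↥H k).map H.subtype = dser H k := by
  induction k with
  | zero =>
    simp only [derivedSeries_zero, dser, Function.iterate_zero, id]
    rw [← MonoidHom.range_eq_map, Subgroup.range_subtype]
  | succ k ih =>
    rw [derivedSeries_succ, Subgroup.map_commutator, ih]
    simp only [dser, Function.iterate_succ_apply']

theorem commutator_self_le {G : Type*} [Group G] (H : Subgroup G) : ⁅H, H⁆ ≤ H :=
  Subgroup.commutator_le.mpr fun a ha b hb =>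
    H.mul_mem (H.mul_mem (H.mul_mem ha hb) (H.inv_mem ha)) (H.inv_mem hb)

/-- Orbits of the commutator subgroup of a `p`-group are smaller. -/
theorem orbit_commutator (H : Subgroup (Equiv.Perm X)) (hH : IsPGroup p H) (x : X) (m : ℕ)
    (hm : Nat.card (orbit H x) ≤ p ^ (m + 1)) : Nat.card (orbit (⁅H, H⁆ : Subgroup (Equiv.Perm X)) x) ≤ p ^ m := by
  classical
  have hpp : p.Prime := Fact.out
  have hmem : ∀ k ∈ (⁅H, H⁆ : Subgroup (Equiv.Perm X)), ∃ c ∈ commutator H, ((c : H) : Equiv.Perm X) = k := by
    intro k hk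
    have h1 : (commutator H).map H.subtype = ⁅H, H⁆ := by
      have h2 := map_derivedSeries_subtype H 1
      simpa [dser] using h2
    rw [← h1] at hk
    obtain ⟨c, hc, rfl⟩ := hk
    exact ⟨c, hc, rfl⟩
  let S := stabilizer (↥H) x
  have hSi : S.index = Nat.card (orbit H x) := by
    rw [index_stabilizer, Nat.card_coe_set_eq]
  rcases eq_top_or_exists_le_coatom S with hS | ⟨M, hM, hSM⟩
  · have h1 : ∀ k ∈ (⁅H, H⁆ : Subgroup (Equiv.Perm X)), k x = x := by
      intro k hk
      obtain ⟨c, -, rfl⟩ := hmem k hk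
      have h2 : c ∈ S := by rw [hS]; trivial
      exact h2
    have h2 : Nat.card (orbit (⁅H, H⁆ : Subgroup (Equiv.Perm X)) x) ≤ 1 := by
      rw [Finite.card_le_one_iff_subsingleton]
      constructor
      rintro ⟨_, ⟨a, rfl⟩⟩ ⟨_, ⟨b, rfl⟩⟩
      apply Subtype.ext
      show (a : Equiv.Perm X) x = (b : Equiv.Perm X) x
      rw [h1 _ a.2, h1 _ b.2]
    exact h2.trans (Nat.one_le_pow _ _ hpp.pos)
  · have hMi : M.index = p := Cfsg.Agent.Lib.PGroup.index_eq_prime_of_isCoatom hH hM
    have hcM : commutator H ≤ M := Cfsg.Agent.Lib.Transfer.commutator_le_coatom hH hM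
    have h1 : S.relIndex M * M.index = S.index := Subgroup.relIndex_mul_index hSM
    have hstab : stabilizer (↥M) x = S.subgroupOf M := rfl
    have h2 : Nat.card (orbit (↥M) x) = S.relIndex M := by
      rw [Subgroup.relIndex, ← hstab, index_stabilizer, Nat.card_coe_set_eq]
    have h3 : Nat.card (orbit (↥M) x) * p ≤ p ^ m * p := by
      rw [h2, ← hMi, h1, hSi, hMi, ← pow_succ]
      exact hm
    have h4 : Nat.card (orbit (↥M) x) ≤ p ^ m := Nat.le_of_mul_le_mul_right h3 hpp.pos
    refine le_trans ?_ h4
    apply Nat.card_mono (Set.toFinite _)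
    rintro _ ⟨a, rfl⟩
    obtain ⟨c, hc, hca⟩ := hmem a a.2
    refine ⟨⟨c, hcM hc⟩, ?_⟩
    show ((c : H) : Equiv.Perm X) x = (a : Equiv.Perm X) x
    rw [hca]

/-- **Upper bound.** -/
theorem dser_eq_bot_of_orbits : ∀ (k : ℕ) (H : Subgroup (Equiv.Perm X)), IsPGroup p H →
    (∀ x : X, Nat.card (orbit H x) ≤ p ^ k) → dser H k = ⊥ := by
  intro k
  induction k with
  | zero =>
    intro H _ h
    simp only [dser, Function.iterate_zero, id]
    rw [eq_bot_iff]
    intro g hg
    rw [mem_bot]
    ext x
    have h1 := h x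
    rw [pow_zero, Finite.card_le_one_iff_subsingleton] at h1
    have h2 : (⟨g x, ⟨⟨g, hg⟩, rfl⟩⟩ : orbit H x) = ⟨x, mem_orbit_self x⟩ := Subsingleton.elim _ _
    have h3 : g x = x := congrArg Subtype.val h2
    rw [h3]
    rfl
  | succ k ih =>
    intro H hH h
    have h1 := ih (⁅H, H⁆) (hH.to_le (commutator_self_le H)) (fun x => orbit_commutator H hH x k (h x))
    rw [dser, Function.iterate_succ_apply]
    exact h1

end Upper

section Lower

variable {D Q : Type*} [Group D] [Group Q]

theorem wreath_left_mul {w : RegularWreathProduct D Q} (w' : RegularWreathProduct D Q) (h : w.right = 1) (z : Q) :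
    (w * w').left z = w.left z * w'.left z := by
  rw [RegularWreathProduct.mul_left]
  simp [h]

theorem wreath_left_inv {w : RegularWreathProduct D Q} (h : w.right = 1) (z : Q) :
    (w⁻¹).left z = (w.left z)⁻¹ := by
  rw [RegularWreathProduct.inv_left]
  simp [h]

/-- Derived subgroups of the wreath product. -/
theorem derived_wreath [Nontrivial Q] (j : ℕ) : ∀ a ∈ derivedSeries D j,
    ∃ w ∈ derivedSeries (RegularWreathProduct D Q) (j + 1), w.right = 1 ∧ w.left 1 = a := by
  classical
  induction j with
  | zero =>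
    intro a _
    obtain ⟨q₀, hq₀⟩ := exists_ne (1 : Q)
    let x : RegularWreathProduct D Q := ⟨Pi.mulSingle 1 a, 1⟩
    let y : RegularWreathProduct D Q := ⟨1, q₀⟩
    refine ⟨⁅x, y⁆, ?_, ?_, ?_⟩
    · rw [derivedSeries_succ, derivedSeries_zero]
      exact Subgroup.commutator_mem_commutator (mem_top _) (mem_top _)
    · simp [commutatorElement_def, x, y]
    · have h1 : (x * y * x⁻¹ * y⁻¹).left 1 = a := by
        simp [RegularWreathProduct.mul_left, RegularWreathProduct.inv_left, x, y, Pi.mulSingle_apply, hq₀]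
      exact h1
  | succ j ih =>
    let T : Subgroup D :=
      { carrier := {a | ∃ w ∈ derivedSeries (RegularWreathProduct D Q) (j + 1 + 1), w.right = 1 ∧ w.left 1 = a}
        mul_mem' := by
          rintro _ _ ⟨w, hw, hr, rfl⟩ ⟨w', hw', hr', rfl⟩
          refine ⟨w * w', mul_mem hw hw', ?_, wreath_left_mul w' hr 1⟩
          rw [RegularWreathProduct.mul_right, hr, hr', one_mul]
        one_mem' := ⟨1, one_mem _, rfl, rfl⟩
        inv_mem' := by
          rintro _ ⟨w, hw, hr, rfl⟩
          refine ⟨w⁻¹, inv_mem hw, ?_, wreath_left_inv hr 1⟩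
          rw [RegularWreathProduct.inv_right, hr, inv_one] }
    have hle : ⁅derivedSeries D j, derivedSeries D j⁆ ≤ T := by
      rw [Subgroup.commutator_le]
      intro a ha b hb
      obtain ⟨u, hu, hur, hul⟩ := ih a ha
      obtain ⟨v, hv, hvr, hvl⟩ := ih b hb
      refine ⟨⁅u, v⁆, ?_, ?_, ?_⟩
      · rw [derivedSeries_succ]
        exact Subgroup.commutator_mem_commutator hu hv
      · simp [commutatorElement_def, hur, hvr]
      · have hr1 : (u * v).right = 1 := by rw [RegularWreathProduct.mul_right, hur, hvr, one_mul]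
        have hr2 : (u * v * u⁻¹).right = 1 := by
          rw [RegularWreathProduct.mul_right, hr1, RegularWreathProduct.inv_right, hur, inv_one, one_mul]
        rw [commutatorElement_def, wreath_left_mul _ hr2, wreath_left_mul _ hr1, wreath_left_mul _ hur,
          wreath_left_inv hur, wreath_left_inv hvr, hul, hvl, commutatorElement_def]
    intro a ha
    rw [derivedSeries_succ] at ha
    exact hle ha

/-- The iterated wreath products. -/
theorem exists_wreath (p : ℕ) [hp : Fact p.Prime] : ∀ k : ℕ, ∃ (W : Type) (_ : Group W) (_ : Finite W) (X : Type)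
    (_ : Finite X) (φ : W →* Equiv.Perm X), Function.Injective φ ∧ IsPGroup p W ∧ Nat.card X = p ^ (k + 1) ∧
    derivedSeries W k ≠ ⊥ := by
  have hpp : p.Prime := hp.out
  haveI hQne : NeZero p := ⟨hpp.ne_zero⟩
  haveI hQt : Nontrivial (Multiplicative (ZMod p)) := by
    haveI : Fact (1 < p) := ⟨hpp.one_lt⟩
    infer_instance
  have hQc : Nat.card (Multiplicative (ZMod p)) = p := by
    rw [Nat.card_congr Multiplicative.toAdd, Nat.card_zmod]
  intro k
  induction k with
  | zero =>
    refine ⟨Multiplicative (ZMod p), inferInstance, inferInstance, Multiplicative (ZMod p), inferInstance,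
      MulAction.toPermHom _ _, MulAction.toPerm_injective, IsPGroup.of_card (n := 1) (by rw [hQc, pow_one]),
      by rw [hQc, zero_add, pow_one], ?_⟩
    rw [derivedSeries_zero]
    exact top_ne_bot
  | succ k ih =>
    obtain ⟨W, _, _, X, _, φ, hφ, hWp, hX, hW⟩ := ih
    letI : MulAction W X := MulAction.compHom X φ
    haveI : FaithfulSMul W X := ⟨fun h => hφ (Equiv.ext h)⟩
    haveI hXne : Nonempty X := by
      apply (Nat.card_pos_iff.mp _).1
      rw [hX]
      exact pow_pos hpp.pos _
    refine ⟨RegularWreathProduct W (Multiplicative (ZMod p)), inferInstance, inferInstance,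
      X × Multiplicative (ZMod p), inferInstance, RegularWreathProduct.toPerm W _ X,
      RegularWreathProduct.toPermInj W _ X, ?_, ?_, ?_⟩
    · obtain ⟨a, ha⟩ := IsPGroup.iff_card.mp hWp
      apply IsPGroup.of_card (n := a * p + 1)
      rw [RegularWreathProduct.card, ha, hQc, pow_succ, pow_mul]
    · rw [Nat.card_prod, hX, hQc]
      ring
    · obtain ⟨a, ha⟩ := Subgroup.ne_bot_iff_exists_ne_one.mp hW
      obtain ⟨w, hw, -, hl⟩ := derived_wreath (Q := Multiplicative (ZMod p)) k (a : W) a.2
      intro h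
      rw [h, mem_bot] at hw
      apply ha
      apply Subtype.ext
      rw [← hl, hw]
      rfl

end Lower

section Final

/-- **The derived length of the Sylow subgroups of the symmetric groups.** -/
theorem main (p : ℕ) [hp : Fact p.Prime] (n : ℕ) (hn : 1 ≤ n) (P : Sylow p (Equiv.Perm (Fin n))) :
    derivedSeries ↥(P : Subgroup (Equiv.Perm (Fin n))) (Nat.log p n) = ⊥ ∧
    (1 ≤ Nat.log p n → derivedSeries ↥(P : Subgroup (Equiv.Perm (Fin n))) (Nat.log p n - 1) ≠ ⊥) := by
  classical
  have hpp : p.Prime := hp.out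
  constructor
  · have h1 : dser (P : Subgroup (Equiv.Perm (Fin n))) (Nat.log p n) = ⊥ := by
      apply dser_eq_bot_of_orbits _ _ P.isPGroup'
      intro x
      have h2 : Nat.card (orbit (P : Subgroup (Equiv.Perm (Fin n))) x) ∣ Nat.card (P : Subgroup (Equiv.Perm (Fin n))) := by
        rw [Nat.card_coe_set_eq, ← index_stabilizer]
        exact Subgroup.index_dvd_card _
      obtain ⟨a, ha⟩ := IsPGroup.iff_card.mp P.isPGroup'
      rw [ha] at h2
      obtain ⟨j, -, hj⟩ := (Nat.dvd_prime_pow hpp).mp h2
      rw [hj]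
      apply Nat.pow_le_pow_right hpp.pos
      apply Nat.le_log_of_pow_le hpp.one_lt
      rw [← hj]
      have h3 : Nat.card (orbit (P : Subgroup (Equiv.Perm (Fin n))) x) ≤ Nat.card (Fin n) :=
        Finite.card_subtype_le _
      simpa using h3
    have h2 := map_derivedSeries_subtype (P : Subgroup (Equiv.Perm (Fin n))) (Nat.log p n)
    rw [h1] at h2
    exact (Subgroup.map_eq_bot_iff_of_injective _ (Subgroup.subtype_injective _)).mp h2
  · intro hlog
    obtain ⟨W, _, _, X, _, φ, hφ, hWp, hX, hW⟩ := exists_wreath p (Nat.log p n - 1)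
    have hk : Nat.log p n - 1 + 1 = Nat.log p n := by omega
    rw [hk] at hX
    have hcard : Nat.card X ≤ Nat.card (Fin n) := by
      rw [hX, Nat.card_fin]
      exact Nat.pow_log_le_self p (by omega)
    haveI := Fintype.ofFinite X
    obtain ⟨ι⟩ : Nonempty (X ↪ Fin n) := by
      apply Function.Embedding.nonempty_of_card_le
      rw [← Nat.card_eq_fintype_card, ← Nat.card_eq_fintype_card]
      exact hcard
    let ψ : W →* Equiv.Perm (Fin n) := (Equiv.Perm.viaEmbeddingHom ι).comp φ
    have hψ : Function.Injective ψ := (Equiv.Perm.viaEmbeddingHom_injective ι).comp hφ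
    have hrange : IsPGroup p ψ.range := by
      rw [MonoidHom.range_eq_map]
      exact (hWp.to_subgroup ⊤).map ψ
    obtain ⟨P', hP'⟩ := hrange.exists_le_sylow
    let ρ : W →* (P' : Subgroup (Equiv.Perm (Fin n))) :=
      ψ.codRestrict (P' : Subgroup (Equiv.Perm (Fin n))) (fun w => hP' ⟨w, rfl⟩)
    let e : W →* (P : Subgroup (Equiv.Perm (Fin n))) := (P'.equiv P).toMonoidHom.comp ρ
    have he : Function.Injective e := by
      intro u v huv
      have h1 := (P'.equiv P).injective huv
      exact hψ (congrArg Subtype.val h1)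
    intro hbot
    apply hW
    have h1 := map_derivedSeries_le_derivedSeries e (Nat.log p n - 1)
    rw [hbot, le_bot_iff] at h1
    exact (Subgroup.map_eq_bot_iff_of_injective _ he).mp h1

end Final

end Cfsg.Agent.Lib.Cl.SylowSym
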