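import Mathlib
import Cfsg.Agent.Lib.FrobThm.Setup
import Cfsg.Agent.Lib.FrobThm.JJ
import Cfsg.Agent.Lib.Transfer.Frat
import Cfsg.Agent.Lib.Derangement.Basic
import Cfsg.Agent.Lib.Hall.CoprimeLemmas
import Cfsg.Agent.Lib.Amalgam.ParaChar

/-! Groups with two conjugacy class sizes (Itô). -/

set_option autoImplicit false

namespace Cfsg.Agent.Lib.Cl.TwoSizes

open Subgroup
open scoped commutatorElement

section Gen

theorem exists_primePow_not_mem {G : Type*} [Group G] [Finite G] (K : Subgroup G) :
    ∀ (N : ℕ) (x : G), orderOf x = N → x ∉ K →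
      ∃ i r j : ℕ, r.Prime ∧ orderOf (x ^ i) = r ^ j ∧ x ^ i ∉ K := by
  intro N
  induction N using Nat.strong_induction_on with
  | _ N ih =>
    intro x hN hx
    have hN0 : N ≠ 0 := by rw [← hN]; exact (orderOf_pos x).ne'
    have hN1 : N ≠ 1 := by
      rintro rfl
      exact hx (orderOf_eq_one_iff.1 hN ▸ K.one_mem)
    set r := N.minFac with hr
    have hrp : r.Prime := Nat.minFac_prime hN1
    set m := ordCompl[r] N with hm
    set k := r ^ N.factorization r with hk
    have hkm : k * m = N := Nat.ordProj_mul_ordCompl_eq_self N r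
    have hm0 : m ≠ 0 := fun h => hN0 (by rw [← hkm, h, mul_zero])
    have hk0 : k ≠ 0 := fun h => hN0 (by rw [← hkm, h, zero_mul])
    have hcop : m.Coprime k := ((Nat.coprime_ordCompl hrp hN0).pow_left _).symm
    by_cases h1 : x ^ m ∈ K
    · have h2 : x ^ k ∉ K := fun h2 =>
        hx (Cfsg.Agent.Lib.FrobThm.mem_of_pow_mem_of_pow_mem hcop h1 h2)
      have h3 : orderOf (x ^ k) = m := by
        rw [orderOf_pow' x hk0, hN, Nat.gcd_eq_right ⟨m, hkm.symm⟩]
      have hlt : m < N := by
        have hr1 : r ∣ N := Nat.minFac_dvd N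
        have hv : N.factorization r ≠ 0 :=
          (hrp.factorization_pos_of_dvd hN0 hr1).ne'
        have hk2 : 2 ≤ k := by
          calc 2 ≤ r := hrp.two_le
            _ ≤ r ^ N.factorization r := Nat.le_self_pow hv r
        rw [← hkm]
        nlinarith [Nat.pos_of_ne_zero hm0]
      obtain ⟨i, r', j, h4, h5, h6⟩ := ih m hlt (x ^ k) h3 h2
      exact ⟨k * i, r', j, h4, by rwa [pow_mul], by rwa [pow_mul]⟩
    · refine ⟨m, r, N.factorization r, hrp, ?_, h1⟩
      rw [orderOf_pow' x hm0, hN, Nat.gcd_eq_right ⟨k, by rw [← hkm, mul_comm]⟩]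
      exact Nat.div_eq_of_eq_mul_left (Nat.pos_of_ne_zero hm0) hkm.symm

/-- Centralizer of a product of commuting elements of coprime orders. -/
theorem centralizer_mul_of_coprime {G : Type*} [Group G] [Finite G] {x y : G} (hc : Commute x y)
    (hco : (orderOf x).Coprime (orderOf y)) :
    centralizer ({x * y} : Set G) = centralizer ({x} : Set G) ⊓ centralizer ({y} : Set G) := by
  obtain ⟨u, hu1, hu2⟩ := Nat.chineseRemainder hco 1 0
  obtain ⟨v, hv1, hv2⟩ := Nat.chineseRemainder hco 0 1
  have hxu : (x * y) ^ u = x := by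
    rw [hc.mul_pow]
    have h1 : x ^ u = x := by
      rw [← pow_mod_orderOf, show u % orderOf x = 1 % orderOf x from hu1, pow_mod_orderOf, pow_one]
    have h2 : y ^ u = 1 := by
      obtain ⟨w, rfl⟩ := (Nat.modEq_zero_iff_dvd).mp hu2
      rw [pow_mul, pow_orderOf_eq_one, one_pow]
    rw [h1, h2, mul_one]
  have hyv : (x * y) ^ v = y := by
    rw [hc.mul_pow]
    have h1 : y ^ v = y := by
      rw [← pow_mod_orderOf, show v % orderOf y = 1 % orderOf y from hv2, pow_mod_orderOf, pow_one]
    have h2 : x ^ v = 1 := by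
      obtain ⟨w, rfl⟩ := (Nat.modEq_zero_iff_dvd).mp hv1
      rw [pow_mul, pow_orderOf_eq_one, one_pow]
    rw [h1, h2, one_mul]
  ext c
  simp only [mem_inf, mem_centralizer_singleton_iff]
  constructor
  · intro h
    have hcomm : Commute c (x * y) := h
    refine ⟨?_, ?_⟩
    · have := hcomm.pow_right u
      rw [hxu] at this
      exact this
    · have := hcomm.pow_right v
      rw [hyv] at this
      exact this
  · rintro ⟨h1, h2⟩
    have h1' : Commute c x := h1
    have h2' : Commute c y := h2
    exact h1'.mul_right h2'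

end Gen

section Star

variable {X : Type*} [Group X]

theorem comm_pow_right' {x y : X} (hy : Commute ⁅x, y⁆ y) (n : ℕ) : ⁅x, y ^ n⁆ = ⁅x, y⁆ ^ n := by
  have h0 : Commute ⁅y, x⁆ y := by
    rw [← commutatorElement_inv]
    exact hy.inv_left
  have h1 := Cfsg.Agent.Lib.Transfer.comm_pow_left h0 n
  rw [← commutatorElement_inv (y ^ n) x, h1, ← commutatorElement_inv x y, inv_pow, inv_inv]

variable [Finite X] {p : ℕ} [hp : Fact p.Prime]

theorem descend (hstar : ∀ y : X, y ^ p ∈ center X ∨ ∀ t, Commute t (y ^ p) → Commute t y)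
    (w : X) (f : ℕ) (hf : ∀ i < f, w ^ (p ^ i) ∉ center X) :
    ∀ i < f, ∀ s, Commute s (w ^ (p ^ i)) → Commute s w := by
  intro i
  induction i with
  | zero =>
    intro _ s hs
    simpa using hs
  | succ i ih =>
    intro hi s hs
    have hi' : i < f := Nat.lt_of_succ_lt hi
    have e : w ^ (p ^ (i + 1)) = (w ^ (p ^ i)) ^ p := by rw [← pow_mul, pow_succ]
    rcases hstar (w ^ (p ^ i)) with h1 | h1
    · exact absurd (e ▸ h1) (hf (i + 1) hi)
    · rw [e] at hs
      exact ih hi' s (h1 s hs)

theorem pair_pow_central (hX : IsPGroup p X)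
    (hstar : ∀ y : X, y ^ p ∈ center X ∨ ∀ t, Commute t (y ^ p) → Commute t y) {a t : X}
    (hz1 : Commute ⁅a, t⁆ a) (hz2 : Commute ⁅a, t⁆ t) (hne : ⁅a, t⁆ ≠ 1) : a ^ p ∈ center X := by
  classical
  have hex : ∀ w : X, ∃ i, w ^ (p ^ i) ∈ center X := by
    intro w
    obtain ⟨k, hk⟩ := hX w
    exact ⟨k, by rw [hk]; exact one_mem _⟩
  set f := Nat.find (hex a) with hf
  set g := Nat.find (hex t) with hg
  have hfs : a ^ (p ^ f) ∈ center X := Nat.find_spec (hex a)
  have hgs : t ^ (p ^ g) ∈ center X := Nat.find_spec (hex t)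
  have hfm : ∀ i < f, a ^ (p ^ i) ∉ center X := fun i hi => Nat.find_min (hex a) hi
  have hgm : ∀ i < g, t ^ (p ^ i) ∉ center X := fun i hi => Nat.find_min (hex t) hi
  have hcomm_central : ∀ u v : X, u ∈ center X → ⁅u, v⁆ = 1 := by
    intro u v hu
    rw [commutatorElement_eq_one_iff_commute]
    exact (Subgroup.mem_center_iff.1 hu v).symm
  have hcomm_central' : ∀ u v : X, v ∈ center X → ⁅u, v⁆ = 1 := by
    intro u v hv
    rw [commutatorElement_eq_one_iff_commute]
    exact Subgroup.mem_center_iff.1 hv u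
  have hf0 : f ≠ 0 := by
    intro h
    rw [h, pow_zero, pow_one] at hfs
    exact hne (hcomm_central a t hfs)
  have hg0 : g ≠ 0 := by
    intro h
    rw [h, pow_zero, pow_one] at hgs
    exact hne (hcomm_central' a t hgs)
  set z := ⁅a, t⁆ with hz
  have hzf : z ^ (p ^ f) = 1 := by
    rw [← Cfsg.Agent.Lib.Transfer.comm_pow_left hz1]
    exact hcomm_central _ _ hfs
  have hzg : z ^ (p ^ g) = 1 := by
    rw [← comm_pow_right' hz2]
    exact hcomm_central' _ _ hgs
  have hformula : ∀ P Q : ℕ, ⁅a ^ P, t ^ Q⁆ = z ^ (P * Q) := by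
    intro P Q
    have h1 : ⁅a ^ P, t⁆ = z ^ P := Cfsg.Agent.Lib.Transfer.comm_pow_left hz1 P
    have h2 : Commute ⁅a ^ P, t⁆ t := by
      rw [h1]
      exact hz2.pow_left P
    rw [comm_pow_right' h2, h1, pow_mul]
  have hnot : ¬ Commute (a ^ (p ^ (f - 1))) (t ^ (p ^ (g - 1))) := by
    intro hc
    have h1 := descend hstar t g hgm (g - 1) (by omega) _ hc
    have h2 := descend hstar a f hfm (f - 1) (by omega) t h1.symm
    exact hne ((commutatorElement_eq_one_iff_commute).2 h2.symm)
  have hznot : z ^ (p ^ (f - 1) * p ^ (g - 1)) ≠ 1 := by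
    rw [← hformula]
    intro h
    exact hnot ((commutatorElement_eq_one_iff_commute).1 h)
  have hg1 : g = 1 := by
    by_contra hne1
    apply hznot
    have e : p ^ (f - 1) * p ^ (g - 1) = p ^ f * p ^ (g - 2) := by
      rw [← pow_add, ← pow_add]
      congr 1
      omega
    rw [e, pow_mul, hzf, one_pow]
  have hf1 : f = 1 := by
    by_contra hne1
    apply hznot
    have e : p ^ (f - 1) * p ^ (g - 1) = p ^ g * p ^ (f - 2) := by
      rw [← pow_add, ← pow_add]
      congr 1
      omega
    rw [e, pow_mul, hzg, one_pow]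
  rw [hf1, pow_one] at hfs
  exact hfs

theorem commute_of_star (hX : IsPGroup p X)
    (hstar : ∀ y : X, y ^ p ∈ center X ∨ ∀ t, Commute t (y ^ p) → Commute t y) {x y : X}
    (hx : x ^ p ∉ center X) (hy : y ^ p ∉ center X) : Commute x y := by
  classical
  by_contra hne
  set H : Subgroup X := closure ({x, y} : Set X) with hH
  have hxH : x ∈ H := Subgroup.subset_closure (by simp)
  have hyH : y ∈ H := Subgroup.subset_closure (by simp)
  have hHp : IsPGroup p H := hX.to_subgroup H
  have hcen : center H ≠ ⊤ := by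
    intro h
    have h1 : (⟨x, hxH⟩ : H) ∈ center H := by rw [h]; trivial
    have h2 := Subgroup.mem_center_iff.1 h1 ⟨y, hyH⟩
    exact hne (congrArg Subtype.val h2).symm
  -- an element of the second centre
  have hQp : IsPGroup p (H ⧸ center H) := hHp.to_quotient _
  have hQn : Nontrivial (H ⧸ center H) := by
    rw [QuotientGroup.nontrivial_iff]
    exact hcen
  have hQc := hQp.center_nontrivial
  obtain ⟨w, hw⟩ := exists_ne (1 : center (H ⧸ center H))
  obtain ⟨t, ht⟩ := QuotientGroup.mk'_surjective (center H) (w : H ⧸ center H)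
  have htc : t ∉ center H := by
    intro h
    apply hw
    apply Subtype.ext
    rw [← ht]
    simpa [QuotientGroup.eq_one_iff] using h
  have hcomm : ∀ h : H, ⁅h, t⁆ ∈ center H := by
    intro h
    rw [← QuotientGroup.eq_one_iff]
    have h1 : ((⁅h, t⁆ : H) : H ⧸ center H) = ⁅(h : H ⧸ center H), (w : H ⧸ center H)⁆ := by
      rw [← ht]
      rfl
    rw [h1, commutatorElement_eq_one_iff_commute]
    exact Subgroup.mem_center_iff.1 w.2 _
  have key : ∀ a : H, ¬ Commute (a : X) (t : X) → (a : X) ^ p ∈ center X := by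
    intro a ha
    have h2 := hcomm a
    refine pair_pow_central hX hstar (a := (a : X)) (t := (t : X)) ?_ ?_ ?_
    · have := Subgroup.mem_center_iff.1 h2 a
      exact (congrArg Subtype.val this).symm
    · have := Subgroup.mem_center_iff.1 h2 t
      exact (congrArg Subtype.val this).symm
    · intro h
      exact ha ((commutatorElement_eq_one_iff_commute).1 h)
  have hxt : Commute x (t : X) := by
    by_contra h
    exact hx (key ⟨x, hxH⟩ h)
  have hyt : Commute y (t : X) := by
    by_contra h
    exact hy (key ⟨y, hyH⟩ h)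
  apply htc
  rw [Subgroup.mem_center_iff]
  intro g
  have hle : H ≤ centralizer ({(t : X)} : Set X) := by
    refine (closure_le _).2 ?_
    intro v hv
    simp only [Set.mem_insert_iff, Set.mem_singleton_iff] at hv
    rw [SetLike.mem_coe, mem_centralizer_singleton_iff]
    rcases hv with rfl | rfl
    · exact hxt
    · exact hyt
  have h3 := mem_centralizer_singleton_iff.1 (hle g.2)
  exact Subtype.ext h3

theorem exists_abelian_of_star (hX : IsPGroup p X)
    (hstar : ∀ y : X, y ^ p ∈ center X ∨ ∀ t, Commute t (y ^ p) → Commute t y) :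
    ∃ A : Subgroup X, A.Normal ∧ IsMulCommutative A ∧ ∀ y : X, y ^ p ∈ A := by
  classical
  set S : Set X := (center X : Set X) ∪ {y | y ^ p ∉ center X} with hS
  have hcomm : ∀ a ∈ S, ∀ b ∈ S, Commute a b := by
    rintro a (ha | ha) b hb
    · exact (Subgroup.mem_center_iff.1 ha b).symm
    · rcases hb with hb | hb
      · exact Subgroup.mem_center_iff.1 hb a
      · exact commute_of_star hX hstar ha hb
  set A : Subgroup X := closure S with hA
  have h1 : A ≤ centralizer S := (closure_le _).2 (fun a ha => by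
    rw [SetLike.mem_coe, Subgroup.mem_centralizer_iff]
    intro b hb
    exact hcomm b hb a ha)
  have h2 : S ⊆ centralizer (A : Set X) := fun a ha => by
    rw [SetLike.mem_coe, Subgroup.mem_centralizer_iff]
    intro b hb
    have := Subgroup.mem_centralizer_iff.1 (h1 hb) a ha
    exact this.symm
  have h3 : A ≤ centralizer (A : Set X) := (closure_le _).2 h2
  refine ⟨A, ?_, ?_, ?_⟩
  · constructor
    intro x hx g
    have hle : A ≤ A.comap (MulAut.conj g).toMonoidHom := (closure_le _).2 (by
      rintro a (ha | ha)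
      · show g * a * g⁻¹ ∈ A
        have h5 : g * a * g⁻¹ = a := by
          rw [Subgroup.mem_center_iff.1 ha g]
          simp
        rw [h5]
        exact Subgroup.subset_closure (Or.inl ha)
      · show g * a * g⁻¹ ∈ A
        apply Subgroup.subset_closure
        right
        show (g * a * g⁻¹) ^ p ∉ center X
        rw [conj_pow]
        intro h5
        apply ha
        have h6 : g⁻¹ * (g * a ^ p * g⁻¹) * g⁻¹⁻¹ ∈ center X := by
          have h7 : (center X).Normal := inferInstance
          exact h7.conj_mem _ h5 g⁻¹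
        simpa [mul_assoc] using h6)
    exact hle hx
  · exact ⟨⟨fun a b => Subtype.ext (Subgroup.mem_centralizer_iff.1 (h3 b.2) a a.2)⟩⟩
  · intro y
    by_cases h : y ^ p ∈ center X
    · exact Subgroup.subset_closure (Or.inl h)
    · exact A.pow_mem (Subgroup.subset_closure (Or.inr h)) p

end Star

end Cfsg.Agent.Lib.Cl.TwoSizes
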