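import Mathlib
import Cfsg.Agent.Lib.Cl.TwoSizes
import Cfsg.Agent.Lib.ClassSizes.Basic

/-! Groups with two conjugacy class sizes: only one prime has noncentral elements. -/

set_option autoImplicit false

namespace Cfsg.Agent.Lib.Cl.TwoSizes

open Subgroup
open scoped commutatorElement

section Main

variable {G : Type*} [Group G] [Finite G] {n : ℕ}

/-- Two class sizes, `1` and `n > 1`. -/
structure TS (G : Type*) [Group G] (n : ℕ) : Prop where
  one_lt : 1 < n
  size : ∀ x : G, (centralizer ({x} : Set G)).index = 1 ∨ (centralizer ({x} : Set G)).index = n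

/-- The centralizer of an element. -/
abbrev Cn (x : G) : Subgroup G := centralizer ({x} : Set G)

theorem mem_Cn {x y : G} : y ∈ Cn x ↔ y * x = x * y := mem_centralizer_singleton_iff

theorem Cn_eq_top_iff {x : G} : Cn x = ⊤ ↔ x ∈ center G := by
  constructor
  · intro h
    rw [Subgroup.mem_center_iff]
    intro g
    have : g ∈ Cn x := by rw [h]; trivial
    exact mem_Cn.1 this
  · intro h
    rw [eq_top_iff]
    intro g _
    exact mem_Cn.2 (Subgroup.mem_center_iff.1 h g)

theorem TS.index_eq (h : TS G n) {x : G} (hx : x ∉ center G) : (Cn x).index = n := by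
  rcases h.size x with h1 | h1
  · exact absurd (Cn_eq_top_iff.1 (Subgroup.index_eq_one.1 h1)) hx
  · exact h1

theorem TS.card_mul (h : TS G n) {x : G} (hx : x ∉ center G) : Nat.card (Cn x) * n = Nat.card G := by
  have := Subgroup.card_mul_index (Cn x)
  rwa [h.index_eq hx] at this

theorem TS.card_eq (h : TS G n) {x y : G} (hx : x ∉ center G) (hy : y ∉ center G) :
    Nat.card (Cn x) = Nat.card (Cn y) := by
  have h1 := h.card_mul hx
  have h2 := h.card_mul hy
  have hn : 0 < n := lt_trans Nat.zero_lt_one h.one_lt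
  exact Nat.eq_of_mul_eq_mul_right hn (h1.trans h2.symm)

theorem TS.eq_of_le (h : TS G n) {x y : G} (hx : x ∉ center G) (hy : y ∉ center G)
    (hle : Cn x ≤ Cn y) : Cn x = Cn y :=
  Subgroup.eq_of_le_of_card_ge hle (h.card_eq hx hy).ge

theorem TS.eq_of_commute_coprime (h : TS G n) {x y : G} (hx : x ∉ center G) (hy : y ∉ center G)
    (hc : Commute x y) (hco : (orderOf x).Coprime (orderOf y)) : Cn x = Cn y := by
  have e := centralizer_mul_of_coprime hc hco
  have hxy : x * y ∉ center G := by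
    intro h1
    have h2 : centralizer ({x * y} : Set G) = ⊤ := Cn_eq_top_iff.2 h1
    rw [h2] at e
    have h3 : Cn x = ⊤ := top_le_iff.1 (e.le.trans inf_le_left)
    exact hx (Cn_eq_top_iff.1 h3)
  have h1 : Cn (x * y) = Cn x := h.eq_of_le hxy hx (e.le.trans inf_le_left)
  have h2 : Cn (x * y) = Cn y := h.eq_of_le hxy hy (e.le.trans inf_le_right)
  exact h1.symm.trans h2

theorem Cn_pow_le (x : G) (i : ℕ) : Cn x ≤ Cn (x ^ i) := by
  intro g hg
  have h1 : Commute g x := mem_Cn.1 hg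
  exact mem_Cn.2 (h1.pow_right i)

/-- Each noncentral centralizer contains a noncentral `q`-element, if there is one. -/
theorem TS.exists_elt (h : TS G n) (q : ℕ) [hq : Fact q.Prime] {y : G} (hy : y ∉ center G)
    (hyq : ∃ j, orderOf y = q ^ j) {x : G} (hx : x ∉ center G) :
    ∃ t ∈ Cn x, t ∉ center G ∧ ∃ j, orderOf t = q ^ j := by
  classical
  by_contra hcon
  push Not at hcon
  obtain ⟨S⟩ : Nonempty (Sylow q (Cn x)) := inferInstance
  have hSZ : (S : Subgroup (Cn x)).map (Cn x).subtype ≤ center G := by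
    rintro _ ⟨s, hs, rfl⟩
    by_contra hne
    obtain ⟨j, hj⟩ := IsPGroup.iff_orderOf.1 S.2 ⟨s, hs⟩
    refine hcon s s.2 hne j ?_
    have h1 : orderOf (⟨s, hs⟩ : S) = orderOf (s : G) := by
      rw [Subgroup.orderOf_mk, Subgroup.orderOf_coe]
    rw [← h1, hj]
  -- `q` divides the index of the centre in `C(y)`
  have hZy : center G ≤ Cn y := by
    intro z hz
    exact mem_Cn.2 (Subgroup.mem_center_iff.1 hz y).symm
  set d := (center G).relIndex (Cn y) with hd
  have hqd : q ∣ d := by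
    by_contra hnd
    obtain ⟨j, hj⟩ := hyq
    have h1 : y ^ d ∈ center G := by
      have h2 := Subgroup.pow_index_mem ((center G).subgroupOf (Cn y))
        (⟨y, mem_Cn.2 rfl⟩ : Cn y)
      rwa [Subgroup.mem_subgroupOf] at h2
    have h2 : y ^ (q ^ j) ∈ center G := by
      rw [← hj, pow_orderOf_eq_one]
      exact one_mem _
    have hco : d.Coprime (q ^ j) := ((Nat.Prime.coprime_iff_not_dvd hq.out).2 hnd).symm.pow_right j
    exact hy (Cfsg.Agent.Lib.FrobThm.mem_of_pow_mem_of_pow_mem hco h1 h2)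
  have e1 : Nat.card (center G) * d = Nat.card (Cn y) := by
    have h3 := Subgroup.card_mul_index ((center G).subgroupOf (Cn y))
    rwa [Nat.card_congr (Subgroup.subgroupOfEquivOfLe hZy).toEquiv] at h3
  set M := (S : Subgroup (Cn x)).map (Cn x).subtype with hM
  have e2 : Nat.card M * M.relIndex (center G) = Nat.card (center G) := by
    have h3 := Subgroup.card_mul_index (M.subgroupOf (center G))
    rwa [Nat.card_congr (Subgroup.subgroupOfEquivOfLe hSZ).toEquiv] at h3
  have e3 : Nat.card M = Nat.card S := Subgroup.card_map_of_injective (Subtype.val_injective)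
  have e4 : Nat.card S * (S : Subgroup (Cn x)).index = Nat.card (Cn x) := Subgroup.card_mul_index _
  have e5 := h.card_eq hx hy
  have hSpos : 0 < Nat.card S := Nat.card_pos
  have e6 : (S : Subgroup (Cn x)).index = M.relIndex (center G) * d := by
    apply Nat.eq_of_mul_eq_mul_left hSpos
    rw [e4, e5, ← e1, ← e2, e3, mul_assoc]
  apply S.not_dvd_index
  rw [e6]
  exact Dvd.dvd.mul_left hqd _

/-- If two primes have noncentral elements, noncentral centralizers are abelian. -/
theorem TS.comm (h : TS G n) {p q : ℕ} [hp : Fact p.Prime] [hq : Fact q.Prime] (hpq : p ≠ q) {yp yq : G}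
    (hyp : yp ∉ center G) (hypo : ∃ j, orderOf yp = p ^ j)
    (hyq : yq ∉ center G) (hyqo : ∃ j, orderOf yq = q ^ j) {x : G} (hx : x ∉ center G) :
    ∀ a ∈ Cn x, ∀ b ∈ Cn x, a * b = b * a := by
  classical
  obtain ⟨i, r₀, j₀, hr₀, hord₀, hx'⟩ := exists_primePow_not_mem (center G) _ x rfl hx
  set x' := x ^ i with hx'def
  have hCx : Cn x = Cn x' := h.eq_of_le hx hx' (Cn_pow_le x i)
  obtain ⟨r₁, hr₁, hne, y₁, hy₁, hy₁o⟩ : ∃ r₁ : ℕ, r₁.Prime ∧ r₁ ≠ r₀ ∧ ∃ y₁, y₁ ∉ center G ∧ ∃ j, orderOf y₁ = r₁ ^ j := by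
    by_cases h0 : p = r₀
    · exact ⟨q, hq.out, fun h1 => hpq (h0.trans h1.symm), yq, hyq, hyqo⟩
    · exact ⟨p, hp.out, h0, yp, hyp, hypo⟩
  haveI : Fact r₁.Prime := ⟨hr₁⟩
  obtain ⟨t, htC, htc, j₁, htj⟩ := h.exists_elt r₁ hy₁ hy₁o hx'
  have hCt : Cn t = Cn x' := by
    refine h.eq_of_commute_coprime htc hx' (mem_Cn.1 htC) ?_
    rw [htj, hord₀]
    exact Nat.Coprime.pow _ _ ((Nat.coprime_primes hr₁ hr₀).2 hne)
  have key : ∀ v ∈ Cn x, ∀ r j : ℕ, r.Prime → orderOf v = r ^ j → ∀ b ∈ Cn x, v * b = b * v := by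
    intro v hv r j hr hvo b hb
    by_cases hvc : v ∈ center G
    · exact (Subgroup.mem_center_iff.1 hvc b).symm
    have hCv : Cn v = Cn x := by
      by_cases hrr : r = r₁
      · subst hrr
        rw [hCx]
        refine h.eq_of_commute_coprime hvc hx' ?_ ?_
        · rw [hCx] at hv
          exact mem_Cn.1 hv
        · rw [hvo, hord₀]
          exact Nat.Coprime.pow _ _ ((Nat.coprime_primes hr hr₀).2 hne)
      · rw [hCx, ← hCt]
        refine h.eq_of_commute_coprime hvc htc ?_ ?_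
        · rw [hCx, ← hCt] at hv
          exact mem_Cn.1 hv
        · rw [hvo, htj]
          exact Nat.Coprime.pow _ _ ((Nat.coprime_primes hr hr₁).2 hrr)
    rw [← hCv] at hb
    exact (mem_Cn.1 hb).symm
  intro a ha b hb
  by_contra hab
  let a' : Cn x := ⟨a, ha⟩
  have ha' : a' ∉ center (Cn x) := by
    intro h1
    have h2 := Subgroup.mem_center_iff.1 h1 ⟨b, hb⟩
    exact hab (congrArg Subtype.val h2).symm
  obtain ⟨i', r, j, hr, ho, hni⟩ := exists_primePow_not_mem (center (Cn x)) _ a' rfl ha'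
  apply hni
  rw [Subgroup.mem_center_iff]
  intro c
  have h1 : orderOf ((a' ^ i' : Cn x) : G) = r ^ j := by
    rw [Subgroup.orderOf_coe, ho]
  have h2 := key _ (a' ^ i').2 r j hr h1 c c.2
  exact Subtype.ext h2.symm

/-- In the abelian situation a noncentral element of a centralizer determines it. -/
theorem TS.eq_of_mem (h : TS G n) (hcomm : ∀ x, x ∉ center G → ∀ a ∈ Cn x, ∀ b ∈ Cn x, a * b = b * a)
    {x b : G} (hx : x ∉ center G) (hb : b ∉ center G) (hbx : b ∈ Cn x) : Cn b = Cn x := by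
  have hle : Cn x ≤ Cn b := fun c hc => mem_Cn.2 (hcomm x hx c hc b hbx)
  exact (h.eq_of_le hx hb hle).symm

theorem Cn_conj (x g : G) : Cn (g * x * g⁻¹) = (Cn x).map (MulAut.conj g).toMonoidHom := by
  ext c
  rw [Cfsg.Agent.Lib.FF.mem_conj_iff, mem_Cn, mem_Cn]
  constructor
  · intro h1
    have e1 : g⁻¹ * c * g * x = x * (g⁻¹ * c * g) := by
      have h2 : g⁻¹ * (c * (g * x * g⁻¹)) * g = g⁻¹ * (g * x * g⁻¹ * c) * g := by rw [h1]
      have e1 : g⁻¹ * (c * (g * x * g⁻¹)) * g = g⁻¹ * c * g * x := by group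
      have e2 : g⁻¹ * (g * x * g⁻¹ * c) * g = x * (g⁻¹ * c * g) := by group
      rwa [e1, e2] at h2
    exact e1
  · intro h1
    calc c * (g * x * g⁻¹) = g * (g⁻¹ * c * g * x) * g⁻¹ := by group
      _ = g * (x * (g⁻¹ * c * g)) * g⁻¹ := by rw [h1]
      _ = g * x * g⁻¹ * c := by group

/-- Jordan. -/
theorem exists_not_conj {u : G} (hu : u ∉ center G) :
    ∃ x : G, x ∉ center G ∧ ∀ g : G, Cn x ≠ (Cn u).map (MulAut.conj g).toMonoidHom := by
  have hne : Cn u ≠ ⊤ := fun h => hu (Cn_eq_top_iff.1 h)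
  obtain ⟨x, hx⟩ := Cfsg.Agent.Lib.Derangement.exists_not_mem_conj (Cn u) hne
  refine ⟨x, ?_, ?_⟩
  · intro h1
    have h2 := hx 1
    apply h2
    simp only [inv_one, one_mul, mul_one]
    exact mem_Cn.2 (Subgroup.mem_center_iff.1 h1 u).symm
  · intro g h1
    have h2 : x ∈ Cn x := mem_Cn.2 rfl
    rw [h1, Cfsg.Agent.Lib.FF.mem_conj_iff] at h2
    exact hx g h2

end Main

end Cfsg.Agent.Lib.Cl.TwoSizes
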