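import Mathlib
import Cfsg.Agent.Lib.Cl.TwoSizes2

/-! Groups with two conjugacy class sizes: the numerical contradiction for two primes. -/

set_option autoImplicit false

namespace Cfsg.Agent.Lib.Cl.TwoSizes

open Subgroup
open scoped commutatorElement

section Main

variable {G : Type*} [Group G] [Finite G] {n : ℕ}

/-- The `r`-part of an abelian subgroup. -/
theorem exists_part {H : Subgroup G} (hH : ∀ a ∈ H, ∀ b ∈ H, a * b = b * a) (r : ℕ) [hr : Fact r.Prime] :
    ∃ S : Subgroup G, S ≤ H ∧ IsPGroup r S ∧ Nat.card S = r ^ (Nat.card H).factorization r ∧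
      ∀ x ∈ H, (∃ j, orderOf x = r ^ j) → x ∈ S := by
  obtain ⟨S₀⟩ : Nonempty (Sylow r H) := inferInstance
  refine ⟨(S₀ : Subgroup H).map H.subtype, ?_, S₀.2.map _, ?_, ?_⟩
  · rintro _ ⟨y, -, rfl⟩
    exact y.2
  · rw [Subgroup.card_map_of_injective H.subtype_injective]
    exact Sylow.card_eq_multiplicity S₀
  · rintro x hx ⟨j, hj⟩
    let x' : H := ⟨x, hx⟩
    have hn : (zpowers x').Normal := by
      constructor
      intro k hk g
      have : g * k * g⁻¹ = k := by
        have h1 : (g : G) * k = k * g := hH _ g.2 _ k.2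
        have h2 : g * k = k * g := Subtype.ext h1
        rw [h2]
        simp
      rwa [this]
    have hp : IsPGroup r (zpowers x') := by
      apply IsPGroup.of_card (n := j)
      rw [Nat.card_zpowers, Subgroup.orderOf_mk, hj]
    have h3 : zpowers x' ≤ (S₀ : Subgroup H) := hp.le_sylow_of_normal S₀
    exact ⟨x', h3 (mem_zpowers _), rfl⟩

theorem exists_special (r : ℕ) [hr : Fact r.Prime] {y : G} (hy : y ∉ center G)
    (hyo : ∃ j, orderOf y = r ^ j) :
    ∃ R : Sylow r G, ∃ u ∈ (R : Subgroup G), u ∉ center G ∧ ∀ t ∈ (R : Subgroup G), ⁅u, t⁆ ∈ center G := by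
  classical
  obtain ⟨R, hR⟩ := Cfsg.Agent.Lib.ClassSizes.exists_sylow_mem_of_orderOf hyo
  set N : Subgroup (R : Subgroup G) := (center G).subgroupOf (R : Subgroup G) with hN
  haveI hNn : N.Normal := inferInstance
  have hQp : IsPGroup r ((R : Subgroup G) ⧸ N) := R.2.to_quotient _
  have hQn : Nontrivial ((R : Subgroup G) ⧸ N) := by
    rw [QuotientGroup.nontrivial_iff]
    intro h
    have h1 : (⟨y, hR⟩ : (R : Subgroup G)) ∈ N := by rw [h]; trivial
    exact hy h1
  have hQc := hQp.center_nontrivial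
  obtain ⟨w, hw⟩ := exists_ne (1 : center ((R : Subgroup G) ⧸ N))
  obtain ⟨t, ht⟩ := QuotientGroup.mk'_surjective N (w : (R : Subgroup G) ⧸ N)
  have htN : t ∉ N := by
    intro h
    apply hw
    apply Subtype.ext
    rw [← ht]
    simpa [QuotientGroup.eq_one_iff] using h
  refine ⟨R, t, t.2, htN, ?_⟩
  intro s hs
  have h1 : ⁅t, (⟨s, hs⟩ : (R : Subgroup G))⁆ ∈ N := by
    rw [← QuotientGroup.eq_one_iff]
    have h2 : ((⁅t, (⟨s, hs⟩ : (R : Subgroup G))⁆ : (R : Subgroup G)) : (R : Subgroup G) ⧸ N) =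
        ⁅(w : (R : Subgroup G) ⧸ N), ((⟨s, hs⟩ : (R : Subgroup G)) : (R : Subgroup G) ⧸ N)⁆ := by
      rw [← ht]
      rfl
    rw [h2, commutatorElement_eq_one_iff_commute]
    exact (Subgroup.mem_center_iff.1 w.2 _).symm
  exact h1

theorem normalizes_Cn {R : Subgroup G} {u : G} (hu : ∀ t ∈ R, ⁅u, t⁆ ∈ center G) :
    R ≤ normalizer (Cn u : Set G) := by
  intro t ht
  apply Cfsg.Agent.Lib.Hall.mem_normalizer_of_conj_le
  intro c hc
  have hz := hu t⁻¹ (R.inv_mem ht)
  set z := ⁅u, t⁻¹⁆ with hzdef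
  have e : t⁻¹ * u * t = z⁻¹ * u := by
    rw [hzdef, commutatorElement_def]
    group
  have hzi : z⁻¹ ∈ center G := inv_mem hz
  rw [mem_Cn] at hc ⊢
  have h1 : c * (t⁻¹ * u * t) = (t⁻¹ * u * t) * c := by
    rw [e, ← mul_assoc, (Subgroup.mem_center_iff.1 hzi c), mul_assoc, hc, mul_assoc]
  calc (t * c * t⁻¹) * u = t * (c * (t⁻¹ * u * t)) * t⁻¹ := by group
    _ = t * ((t⁻¹ * u * t) * c) * t⁻¹ := by rw [h1]
    _ = u * (t * c * t⁻¹) := by group

theorem part_eq_inf {r : ℕ} [hr : Fact r.Prime] {R : Sylow r G} {H S : Subgroup G}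
    (hRH : (R : Subgroup G) ≤ normalizer (H : Set G)) (hSH : S ≤ H) (hSp : IsPGroup r S)
    (hS : ∀ x ∈ H, (∃ j, orderOf x = r ^ j) → x ∈ S) : S = (R : Subgroup G) ⊓ H := by
  have hord : ∀ x ∈ S, ∃ j, orderOf x = r ^ j := by
    intro x hx
    obtain ⟨j, hj⟩ := IsPGroup.iff_orderOf.1 hSp ⟨x, hx⟩
    exact ⟨j, by rwa [Subgroup.orderOf_mk] at hj⟩
  refine le_antisymm (le_inf ?_ hSH) ?_
  · apply Cfsg.Agent.Lib.Amalgam.le_sylow_of_normalized hSp R
    intro t ht
    apply Cfsg.Agent.Lib.Hall.mem_normalizer_of_conj_le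
    intro s hs
    apply hS
    · exact (Subgroup.mem_normalizer_iff.1 (hRH ht) s).1 (hSH hs)
    · obtain ⟨j, hj⟩ := hord s hs
      exact ⟨j, by rw [Cfsg.Agent.Lib.Techniques.orderOf_conj_eq, hj]⟩
  · rintro x ⟨hxR, hxH⟩
    apply hS x hxH
    obtain ⟨j, hj⟩ := IsPGroup.iff_orderOf.1 R.2 ⟨x, hxR⟩
    exact ⟨j, by rwa [Subgroup.orderOf_mk] at hj⟩

theorem TS.F2 (h : TS G n) (hcomm : ∀ x, x ∉ center G → ∀ a ∈ Cn x, ∀ b ∈ Cn x, a * b = b * a)
    (r : ℕ) [hr : Fact r.Prime] {y : G} (hy : y ∉ center G) (hyo : ∃ j, orderOf y = r ^ j) {c : ℕ}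
    (hc : ∀ x, x ∉ center G → Nat.card (Cn x) = c) (hGc : c * n = Nat.card G) :
    c.factorization r ≤ n.factorization r + (Nat.card (center G)).factorization r := by
  classical
  have hn0 : n ≠ 0 := (lt_trans Nat.zero_lt_one h.one_lt).ne'
  have hc0 : c ≠ 0 := by
    rw [← hc y hy]
    exact Nat.card_pos.ne'
  obtain ⟨R, u, huR, huc, hu⟩ := exists_special r hy hyo
  have hRN := normalizes_Cn hu
  obtain ⟨S, hSH, hSp, hScard, hSmem⟩ := exists_part (hcomm u huc) r
  obtain ⟨T, hTH, hTp, hTcard, hTmem⟩ := exists_part (H := center G)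
    (fun a ha b _ => (Subgroup.mem_center_iff.1 ha b).symm) r
  have hSR := part_eq_inf (R := R) hRN hSH hSp hSmem
  -- a second centralizer
  obtain ⟨x₀, hx₀, hJ⟩ := exists_not_conj huc
  obtain ⟨t₀, ht₀C, ht₀c, -, -⟩ := h.exists_elt r hy hyo hx₀
  have hCt₀ : Cn t₀ = Cn x₀ := h.eq_of_mem hcomm hx₀ ht₀c ht₀C
  obtain ⟨S₁, hS₁H, hS₁p, hS₁card, -⟩ := exists_part (hcomm t₀ ht₀c) r
  obtain ⟨R₁, hR₁⟩ := hS₁p.exists_le_sylow
  obtain ⟨g, hg⟩ := MulAction.exists_smul_eq G R₁ R
  set S₂ : Subgroup G := S₁.map (MulAut.conj g).toMonoidHom with hS₂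
  have hS₂R : S₂ ≤ (R : Subgroup G) := by
    rintro _ ⟨s, hs, rfl⟩
    rw [← hg]
    apply Cfsg.Agent.Lib.ClassSizes.mem_sylow_smul_iff.2
    have : g⁻¹ * ((MulAut.conj g).toMonoidHom s) * g = s := by
      simp [mul_assoc]
    rw [this]
    exact hR₁ hs
  have hS₂card : Nat.card S₂ = Nat.card S₁ := Cfsg.Agent.Lib.FF.card_conj S₁ g
  -- intersections are central
  have hinf : S ⊓ S₂ ≤ T := by
    rintro b ⟨hbS, hbS₂⟩
    have hbc : b ∈ center G := by
      by_contra hbn
      have h1 : Cn b = Cn u := h.eq_of_mem hcomm huc hbn (hSH hbS)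
      obtain ⟨s, hs, rfl⟩ := hbS₂
      have hsc : s ∉ center G := by
        intro h2
        apply hbn
        have : (MulAut.conj g).toMonoidHom s = s := by
          have h3 := Subgroup.mem_center_iff.1 h2 g
          show g * s * g⁻¹ = s
          rw [h3, mul_assoc, mul_inv_cancel, mul_one]
        rwa [this]
      have h2 : Cn s = Cn t₀ := h.eq_of_mem hcomm ht₀c hsc (hS₁H hs)
      have h3 : Cn ((MulAut.conj g).toMonoidHom s) = (Cn s).map (MulAut.conj g).toMonoidHom := by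
        exact Cn_conj s g
      rw [h3, h2, hCt₀] at h1
      apply hJ g⁻¹
      rw [← h1, Cfsg.Agent.Lib.FF.conj_mul_conj, inv_mul_cancel, Cfsg.Agent.Lib.FF.conj_one']
    apply hTmem b hbc
    obtain ⟨j, hj⟩ := IsPGroup.iff_orderOf.1 hSp ⟨b, hbS⟩
    exact ⟨j, by rwa [Subgroup.orderOf_mk] at hj⟩
  have hS₂N : S₂ ≤ normalizer (S : Set G) := by
    have h1 : (R : Subgroup G) ≤ normalizer (S : Set G) := by
      rw [hSR]
      intro t ht
      apply Cfsg.Agent.Lib.Hall.mem_normalizer_of_conj_le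
      rintro s ⟨hsR, hsH⟩
      exact ⟨(R : Subgroup G).mul_mem ((R : Subgroup G).mul_mem ht hsR) ((R : Subgroup G).inv_mem ht),
        (Subgroup.mem_normalizer_iff.1 (hRN ht) s).1 hsH⟩
    exact hS₂R.trans h1
  have e := Cfsg.Agent.Lib.FrobThm.card_sup_mul_inf hS₂N
  have hsup : S₂ ⊔ S ≤ (R : Subgroup G) := sup_le hS₂R (by rw [hSR]; exact inf_le_left)
  have h1 : Nat.card (S₂ ⊔ S : Subgroup G) ∣ Nat.card R := Subgroup.card_dvd_of_le hsup
  have h2 : Nat.card (S ⊓ S₂ : Subgroup G) ∣ Nat.card T := Subgroup.card_dvd_of_le hinf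
  have hRcard : Nat.card R = r ^ (c.factorization r + n.factorization r) := by
    have := Sylow.card_eq_multiplicity R
    rw [← hGc, Nat.factorization_mul hc0 hn0] at this
    simpa using this
  have hcu : Nat.card (Cn u) = c := hc u huc
  have hct : Nat.card (Cn t₀) = c := hc t₀ ht₀c
  rw [hcu] at hScard
  rw [hct] at hS₁card
  have hdvd : r ^ c.factorization r * r ^ c.factorization r ∣
      r ^ (c.factorization r + n.factorization r) * r ^ (Nat.card (center G)).factorization r := by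
    have h3 : Nat.card S₂ * Nat.card S = r ^ c.factorization r * r ^ c.factorization r := by
      rw [hS₂card, hS₁card, hScard]
    rw [← h3, ← e, ← hRcard, ← hTcard]
    exact mul_dvd_mul h1 h2
  rw [← pow_add, ← pow_add] at hdvd
  have h4 := (Nat.pow_dvd_pow_iff_le_right (hr.out.one_lt)).1 hdvd
  omega

theorem TS.F1 (h : TS G n) (hcomm : ∀ x, x ∉ center G → ∀ a ∈ Cn x, ∀ b ∈ Cn x, a * b = b * a)
    {p q : ℕ} [hp : Fact p.Prime] [hq : Fact q.Prime] (hpq : p ≠ q) {yp yq : G}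
    (hyp : yp ∉ center G) (hypo : ∃ j, orderOf yp = p ^ j)
    (hyq : yq ∉ center G) (hyqo : ∃ j, orderOf yq = q ^ j) {c : ℕ}
    (hc : ∀ x, x ∉ center G → Nat.card (Cn x) = c) (hGc : c * n = Nat.card G) :
    p ^ n.factorization p < q ^ (c.factorization q - (Nat.card (center G)).factorization q) := by
  classical
  have hn0 : n ≠ 0 := (lt_trans Nat.zero_lt_one h.one_lt).ne'
  have hc0 : c ≠ 0 := by
    rw [← hc yp hyp]
    exact Nat.card_pos.ne'
  obtain ⟨R, u, huR, huc, hu⟩ := exists_special p hyp hypo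
  have hRN := normalizes_Cn hu
  obtain ⟨Sp, hSpH, hSpp, hSpcard, hSpmem⟩ := exists_part (hcomm u huc) p
  obtain ⟨Sq, hSqH, hSqp, hSqcard, hSqmem⟩ := exists_part (hcomm u huc) q
  obtain ⟨T, hTH, hTp, hTcard, hTmem⟩ := exists_part (H := center G)
    (fun a ha b _ => (Subgroup.mem_center_iff.1 ha b).symm) q
  have hSR := part_eq_inf (R := R) hRN hSpH hSpp hSpmem
  have hcu : Nat.card (Cn u) = c := hc u huc
  rw [hcu] at hSpcard hSqcard
  have hRcard : Nat.card R = p ^ (c.factorization p + n.factorization p) := by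
    have := Sylow.card_eq_multiplicity R
    rw [← hGc, Nat.factorization_mul hc0 hn0] at this
    simpa using this
  -- the index of `C(u)` in `R`
  have hidx : (Cn u).relIndex (R : Subgroup G) = p ^ n.factorization p := by
    have h1 := Subgroup.card_mul_index ((Cn u).subgroupOf (R : Subgroup G))
    have h2 : Nat.card ((Cn u).subgroupOf (R : Subgroup G)) = Nat.card Sp := by
      have h3 : ((Cn u).subgroupOf (R : Subgroup G)).map (R : Subgroup G).subtype = Sp := by
        rw [Subgroup.subgroupOf_map_subtype, hSR, inf_comm]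
      rw [← h3, Subgroup.card_map_of_injective (Subgroup.subtype_injective _)]
    rw [h2, hSpcard] at h1
    have h4 : Nat.card (R : Subgroup G) = p ^ c.factorization p * p ^ n.factorization p := by
      rw [← pow_add]
      exact hRcard
    rw [h4] at h1
    exact Nat.eq_of_mul_eq_mul_left (pow_pos hp.out.pos _) h1
  -- the set of noncentral elements of `Sq`
  let Y : Set G := (Sq : Set G) \ ((Sq ⊓ center G : Subgroup G) : Set G)
  have hYmem : ∀ y, y ∈ Y ↔ y ∈ Sq ∧ y ∉ center G := by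
    intro y
    constructor
    · rintro ⟨h1, h2⟩
      exact ⟨h1, fun h3 => h2 ⟨h1, h3⟩⟩
    · rintro ⟨h1, h2⟩
      exact ⟨h1, fun h3 => h2 h3.2⟩
  have hYconj : ∀ t ∈ (R : Subgroup G), ∀ y ∈ Y, t * y * t⁻¹ ∈ Y := by
    intro t ht y hy
    obtain ⟨hy1, hy2⟩ := (hYmem y).1 hy
    refine (hYmem _).2 ⟨?_, ?_⟩
    · apply hSqmem
      · exact (Subgroup.mem_normalizer_iff.1 (hRN ht) y).1 (hSqH hy1)
      · obtain ⟨j, hj⟩ := IsPGroup.iff_orderOf.1 hSqp ⟨y, hy1⟩
        refine ⟨j, ?_⟩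
        rw [Cfsg.Agent.Lib.Techniques.orderOf_conj_eq]
        rwa [Subgroup.orderOf_mk] at hj
    · intro h3
      apply hy2
      have h7 : (center G).Normal := inferInstance
      have h6 := h7.conj_mem _ h3 t⁻¹
      simpa [mul_assoc] using h6
  letI act : MulAction (R : Subgroup G) Y :=
    { smul := fun t y => ⟨(t : G) * y * (t : G)⁻¹, hYconj t t.2 y y.2⟩
      one_smul := fun y => Subtype.ext (by
        show ((1 : (R : Subgroup G)) : G) * y * ((1 : (R : Subgroup G)) : G)⁻¹ = y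
        simp)
      mul_smul := fun a b y => Subtype.ext (by
        show ((a * b : (R : Subgroup G)) : G) * y * ((a * b : (R : Subgroup G)) : G)⁻¹ =
          (a : G) * ((b : G) * y * (b : G)⁻¹) * (a : G)⁻¹
        simp only [Subgroup.coe_mul]
        group) }
  have hstab : ∀ y : Y, (MulAction.stabilizer (R : Subgroup G) y).index = p ^ n.factorization p := by
    intro y
    obtain ⟨hy1, hy2⟩ := (hYmem y).1 y.2
    have hCy : Cn (y : G) = Cn u := h.eq_of_mem hcomm huc hy2 (hSqH hy1)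
    have e : MulAction.stabilizer (R : Subgroup G) y = (Cn u).subgroupOf (R : Subgroup G) := by
      ext t
      rw [MulAction.mem_stabilizer_iff, Subgroup.mem_subgroupOf, ← hCy, mem_Cn]
      constructor
      · intro h1
        have h2 : (t : G) * y * (t : G)⁻¹ = y := congrArg Subtype.val h1
        exact mul_inv_eq_iff_eq_mul.1 h2
      · intro h1
        apply Subtype.ext
        show (t : G) * y * (t : G)⁻¹ = y
        exact mul_inv_eq_iff_eq_mul.2 h1
    rw [e]
    exact hidx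
  have hdvd : p ^ n.factorization p ∣ Nat.card Y := by
    haveI : Fintype (MulAction.orbitRel.Quotient (R : Subgroup G) Y) := Fintype.ofFinite _
    rw [Nat.card_congr (MulAction.selfEquivSigmaOrbitsQuotientStabilizer (R : Subgroup G) Y), Nat.card_sigma]
    refine Finset.dvd_sum fun ω _ => ?_
    exact (hstab _).symm ▸ dvd_rfl
  have hinfT : Sq ⊓ center G = T := by
    apply le_antisymm
    · rintro x ⟨hx1, hx2⟩
      apply hTmem x hx2
      obtain ⟨j, hj⟩ := IsPGroup.iff_orderOf.1 hSqp ⟨x, hx1⟩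
      exact ⟨j, by rwa [Subgroup.orderOf_mk] at hj⟩
    · intro x hx
      refine ⟨?_, hTH hx⟩
      apply hSqmem x (mem_Cn.2 (Subgroup.mem_center_iff.1 (hTH hx) u).symm)
      obtain ⟨j, hj⟩ := IsPGroup.iff_orderOf.1 hTp ⟨x, hx⟩
      exact ⟨j, by rwa [Subgroup.orderOf_mk] at hj⟩
  have hYcard : Nat.card Y = q ^ c.factorization q - q ^ (Nat.card (center G)).factorization q := by
    have h1 : Y.ncard = (Sq : Set G).ncard - ((Sq ⊓ center G : Subgroup G) : Set G).ncard := by
      apply Set.ncard_diff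
      · intro x hx
        exact hx.1
      · exact Set.toFinite _
    rw [Nat.card_coe_set_eq, h1, hinfT]
    have h2 : (Sq : Set G).ncard = Nat.card Sq := (Nat.card_coe_set_eq _).symm
    have h3 : (T : Set G).ncard = Nat.card T := (Nat.card_coe_set_eq _).symm
    rw [h2, h3, hSqcard, hTcard]
  -- `Y` is nonempty
  obtain ⟨t, htC, htc, htj⟩ := h.exists_elt q hyq hyqo huc
  have htY : t ∈ Y := (hYmem t).2 ⟨hSqmem t htC htj, htc⟩
  have hYpos : 0 < Nat.card Y := by
    haveI : Nonempty Y := ⟨⟨t, htY⟩⟩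
    exact Nat.card_pos
  set α := c.factorization q with hα
  set ζ := (Nat.card (center G)).factorization q with hζ
  have hlt : ζ < α := by
    rw [hYcard] at hYpos
    have h1 : q ^ ζ < q ^ α := Nat.sub_pos_iff_lt.1 hYpos
    exact (Nat.pow_lt_pow_iff_right hq.out.one_lt).1 h1
  have e : q ^ α - q ^ ζ = q ^ ζ * (q ^ (α - ζ) - 1) := by
    rw [Nat.mul_sub, mul_one, ← pow_add]
    congr 2
    omega
  rw [hYcard, e] at hdvd
  have hco : (p ^ n.factorization p).Coprime (q ^ ζ) :=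
    Nat.Coprime.pow _ _ ((Nat.coprime_primes hp.out hq.out).2 hpq)
  have h5 := hco.dvd_of_dvd_mul_left hdvd
  have h6 : 0 < q ^ (α - ζ) - 1 := by
    have : 1 < q ^ (α - ζ) := Nat.one_lt_pow (by omega) hq.out.one_lt
    omega
  have h7 := Nat.le_of_dvd h6 h5
  omega

/-- Only one prime has noncentral elements. -/
theorem TS.no_two (h : TS G n) {p q : ℕ} [hp : Fact p.Prime] [hq : Fact q.Prime] (hpq : p ≠ q) {yp yq : G}
    (hyp : yp ∉ center G) (hypo : ∃ j, orderOf yp = p ^ j)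
    (hyq : yq ∉ center G) (hyqo : ∃ j, orderOf yq = q ^ j) : False := by
  have hcomm : ∀ x, x ∉ center G → ∀ a ∈ Cn x, ∀ b ∈ Cn x, a * b = b * a :=
    fun x hx => h.comm hpq hyp hypo hyq hyqo hx
  set c := Nat.card (Cn yp) with hcdef
  have hc : ∀ x, x ∉ center G → Nat.card (Cn x) = c := fun x hx => h.card_eq hx hyp
  have hGc : c * n = Nat.card G := h.card_mul hyp
  have a1 := h.F1 hcomm hpq hyp hypo hyq hyqo hc hGc
  have a2 := h.F1 hcomm hpq.symm hyq hyqo hyp hypo hc hGc
  have b1 := h.F2 hcomm q hyq hyqo hc hGc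
  have b2 := h.F2 hcomm p hyp hypo hc hGc
  have c1 : q ^ (c.factorization q - (Nat.card (center G)).factorization q) ≤ q ^ n.factorization q :=
    Nat.pow_le_pow_right hq.out.pos (by omega)
  have c2 : p ^ (c.factorization p - (Nat.card (center G)).factorization p) ≤ p ^ n.factorization p :=
    Nat.pow_le_pow_right hp.out.pos (by omega)
  omega

end Main

end Cfsg.Agent.Lib.Cl.TwoSizes
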