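import Mathlib
import Cfsg.Agent.Lib.Cl.TwoSizes3

/-! Groups with two conjugacy class sizes: the structure theorem (Itô). -/

set_option autoImplicit false

namespace Cfsg.Agent.Lib.Cl.TwoSizes

open Subgroup
open scoped commutatorElement

section Main

variable {G : Type*} [Group G] [Finite G] {n : ℕ}

/-- Central elements of order coprime to `p`. -/
def centralCo (p : ℕ) (hq : ∀ x : G, (orderOf x).Coprime p → x ∈ center G) : Subgroup G where
  carrier := {x | (orderOf x).Coprime p}
  mul_mem' := by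
    intro a b ha hb
    have hc : Commute a b := Subgroup.mem_center_iff.1 (hq b hb) a
    exact Nat.Coprime.coprime_dvd_left hc.orderOf_mul_dvd_mul_orderOf (Nat.Coprime.mul_left ha hb)
  one_mem' := by
    show (orderOf (1 : G)).Coprime p
    rw [orderOf_one]
    exact Nat.coprime_one_left p
  inv_mem' := by
    intro a ha
    show (orderOf a⁻¹).Coprime p
    rw [orderOf_inv]
    exact ha

theorem TS.structure (h : TS G n) (hex : ∃ x : G, x ∉ center G) :
    ∃ (p : ℕ) (_ : Fact p.Prime) (a : ℕ), n = p ^ a ∧ ∀ P : Sylow p G, (P : Subgroup G).Normal ∧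
      (∃ N : Subgroup G, N.Normal ∧ N.IsComplement' (P : Subgroup G) ∧ IsMulCommutative N ∧
        ∀ x ∈ N, ∀ y ∈ (P : Subgroup G), x * y = y * x) ∧
      ∃ A : Subgroup (P : Subgroup G), A.Normal ∧ IsMulCommutative A ∧ ∀ y : (P : Subgroup G), y ^ p ∈ A := by
  classical
  obtain ⟨x₀, hx₀⟩ := hex
  obtain ⟨i₀, p, j₀, hp, ho₀, hn₀⟩ := exists_primePow_not_mem (center G) _ x₀ rfl hx₀
  haveI : Fact p.Prime := ⟨hp⟩
  have hq : ∀ x : G, (orderOf x).Coprime p → x ∈ center G := by
    intro x hx
    by_contra hxc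
    obtain ⟨i, r, j, hr, ho, hni⟩ := exists_primePow_not_mem (center G) _ x rfl hxc
    haveI : Fact r.Prime := ⟨hr⟩
    have hj : j ≠ 0 := by
      rintro rfl
      rw [pow_zero, orderOf_eq_one_iff] at ho
      rw [ho] at hni
      exact hni (one_mem _)
    have hrd : r ∣ orderOf x := by
      have h1 : orderOf (x ^ i) ∣ orderOf x := orderOf_pow_dvd i
      rw [ho] at h1
      exact (dvd_pow_self r hj).trans h1
    have hrp : r ≠ p := by
      rintro rfl
      exact hr.one_lt.ne' (Nat.eq_one_of_dvd_coprimes hx hrd dvd_rfl)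
    exact h.no_two hrp hni ⟨j, ho⟩ hn₀ ⟨j₀, ho₀⟩
  set N : Subgroup G := centralCo p hq with hN
  have hNmem : ∀ x, x ∈ N ↔ (orderOf x).Coprime p := fun x => Iff.rfl
  have hNc : N ≤ center G := fun x hx => hq x hx
  have hNn : N.Normal := by
    constructor
    intro x hx g
    have h1 : g * x * g⁻¹ = x := by
      rw [Subgroup.mem_center_iff.1 (hNc hx) g]
      simp
    rwa [h1]
  have hNcard : (Nat.card N).Coprime p := by
    rw [Nat.coprime_comm, Nat.Prime.coprime_iff_not_dvd hp]
    intro hd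
    obtain ⟨t, ht⟩ := exists_prime_orderOf_dvd_card' (G := N) p hd
    have h1 : (orderOf (t : G)).Coprime p := t.2
    rw [Subgroup.orderOf_coe, ht] at h1
    exact hp.one_lt.ne' (Nat.coprime_self p |>.1 h1)
  have hQ : IsPGroup p (G ⧸ N) := by
    intro g
    obtain ⟨x, rfl⟩ := QuotientGroup.mk'_surjective N g
    refine ⟨(orderOf x).factorization p, ?_⟩
    rw [← map_pow, QuotientGroup.mk'_apply, QuotientGroup.eq_one_iff, hNmem]
    have hne : p ^ (orderOf x).factorization p ≠ 0 := pow_ne_zero _ hp.ne_zero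
    rw [orderOf_pow' x hne, Nat.gcd_eq_right (Nat.ordProj_dvd _ _)]
    exact (Nat.coprime_ordCompl hp (orderOf_pos x).ne').symm
  obtain ⟨l, hl⟩ := IsPGroup.iff_card.1 hQ
  have hGcard : Nat.card N * p ^ l = Nat.card G := by
    rw [← hl]
    exact Subgroup.card_mul_index N
  have hindex : N.index = p ^ l := hl
  have hdvdn : n ∣ p ^ l := by
    have h1 : N ≤ Cn (x₀ ^ i₀) := hNc.trans (fun z hz => mem_Cn.2 (Subgroup.mem_center_iff.1 hz _).symm)
    rw [← h.index_eq hn₀, ← hindex]
    exact Subgroup.index_dvd_of_le h1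
  obtain ⟨a, -, ha⟩ := (Nat.dvd_prime_pow hp).1 hdvdn
  refine ⟨p, inferInstance, a, ha, ?_⟩
  intro P
  have hPcard : Nat.card (P : Subgroup G) = p ^ l := by
    rw [Sylow.card_eq_multiplicity P, ← hGcard]
    have hN0 : Nat.card N ≠ 0 := Nat.card_pos.ne'
    rw [Nat.factorization_mul hN0 (pow_ne_zero _ hp.ne_zero)]
    have h1 : (Nat.card N).factorization p = 0 :=
      Nat.factorization_eq_zero_of_not_dvd (fun hd => by
        exact hp.one_lt.ne' (Nat.eq_one_of_dvd_coprimes hNcard hd dvd_rfl))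
    simp [h1, hp.factorization_pow]
  have hcompl : N.IsComplement' (P : Subgroup G) := by
    apply Subgroup.isComplement'_of_coprime
    · rw [hPcard]
      exact hGcard
    · rw [hPcard]
      exact hNcard.pow_right l
  have hPn : (P : Subgroup G).Normal := by
    rw [← Subgroup.normalizer_eq_top_iff, eq_top_iff, ← hcompl.sup_eq_top]
    refine sup_le ?_ Subgroup.le_normalizer
    intro z hz
    rw [Subgroup.mem_normalizer_iff]
    intro y
    have h1 : z * y * z⁻¹ = y := by
      rw [← Subgroup.mem_center_iff.1 (hNc hz) y, mul_assoc, mul_inv_cancel, mul_one]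
    rw [h1]
  refine ⟨hPn, ⟨N, hNn, hcompl, ?_, ?_⟩, ?_⟩
  · exact ⟨⟨fun a b => Subtype.ext (Subgroup.mem_center_iff.1 (hNc a.2) b).symm⟩⟩
  · intro x hx y _
    exact (Subgroup.mem_center_iff.1 (hNc hx) y).symm
  · apply exists_abelian_of_star P.2
    intro y
    by_cases hy : y ^ p ∈ center (P : Subgroup G)
    · exact Or.inl hy
    right
    intro t ht
    have hy1 : ((y : G)) ^ p ∉ center G := by
      intro h1
      apply hy
      rw [Subgroup.mem_center_iff]
      intro c
      apply Subtype.ext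
      have := Subgroup.mem_center_iff.1 h1 (c : G)
      simpa using this
    have hy2 : (y : G) ∉ center G := fun h1 => hy1 (Subgroup.pow_mem _ h1 p)
    have e : Cn (y : G) = Cn ((y : G) ^ p) := h.eq_of_le hy2 hy1 (Cn_pow_le _ p)
    have h2 : (t : G) ∈ Cn ((y : G) ^ p) := by
      rw [mem_Cn]
      exact congrArg Subtype.val ht
    rw [← e, mem_Cn] at h2
    exact Subtype.ext h2

end Main

end Cfsg.Agent.Lib.Cl.TwoSizes
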